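import Cfsg.Agent.H7.Descent

/-!
Types of the fixed forms and conjugacy of semisimilarities of finite order.
-/

set_option autoImplicit false

namespace Cfsg.Agent.H7

open QuadraticMap Module Subgroup

section fields
variable {F₀ F : Type*} [Field F₀] [Field F] {σ : F ≃+* F} {e : F₀ →+* F}
  (he : ∀ x, σ x = x ↔ ∃ y, e y = x)
include he

lemma root_fixed_or {a b : F₀} {t : F} (ht : t ^ 2 + e a * t + e b = 0) :
    σ t = t ∨ σ t = -e a - t := by
  have h1 := congrArg σ ht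
  simp only [map_add, map_mul, map_pow, (he _).2 ⟨_, rfl⟩, map_zero] at h1
  have : (σ t - t) * (σ t - (-e a - t)) = 0 := by linear_combination h1 - ht
  exact (mul_eq_zero.1 this).imp sub_eq_zero.1 sub_eq_zero.1

lemma exists_root_of_fixed {a b : F₀} {t : F} (ht : t ^ 2 + e a * t + e b = 0) (h : σ t = t) :
    ∃ s : F₀, s ^ 2 + a * s + b = 0 := by
  obtain ⟨s, rfl⟩ := (he t).1 h
  exact ⟨s, e.injective (by simpa using ht)⟩

lemma exists_root_of_odd (hr : Odd (orderOf σ)) {a b : F₀} {t : F}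
    (ht : t ^ 2 + e a * t + e b = 0) : ∃ s : F₀, s ^ 2 + a * s + b = 0 := by
  refine exists_root_of_fixed he ht ?_
  have h1 : (σ ^ 2) t = t := by
    rw [pow_two, RingAut.mul_apply]
    rcases root_fixed_or he ht with h | h
    · rw [h, h]
    · rw [h, map_sub, map_neg, (he _).2 ⟨_, rfl⟩, h]; ring
  have h2 : ∀ n : ℕ, ((σ ^ 2) ^ n) t = t := fun n => by
    induction n with
    | zero => rfl
    | succ n ih => rw [pow_succ, RingAut.mul_apply, h1, ih]
  obtain ⟨k, hk⟩ := hr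
  have := h2 (k + 1)
  rwa [← pow_mul, show 2 * (k + 1) = orderOf σ + 1 by omega, pow_succ, pow_orderOf_eq_one,
    one_mul] at this

variable [Finite F]

lemma finite_of_he : Finite F₀ := Finite.of_injective e e.injective

lemma card_of_he : Nat.card F₀ = Nat.card (H6.fixF σ) :=
  Nat.card_eq_of_bijective (fun y => ⟨e y, (he _).2 ⟨y, rfl⟩⟩)
    ⟨fun _ _ h => e.injective (congrArg Subtype.val h), fun x => by
      obtain ⟨y, hy⟩ := (he x).1 x.2
      exact ⟨y, Subtype.ext hy⟩⟩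

lemma exists_root_of_he (hr : Even (orderOf σ)) (a b : F₀) :
    ∃ t : F, t ^ 2 + e a * t + e b = 0 := by
  letI := e.toAlgebra
  have := finite_of_he he
  have h1 := H6.card_fixF_pow σ
  rw [← card_of_he he, Module.natCard_eq_pow_finrank (K := F₀) (V := F)] at h1
  exact exists_root_of_even (F := F₀) (K := F)
    (Nat.pow_right_injective Finite.one_lt_card h1 ▸ hr.two_dvd) a b

variable [Finite F₀]

lemma chi_e_of_odd (hr : Odd (orderOf σ)) (a : F₀) : chi (e a) = chi a := by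
  by_cases ha : a = 0
  · simp [ha, chi_zero]
  by_cases h : IsSquare a
  · rw [(chi_eq_one_iff ha).2 h, (chi_eq_one_iff (by simpa using ha)).2 (h.map e)]
  · rw [chi_eq_neg_one_iff.2 h, chi_eq_neg_one_iff]
    rintro ⟨t, ht⟩
    obtain ⟨s, hs⟩ := exists_root_of_odd he hr (a := 0) (b := -a) (t := t) (by simp [ht, pow_two])
    exact h ⟨s, by linear_combination -hs⟩

omit [Finite F₀] in
lemma chi_e_of_even (hr : Even (orderOf σ)) {a : F₀} (ha : a ≠ 0) : chi (e a) = 1 := by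
  obtain ⟨t, ht⟩ := exists_root_of_he he hr 0 (-a)
  exact (chi_eq_one_iff (by simpa using ha)).2 ⟨t, by simp at ht; linear_combination -ht⟩

lemma chi_eq_chi_nrm (hr : orderOf σ = 2) {x : F} {y : F₀} (hx : x ≠ 0) (h : e y = x * σ x) :
    chi x = chi y := by
  have hσ : ∀ t, σ (σ t) = t := fun t => by
    rw [← RingAut.mul_apply, ← pow_two, ← hr, pow_orderOf_eq_one]; rfl
  have hn : ∀ t : F, ∃ n, e n = t * σ t := fun t => (he _).1 (by rw [map_mul, hσ, mul_comm])
  have hy : y ≠ 0 := by rintro rfl; simp [hx] at h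
  by_cases h1 : IsSquare x
  · rw [(chi_eq_one_iff hx).2 h1, eq_comm, chi_eq_one_iff hy]
    obtain ⟨t, rfl⟩ := h1
    obtain ⟨n, hn⟩ := hn t
    exact ⟨n, e.injective (by rw [h, map_mul, map_mul, hn]; ring)⟩
  · rw [chi_eq_neg_one_iff.2 h1, eq_comm, chi_eq_neg_one_iff]
    rintro ⟨s, rfl⟩
    have hs : e s ≠ 0 := by simpa using hy
    obtain ⟨l, hl0, hl⟩ := H6.exists_h90 hr two_pos (c := x / e s) (by
      rw [H6.nrm_succ, H6.nrm_succ]
      simp only [H6.nrm, Finset.range_zero, Finset.prod_empty, map_one, mul_one, map_div₀,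
        (he _).2 ⟨s, rfl⟩]
      field_simp
      rw [← h, map_mul, pow_two])
    obtain ⟨n, hn⟩ := hn l
    have hn0 : n ≠ 0 := by rintro rfl; simp [hl0] at hn
    have h2 : x = l ^ 2 * e (s / n) := by
      have : σ l ≠ 0 := by simpa using hl0
      rw [map_div₀, hn]
      field_simp at hl ⊢
      exact hl
    refine h1 ((chi_eq_one_iff hx).1 ?_)
    rw [h2, map_mul, chi_sq hl0, chi_e_of_even he (by simp [hr]) (div_ne_zero (by simpa using hs) hn0),
      one_mul]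

end fields

lemma he_fixF {F : Type*} [Field F] (σ : F ≃+* F) (x : F) :
    σ x = x ↔ ∃ y, (H6.fixF σ).subtype y = x :=
  ⟨fun h => ⟨⟨x, h⟩, rfl⟩, by rintro ⟨y, rfl⟩; exact y.2⟩

variable {F₀ F V₀ V : Type*} [Field F₀] [Field F] [AddCommGroup V₀] [Module F₀ V₀]
  [AddCommGroup V] [Module F V] {Q : QuadraticForm F V}

lemma exists_sim_of_odd [Finite F] [FiniteDimensional F V] {W : Type*} [AddCommGroup W] [Module F W]
    [FiniteDimensional F W] {Q' : QuadraticForm F W} (h2 : (2 : F) ≠ 0) (hQ : ND Q) (hQ' : ND Q')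
    (ho : Odd (finrank F V)) (hd : finrank F V = finrank F W) :
    ∃ (ψ : V ≃ₗ[F] W) (c : F), c ≠ 0 ∧ ∀ x, Q' (ψ x) = c * Q x := by
  have key : ∀ c : F, c ≠ 0 → disc (c • Q) = chi c * disc Q := fun c hc => by
    have : gram (polarBilin (c • Q)) (finBasis F V) = c • gram (polarBilin Q) (finBasis F V) := by
      ext i k; simp [gram, polar]; ring
    obtain ⟨k, hk⟩ := ho
    rw [disc, this, Matrix.det_smul, map_mul, Fintype.card_fin, disc]
    congr 1
    rw [hk, pow_succ, pow_mul', map_mul, chi_sq (pow_ne_zero _ hc), one_mul]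
  obtain ⟨c, hc, h⟩ : ∃ c : F, c ≠ 0 ∧ chi c * disc Q = disc Q' := by
    obtain ⟨a, ha⟩ := exists_chi_eq_neg_one h2
    by_cases h : disc Q = disc Q'
    · exact ⟨1, one_ne_zero, by simp [h]⟩
    · refine ⟨a, a.ne_zero, ?_⟩
      rcases disc_dichotomy hQ with h1 | h1 <;> rcases disc_dichotomy hQ' with h3 | h3 <;>
        simp_all
  obtain ⟨ψ, hψ⟩ := exists_isometry_of_disc h2 (hQ.sim (Q' := c • Q) (LinearEquiv.refl F V) hc
    fun _ => rfl) hQ' hd ((key c hc).trans h)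
  exact ⟨ψ, c, hc, hψ⟩

/-- `γ` stabilises a maximal totally singular subspace of half the dimension -/
def StabMax (γ : SS Q) : Prop := ∃ U, TS Q U ∧ 2 * finrank F U = finrank F V ∧ γ.img U = U

/-- `γ` preserves the two classes of maximal totally singular subspaces -/
def Cls (γ : SS Q) : Prop := ∃ d ∈ DS Q, StabMax (d * γ)

lemma SS.img_span_of_fix (g : SS Q) {s : Set V} (h : ∀ x ∈ s, g.γ x = x) :
    g.img (Submodule.span F s) = Submodule.span F s := by
  apply le_antisymm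
  · rintro _ ⟨x, hx, rfl⟩
    induction hx using Submodule.span_induction with
    | mem x hx => rw [h x hx]; exact Submodule.subset_span hx
    | zero => simp
    | add x y _ _ h1 h2 => rw [map_add]; exact add_mem h1 h2
    | smul a x _ h1 => rw [g.map_smul]; exact Submodule.smul_mem _ _ h1
  · exact Submodule.span_le.2 fun x hx => ⟨x, Submodule.subset_span hx, h x hx⟩

lemma SS.img_inv_eq {g : SS Q} {U W : Submodule F V} (h : g.img U = W) : g⁻¹.img W = U := by
  rw [← h, ← SS.img_mul, inv_mul_cancel, SS.img_one]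

lemma StabMax.plusType {γ : SS Q} (h : StabMax γ) : PlusType Q :=
  let ⟨U, h1, h2, _⟩ := h; ⟨U, h1, h2⟩

lemma Cls.plusType {γ : SS Q} (h : Cls γ) : PlusType Q :=
  let ⟨_, _, h⟩ := h; h.plusType

variable [FiniteDimensional F V]

lemma StabMax.cls {γ : SS Q} (h : StabMax γ) : Cls γ := ⟨1, one_mem _, by rwa [one_mul]⟩

lemma cls_mul_iff {γ d : SS Q} (hd : d ∈ DS Q) : Cls (d * γ) ↔ Cls γ :=
  ⟨fun ⟨d', h1, h2⟩ => ⟨d' * d, mul_mem h1 hd, by rwa [mul_assoc]⟩,
    fun ⟨d', h1, h2⟩ => ⟨d' * d⁻¹, mul_mem h1 (inv_mem hd), by simpa using h2⟩⟩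

variable [Finite F]

section even
variable (hQ : ND Q) (hE : NonExc Q) (hev : Even (finrank F V)) [Nontrivial V]
include hQ hE hev

lemma inv_mul_conj_mem_DS (g : SS Q) {x : SS Q} (hx : x ∈ GO Q) : x⁻¹ * (g * x * g⁻¹) ∈ DS Q := by
  rw [mul_mem_DS_iff hQ hE hev (inv_mem hx) ((instNormalGO Q).conj_mem x hx g), inv_mem_iff,
    instNormalDS.mem_comm_iff, inv_mul_cancel_left]

lemma comm_mem_DS (g h : SS Q) : g * h * g⁻¹ * h⁻¹ ∈ DS Q := by
  have := H6.ringAut_isCyclic (F := F)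
  have h1 := (MonoidHom.isMulCommutative_of_isCyclic_of_ker_le_center
    (QuotientGroup.lift (DS Q) (SS.sig Q) DS_le_GO) (fun x hx => by
      obtain ⟨x, rfl⟩ := QuotientGroup.mk_surjective x
      rw [mem_center_iff]
      intro y
      obtain ⟨y, rfl⟩ := QuotientGroup.mk_surjective y
      rw [← QuotientGroup.mk_mul, ← QuotientGroup.mk_mul, QuotientGroup.eq]
      have := inv_mul_conj_mem_DS hQ hE hev y⁻¹ (x := x) hx
      simpa [mul_assoc] using this)).is_comm.comm (g : SS Q ⧸ DS Q) (h : SS Q ⧸ DS Q)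
  rw [← QuotientGroup.eq_one_iff]
  simp [h1]

lemma cls_conj_iff (g γ : SS Q) : Cls (g * γ * g⁻¹) ↔ Cls γ := by
  rw [← cls_mul_iff (γ := γ) (comm_mem_DS hQ hE hev g γ), inv_mul_cancel_right]

lemma StabMax.mem_DS {γ γ' : SS Q} (h : StabMax γ) (h' : StabMax γ') (hσ : γ.σ = γ'.σ) :
    γ' * γ⁻¹ ∈ DS Q := by
  obtain ⟨U, h1, h2, h3⟩ := h
  obtain ⟨U', h4, h5, h6⟩ := h'
  obtain ⟨k, hk⟩ := h1.exists_img_eq hQ h4 (by omega)
  have h7 : (SS.ofO Q k)⁻¹ * γ' * SS.ofO Q k * γ⁻¹ ∈ DS Q := by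
    refine mem_DS_of_stab hQ hE h1 h2 (by simp [mem_GO, hσ]) ?_
    rw [SS.img_mul, SS.img_mul, SS.img_mul, SS.img_inv_eq h3, SS.img_ofO, hk, h6]
    exact SS.img_inv_eq hk
  have h8 := mul_mem (inv_mem (comm_mem_DS hQ hE hev (SS.ofO Q k)⁻¹ γ')) h7
  simpa [mul_assoc] using h8

lemma Cls.mem_DS {γ γ' : SS Q} (h : Cls γ) (h' : Cls γ') (hσ : γ.σ = γ'.σ) : γ' * γ⁻¹ ∈ DS Q := by
  obtain ⟨d, hd, h⟩ := h
  obtain ⟨d', hd', h'⟩ := h'
  have := h.mem_DS hQ hE hev h' (by simp [mem_GO.1 (DS_le_GO hd), mem_GO.1 (DS_le_GO hd'), hσ])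
  rwa [mul_inv_rev, ← mul_assoc, mul_mem_cancel_right (inv_mem hd), mul_assoc,
    mul_mem_cancel_left hd'] at this

lemma Cls.not_refl_mul {γ : SS Q} (h : Cls γ) {v : V} (hv : Q v ≠ 0) :
    ¬ Cls (SS.ofO Q (refl Q v) * γ) := fun h' => by
  have := h.mem_DS hQ hE hev h' (by simp)
  rw [mul_inv_cancel_right] at this
  exact refl_notMem_DS hQ hE hv this

end even

namespace Fx
variable {γ : SS Q} {e : F₀ →+* F} {Q₀ : QuadraticForm F₀ V₀} {j : V₀ →+ V} {l : F}
  [FiniteDimensional F₀ V₀]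

omit [FiniteDimensional F V] [Finite F] in
lemma stabMax_of_plus (h : Fx γ e Q₀ j l) (hQ : ND Q) (hP : PlusType Q₀) : StabMax γ := by
  obtain ⟨U, hU, h1⟩ := hP
  obtain ⟨a, b, hab, -⟩ := hU.exists_hypSys (h.X.nd hQ)
  refine ⟨_, (h.X.hypSys hab).ts_span, ?_, γ.img_span_of_fix ?_⟩
  · rw [finrank_span_eq_card (h.X.hypSys hab).linearIndependent_e, h.X.rank, ← h1, Fintype.card_fin]
  · rintro _ ⟨i, rfl⟩; exact h.fix _

omit [Finite F] [FiniteDimensional F₀ V₀] in
lemma stabMax_QM {m : ℕ} {ζ : F₀} {j : _ →+ V} (h : Fx γ e (QM F₀ m 1 ζ) j l) {t : F}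
    (ht : t ^ 2 + t + e ζ = 0) (hσ : γ.σ t = -1 - t) :
    ∃ v, Q v ≠ 0 ∧ StabMax (SS.ofO Q (refl Q v) * γ) := by
  have hs := h.X.hypSys (hypSys_QM m 1 ζ)
  have hl := h.X.l_ne
  set a := j (Pi.single (.inr 0) 1) with ha
  set b := j (Pi.single (.inr 1) 1) with hb
  have hQa : Q a = l := by simp [ha, h.X.map_Q, QM_apply]
  have hQb : Q b = l * e ζ := by simp [hb, h.X.map_Q, QM_apply]
  have hab : polar Q a b = l := by simp [ha, hb, h.X.map_B, polar_QM]
  have hp : ∀ (k : Fin 2) (i : Fin m ⊕ Fin m),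
      polar Q (j (Pi.single (.inl i) 1)) (j (Pi.single (.inr k) 1)) = 0 := fun k i => by
    rw [h.X.map_B, polar_QM]; simp [Pi.single_apply]
  have h1 : Q (t • a + b) = 0 := by
    rw [Q_add, Q_smul, B_smul_left, hQa, hQb, hab]; linear_combination l * ht
  have h2 : t • a + b ∉ Submodule.span F
      (Set.range fun i : Fin m => j (Pi.single (.inl (.inl i)) 1)) := fun h2 => by
    let φ := (h.X.basis (Pi.basisFun F₀ _)).coord (.inr 1)
    have h3 : ∀ v, φ (j v) = e (v (.inr 1)) := fun v => h.X.repr_j _ v _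
    have h4 : t • a + b ∈ LinearMap.ker φ :=
      Submodule.span_le.2 (by rintro _ ⟨i, rfl⟩; simp [h3]) h2
    simp [ha, hb, h3] at h4
  refine ⟨a, hQa ▸ hl, Submodule.span F (Set.range _) ⊔ F ∙ (t • a + b),
    hs.ts_span.sup_span h1 (mem_perp_span.2 ?_), ?_, ?_⟩
  · rintro _ ⟨i, rfl⟩
    simp [ha, hb, hp]
  · rw [finrank_sup_span h2, finrank_span_eq_card hs.linearIndependent_e, h.X.rank, finrank_QM,
      Fintype.card_fin]
  · rw [← Submodule.span_union]
    apply SS.img_span_of_fix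
    rintro _ (⟨i, rfl⟩ | rfl)
    · rw [SS.mul_apply, h.fix, SS.ofO_apply, refl_of_perp (hp _ _)]
    · rw [SS.mul_apply, map_add, γ.map_smul, h.fix, h.fix, SS.ofO_apply, refl_apply, hσ,
        polar_add_left, B_smul_left, B_self, B_comm Q b a, hQa, hab]
      match_scalars
      · field_simp; ring
      · rfl

end Fx

end Cfsg.Agent.H7
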