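import Cfsg.Agent.H7.Descent3

/-!
Field and graph-field automorphisms of the matrix carriers.
-/

set_option autoImplicit false

namespace Cfsg.Agent.H7

open QuadraticMap Module Subgroup Matrix

section congr
variable {F V W : Type*} [Field F] [AddCommGroup V] [Module F V] [AddCommGroup W] [Module F W]
  {Q : QuadraticForm F V} {Q' : QuadraticForm F W}

/-- transport of a semisimilarity along an isometry -/
def SS.transport (φ : V ≃ₗ[F] W) (h : ∀ x, Q' (φ x) = Q x) (g : SS Q) : SS Q' :=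
  ⟨g.σ, g.c, (φ.symm.toAddEquiv.trans g.γ).trans φ.toAddEquiv,
    fun a v => by simp [g.map_smul], fun v => by
      obtain ⟨v, rfl⟩ := φ.surjective v
      simp [h, g.map_Q]⟩

lemma SS.transport_σ (φ : V ≃ₗ[F] W) (h : ∀ x, Q' (φ x) = Q x) (g : SS Q) :
    (g.transport φ h).σ = g.σ := rfl

lemma SS.transport_apply (φ : V ≃ₗ[F] W) (h : ∀ x, Q' (φ x) = Q x) (g : SS Q) (x : V) :
    (g.transport φ h).γ (φ x) = φ (g.γ x) := by simp [SS.transport]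

/-- transport of `Ω` -/
def omCongr (φ : V ≃ₗ[F] W) (h : ∀ x, Q' (φ x) = Q x) : Om Q ≃* Om Q' where
  toFun s := ⟨OG.congr φ h s, (mem_commutator_congr _ _).2 s.2⟩
  invFun s := ⟨(OG.congr φ h).symm s, (mem_commutator_congr _ _).2 s.2⟩
  left_inv s := by simp
  right_inv s := by simp
  map_mul' s t := by simp

lemma map_center_equiv {G H : Type*} [Group G] [Group H] (e : G ≃* H) :
    (center G).map (e : G →* H) = center H := by
  ext x
  simp only [Subgroup.mem_map, Subgroup.mem_center_iff, MonoidHom.coe_coe]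
  constructor
  · rintro ⟨y, hy, rfl⟩ g
    obtain ⟨g, rfl⟩ := e.surjective g
    rw [← map_mul, hy, map_mul]
  · intro h
    exact ⟨e.symm x, fun g => e.injective (by simpa using h _), by simp⟩

/-- transport of `PΩ` -/
def pomCongr (φ : V ≃ₗ[F] W) (h : ∀ x, Q' (φ x) = Q x) : POm Q ≃* POm Q' :=
  QuotientGroup.congr _ _ (omCongr φ h) (map_center_equiv _)

lemma act_transport (φ : V ≃ₗ[F] W) (h : ∀ x, Q' (φ x) = Q x) (g : SS Q) (x : POm Q) :
    act Q' (g.transport φ h) (pomCongr φ h x) = pomCongr φ h (act Q g x) := by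
  obtain ⟨s, rfl⟩ := QuotientGroup.mk'_surjective _ x
  change act Q' _ (pm Q' (omCongr φ h s)) = pm Q' (omCongr φ h (actOm Q g s))
  rw [act_pm]
  congr 1
  refine Subtype.ext (OG.ext' fun y => ?_)
  obtain ⟨y, rfl⟩ := φ.surjective y
  obtain ⟨y, rfl⟩ := g.γ.surjective y
  rw [actOm_coe, ← SS.transport_apply φ h, SS.actO_apply']
  change _ = φ ((SS.actO Q g s).1 (φ.symm _))
  rw [SS.transport_apply, φ.symm_apply_apply, SS.actO_apply', ← SS.transport_apply φ h]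
  change (g.transport φ h).γ (φ (s.1.1 (φ.symm (φ y)))) = _
  rw [φ.symm_apply_apply]

end congr

section matrices
variable {F : Type*} [Field F] {ι : Type} [Fintype ι] [DecidableEq ι]
  {Q : QuadraticForm F (ι → F)}

lemma exists_of_fieldClass (hs : ∀ (σ : F ≃+* F) (v : ι → F), Q (fun i => σ (v i)) = σ (Q v))
    {x : MulAut (Cfsg.POmega F ⇑Q)} (hx : Cfsg.IsFieldAutClassPOmega ⇑Q x) :
    ∃ (α : MulAut (Cfsg.POmega F ⇑Q)) (σ : F ≃+* F), σ ≠ 1 ∧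
      α * x * α⁻¹ = actP Q (SS.std σ (hs σ)) := by
  obtain ⟨α, φ, σ, h1, h2, h3⟩ := hx
  exact ⟨α, σ, h1, h3.trans (((hasMat_std σ (hs σ)).isField_iff φ).1 h2)⟩

lemma exists_conj_of_surj (hsurj : Function.Surjective (actP Q)) {x α : MulAut (Cfsg.POmega F ⇑Q)}
    {γ : SS Q} (h : α * x * α⁻¹ = actP Q γ) : ∃ g : SS Q, x = actP Q (g * γ * g⁻¹) := by
  obtain ⟨g, rfl⟩ := hsurj α
  exact ⟨g⁻¹, by rw [map_mul, map_mul, ← h]; simp [mul_assoc]⟩

lemma SS.conj_σ [Finite F] {V : Type*} [AddCommGroup V] [Module F V] {Q : QuadraticForm F V}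
    (g γ : SS Q) : (g * γ * g⁻¹).σ = γ.σ := by
  simp [H6.ringAut_comm g.σ]

lemma fx_std {F₀ : Type*} [Field F₀] {e : F₀ →+* F} {Q₀ : QuadraticForm F₀ (ι → F₀)}
    (X : Ext e Q₀ Q (piMap ι e) 1) {σ : F ≃+* F} (hs : ∀ v : ι → F, Q (fun i => σ (v i)) = σ (Q v))
    (he : ∀ x, σ x = x ↔ ∃ y, e y = x) : Fx (SS.std σ hs) e Q₀ (piMap ι e) 1 :=
  ⟨X, he, fun v => by rw [SS.std_apply]; exact funext fun i => (he _).2 ⟨_, rfl⟩⟩

lemma stabMax_std_QP (m : ℕ) (σ : F ≃+* F) : StabMax (SS.std σ (std_QP m σ)) :=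
  ⟨_, (hypSys_QP m).ts_span, by
    rw [finrank_span_eq_card (hypSys_QP m).linearIndependent_e, finrank_QP, Fintype.card_fin],
    SS.img_span_of_fix _ (by
      rintro _ ⟨i, rfl⟩
      rw [SS.std_apply]
      ext k
      simp [Pi.single_apply, apply_ite σ])⟩

lemma exists_of_graphFieldClass {m : ℕ} {x : MulAut (Cfsg.POmega F ⇑(QP F m))}
    (hx : Cfsg.IsGraphFieldAutClassPOmegaPlus m x) :
    ∃ (α : MulAut (Cfsg.POmega F ⇑(QP F m))) (σ : F ≃+* F) (v : _), σ ≠ 1 ∧ QP F m v ≠ 0 ∧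
      α * x * α⁻¹ = actP _ (SS.ofO _ (refl (QP F m) v) * SS.std σ (std_QP m σ)) := by
  obtain ⟨α, γ, φ, σ, v, r, h1, h2, -, h4, h5, h6, h7⟩ := hx
  have h8 : HasMat (SS.ofO _ (refl (QP F m) v)) r := fun w => by
    rw [h4]; exact (reflectionMatrix_mulVec (Q := QP F m) v w).symm
  refine ⟨α, σ, v, h1, h2, h7.trans ?_⟩
  rw [map_mul, ← (h8.isInduced_iff γ).1 h5, ← ((hasMat_std σ (std_QP m σ)).isField_iff φ).1 h6]
  rfl

variable [Finite F]

lemma exists_of_fieldClass_surj (hs : ∀ (σ : F ≃+* F) (v : ι → F), Q (fun i => σ (v i)) = σ (Q v))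
    (hsurj : Function.Surjective (actP Q))
    {x : MulAut (Cfsg.POmega F ⇑Q)} (hx : Cfsg.IsFieldAutClassPOmega ⇑Q x) :
    ∃ γ : SS Q, γ.σ ≠ 1 ∧ x = actP Q γ := by
  obtain ⟨α, σ, h1, h2⟩ := exists_of_fieldClass hs hx
  obtain ⟨g, rfl⟩ := exists_conj_of_surj hsurj h2
  exact ⟨_, by rwa [SS.conj_σ], rfl⟩

lemma exists_of_graphFieldClass_surj {m : ℕ} (hm : 5 ≤ m) {x : MulAut (Cfsg.POmega F ⇑(QP F m))}
    (hx : Cfsg.IsGraphFieldAutClassPOmegaPlus m x) :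
    ∃ γ : SS (QP F m), γ.σ ≠ 1 ∧ ¬ Cls γ ∧ x = actP _ γ := by
  obtain ⟨α, σ, v, h1, h2, h3⟩ := exists_of_graphFieldClass hx
  obtain ⟨g, rfl⟩ := exists_conj_of_surj (actP_surjective_QP hm) h3
  have : Nonempty (Fin m) := ⟨⟨0, by omega⟩⟩
  have hE := nonExc_of_finrank (nd_QP (F := F) m) (by rw [finrank_QP]; omega)
  have hev : Even (finrank F (Fin m ⊕ Fin m → F)) := by simp
  refine ⟨_, by simpa [SS.conj_σ] using h1, ?_, rfl⟩
  rw [cls_conj_iff (nd_QP m) hE hev]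
  exact (stabMax_std_QP m σ).cls.not_refl_mul (nd_QP m) hE hev h2

lemma exists_of_fieldClassMinus {m : ℕ} (hm : 3 ≤ m) {a b : F}
    (hab : ∀ z₁ z₂ : F, z₁ ^ 2 + a * z₁ * z₂ + b * z₂ ^ 2 = 0 → z₁ = 0 ∧ z₂ = 0)
    {x : MulAut (Cfsg.POmega F ⇑(QM F m a b))} (hx : Cfsg.IsFieldAutClassPOmegaMinus m x) :
    ∃ γ : SS (QM F m a b), γ.σ ≠ 1 ∧ x = actP _ γ := by
  obtain ⟨a', b', ψ, σ, hab', h1, h2, h3, h4⟩ := hx
  have h5 := ((hasMat_std σ (std_QM m h2 h3)).isField_iff _).1 h4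
  obtain ⟨φ, hφ⟩ := exists_equiv_QM (nd_QM (disc_ne_zero_of_aniso hab)) (m := m)
    (by rw [finrank_QM]; ring) (not_plusType_QM hab) hab'
  let ψ₀ : Cfsg.POmega F ⇑(QM F m a' b') ≃* Cfsg.POmega F ⇑(QM F m a b) :=
    ((pomEquiv _).trans (pomCongr φ hφ)).trans (pomEquiv _).symm
  have h6 : ∀ g y, actP _ (g.transport φ hφ) (ψ₀ y) = ψ₀ (actP _ g y) := fun g y => by
    simp [ψ₀, actP_apply, act_transport]
  obtain ⟨g, hg⟩ := actP_surjective_QM hm hab' (ψ₀.trans ψ)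
  refine ⟨(g⁻¹ * SS.std σ (std_QM m h2 h3) * g⁻¹⁻¹).transport φ hφ, ?_, ?_⟩
  · rw [SS.transport_σ, SS.conj_σ]; exact h1
  · ext y : 1
    obtain ⟨y, rfl⟩ := ψ₀.surjective y
    rw [h6, map_mul, map_mul, inv_inv, map_inv, hg, ← h5]
    change _ = ψ₀ (ψ₀.symm (ψ.symm (ψ (x (ψ.symm (ψ (ψ₀ y)))))))
    exact ((ψ₀.apply_symm_apply _).trans ((ψ.symm_apply_apply _).trans
      (congrArg x (ψ.symm_apply_apply _)))).symm

end matrices

end Cfsg.Agent.H7
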