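import Cfsg.Agent.H7.DS

/-!
The split para-octonions (a symmetric composition algebra) on the space of `QP F 4`.
-/

set_option autoImplicit false

namespace Cfsg.Agent.H7

open QuadraticMap Module

variable {F : Type*} [Field F]

/-- the 8-dimensional space -/
abbrev V8 (F : Type*) : Type _ := Fin 4 ⊕ Fin 4 → F

/-- the para-octonion product -/
def stFun (x y : V8 F) : V8 F := Sum.elim
  ![x (.inr 0) * y (.inr 0) - x (.inl 1) * y (.inr 1) - x (.inl 2) * y (.inr 2)
      - x (.inl 3) * y (.inr 3),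
    -(x (.inr 0) * y (.inl 1)) - y (.inl 0) * x (.inl 1)
      - (x (.inr 2) * y (.inr 3) - x (.inr 3) * y (.inr 2)),
    -(x (.inr 0) * y (.inl 2)) - y (.inl 0) * x (.inl 2)
      - (x (.inr 3) * y (.inr 1) - x (.inr 1) * y (.inr 3)),
    -(x (.inr 0) * y (.inl 3)) - y (.inl 0) * x (.inl 3)
      - (x (.inr 1) * y (.inr 2) - x (.inr 2) * y (.inr 1))]
  ![x (.inl 0) * y (.inl 0) - x (.inr 1) * y (.inl 1) - x (.inr 2) * y (.inl 2)
      - x (.inr 3) * y (.inl 3),
    -(y (.inr 0) * x (.inr 1)) - x (.inl 0) * y (.inr 1)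
      - (x (.inl 2) * y (.inl 3) - x (.inl 3) * y (.inl 2)),
    -(y (.inr 0) * x (.inr 2)) - x (.inl 0) * y (.inr 2)
      - (x (.inl 3) * y (.inl 1) - x (.inl 1) * y (.inl 3)),
    -(y (.inr 0) * x (.inr 3)) - x (.inl 0) * y (.inr 3)
      - (x (.inl 1) * y (.inl 2) - x (.inl 2) * y (.inl 1))]

lemma v8_ext {x y : V8 F} (h0 : x (.inl 0) = y (.inl 0)) (h1 : x (.inl 1) = y (.inl 1))
    (h2 : x (.inl 2) = y (.inl 2)) (h3 : x (.inl 3) = y (.inl 3)) (h4 : x (.inr 0) = y (.inr 0))
    (h5 : x (.inr 1) = y (.inr 1)) (h6 : x (.inr 2) = y (.inr 2)) (h7 : x (.inr 3) = y (.inr 3)) :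
    x = y := by
  funext i
  rcases i with i | i <;> fin_cases i <;> assumption

/-- the para-octonion product, as a bilinear map -/
def st : V8 F →ₗ[F] V8 F →ₗ[F] V8 F := LinearMap.mk₂ F stFun
  (fun x y z => by apply v8_ext <;> simp [stFun] <;> ring)
  (fun c x z => by apply v8_ext <;> simp [stFun] <;> ring)
  (fun x y z => by apply v8_ext <;> simp [stFun] <;> ring)
  (fun c x z => by apply v8_ext <;> simp [stFun] <;> ring)

lemma st_apply (x y : V8 F) : st x y = stFun x y := rfl

lemma st_cyc (x y z : V8 F) : polar (QP F 4) (st x y) z = polar (QP F 4) (st y z) x := by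
  simp [polar_QP, st_apply, stFun, Fin.sum_univ_four]; ring

lemma st_left (a y : V8 F) : st a (st y a) = QP F 4 a • y := by
  apply v8_ext <;> simp [QP_apply, st_apply, stFun, Fin.sum_univ_four] <;> ring

lemma st_right (a y : V8 F) : st (st a y) a = QP F 4 a • y := by
  apply v8_ext <;> simp [QP_apply, st_apply, stFun, Fin.sum_univ_four] <;> ring

lemma Q_st (x y : V8 F) : QP F 4 (st x y) = QP F 4 x * QP F 4 y := by
  simp [QP_apply, st_apply, stFun, Fin.sum_univ_four]; ring

/-- the para-unit -/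
def e8 : V8 F := Pi.single (.inl 0) 1 + Pi.single (.inr 0) 1

lemma Q_e8 : QP F 4 e8 = 1 := by simp [QP_apply, e8, Fin.sum_univ_four]

lemma e8_st (y : V8 F) : st e8 y = -(refl (QP F 4) e8).1 y := by
  rw [refl_apply, Q_e8]
  apply v8_ext <;> simp [polar_QP, st_apply, stFun, Fin.sum_univ_four, e8]

lemma st_e8 (y : V8 F) : st y e8 = -(refl (QP F 4) e8).1 y := by
  rw [refl_apply, Q_e8]
  apply v8_ext <;> simp [polar_QP, st_apply, stFun, Fin.sum_univ_four, e8]

lemma st_map (σ : F ≃+* F) (x y : V8 F) :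
    st (fun i => σ (x i)) (fun i => σ (y i)) = fun i => σ (st x y i) := by
  apply v8_ext <;> simp [st_apply, stFun]

lemma e8_st_st (μ : F) (y : V8 F) :
    st e8 (st (Pi.single (.inl 0) μ + Pi.single (.inr 0) 1) y) =
      Matrix.toLin' (Matrix.diagonal (Sum.elim ![μ, 1, 1, 1] ![1, μ, μ, μ])) y := by
  apply v8_ext <;> simp [st_apply, stFun, e8, Matrix.mulVec_diagonal]

lemma st_left' (x a y : V8 F) : st x (st y a) + st a (st y x) = polar (QP F 4) x a • y := by
  have := st_left (x + a) y
  simp only [map_add, LinearMap.add_apply, st_left, Q_add, add_smul] at this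
  linear_combination (norm := module) this

lemma st_right' (x a y : V8 F) : st (st x y) a + st (st a y) x = polar (QP F 4) x a • y := by
  have := st_right (x + a) y
  simp only [map_add, LinearMap.add_apply, st_right, Q_add, add_smul] at this
  linear_combination (norm := module) this

lemma B_st_left (a x y : V8 F) :
    polar (QP F 4) (st a x) (st a y) = QP F 4 a * polar (QP F 4) x y := by
  have := Q_st a (x + y)
  rw [map_add, Q_add, Q_add, Q_st, Q_st] at this
  linear_combination this

lemma eq_zero_of_st_left {a x : V8 F} (ha : QP F 4 a ≠ 0) (h : st a x = 0) : x = 0 := by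
  have := st_right a x
  rw [h, map_zero, LinearMap.zero_apply] at this
  exact (smul_eq_zero.1 this.symm).resolve_left ha

lemma eq_zero_of_st_right {a x : V8 F} (ha : QP F 4 a ≠ 0) (h : st x a = 0) : x = 0 := by
  have := st_left a x
  rw [h, map_zero] at this
  exact (smul_eq_zero.1 this.symm).resolve_left ha

lemma exists_nonsing_perp2 {V : Type*} [AddCommGroup V] [Module F V] [FiniteDimensional F V]
    {Q : QuadraticForm F V} (hQ : ND Q) (h5 : 5 ≤ finrank F V) (u v : V) :
    ∃ w, Q w ≠ 0 ∧ polar Q u w = 0 ∧ polar Q v w = 0 := by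
  by_contra h
  push Not at h
  have h1 : TS Q (perp Q (Submodule.span F {u, v})) := fun w hw => by
    by_contra h2
    exact h w h2 (mem_perp_span.1 hw u (by simp)) (mem_perp_span.1 hw v (by simp))
  have h2 := h1.two_mul_finrank_le hQ
  have h3 := finrank_perp hQ (Submodule.span F {u, v})
  have h4 : finrank F (Submodule.span F {u, v}) ≤ 2 := by
    classical
    refine (finrank_span_le_card _).trans ?_
    simpa using Finset.card_le_two
  omega

lemma exists_nonsing_perp (u v : V8 F) :
    ∃ w, QP F 4 w ≠ 0 ∧ polar (QP F 4) u w = 0 ∧ polar (QP F 4) v w = 0 :=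
  exists_nonsing_perp2 (nd_QP 4) (by simp) u v

lemma mem_span_of_st {y y' : V8 F} (hy : y ≠ 0) (h : ∀ z, st (st y' z) y = 0) : y' ∈ F ∙ y := by
  obtain ⟨v, hv, h1, h2⟩ := exists_nonsing_perp y y'
  have h3 : ∀ z, st y (st z y') = 0 := fun z => by
    obtain ⟨w, rfl⟩ : ∃ w, z = st v w := ⟨(QP F 4 v)⁻¹ • st z v, by
      rw [map_smul, st_left, smul_smul, inv_mul_cancel₀ hv, one_smul]⟩
    have a1 := st_right' y' v w
    have a2 := st_left' y v (st y' w)
    rw [h2, zero_smul] at a1
    rw [h1, zero_smul, h w, map_zero, add_zero] at a2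
    rw [eq_neg_of_add_eq_zero_right a1, map_neg, a2, neg_zero]
  obtain ⟨u, -, hu⟩ := (nd_QP 4).exists_polar_eq_one ⊥ (u := y) (by simpa using hy)
  have a1 := congrArg (fun w => st w y) (st_left' y' u e8)
  have a2 := st_right' u y (st e8 y')
  simp only [map_add, LinearMap.add_apply, h, zero_add, map_smul, LinearMap.smul_apply] at a1
  rw [h3, map_zero, LinearMap.zero_apply, add_zero, a1, B_comm _ u y, hu, one_smul, ← map_smul,
    ← sub_eq_zero, ← map_sub] at a2
  have a3 := eq_zero_of_st_left (by rw [Q_e8]; exact one_ne_zero) a2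
  exact Submodule.mem_span_singleton.2 ⟨_, sub_eq_zero.1 a3⟩

lemma eq_zero_of_st_st {y y' : V8 F} (hy : y ≠ 0) (h : ∀ w, st y (st y' w) = 0) : y' = 0 := by
  have h1 : ∀ w, st w (st y' y) = polar (QP F 4) y w • y' := fun w => by
    have := st_left' y w y'
    rwa [h, zero_add] at this
  obtain ⟨v, hv, h2, -⟩ := exists_nonsing_perp y y
  have h3 : st y' y = 0 := eq_zero_of_st_left hv (by rw [h1, h2, zero_smul])
  obtain ⟨u, -, hu⟩ := (nd_QP 4).exists_polar_eq_one ⊥ (u := y) (by simpa using hy)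
  have := h1 u
  rw [h3, map_zero, hu, one_smul] at this
  exact this.symm

end Cfsg.Agent.H7
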