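import Cfsg.Agent.H7.AutBridge

/-!
Any automorphism of `PΩ` outside the semilinear ones generates, with them, all automorphisms.
-/

set_option autoImplicit false

namespace Cfsg.Agent.H7

open QuadraticMap Module

variable {F V : Type*} [Field F] [AddCommGroup V] [Module F V] {Q : QuadraticForm F V}
  [FiniteDimensional F V] [Finite F]

lemma exists_Om_fix (hQ : ND Q) (hE : NonExc Q) {ι : Type*} (x : ι → V) (g : OG Q)
    (h : ∀ c : F, ∃ v, Q v = c ∧ ∀ i, polar Q (x i) v = 0) :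
    ∃ g' ∈ Om Q, ∀ i, g'.1 (x i) = g.1 (x i) := by
  obtain ⟨c, hc, hcg⟩ := exists_chi_eq_theta hQ hE g
  obtain ⟨v, hv, hvx⟩ := h c
  obtain ⟨u, hu, hux⟩ := h 1
  have hv0 : Q v ≠ 0 := hv ▸ hc
  have hu0 : Q u ≠ 0 := hu ▸ one_ne_zero
  by_cases hev : Even (rk g)
  · refine ⟨g * refl Q u * refl Q v, (mem_commutator_iff hQ hE _).2 ⟨?_, ?_⟩, fun i => ?_⟩
    · simp [even_rk_mul_refl hQ _ hv0, even_rk_mul_refl hQ _ hu0, hev]
    · rw [theta_mul_refl hQ _ hv0, theta_mul_refl hQ _ hu0, hu, hv, hcg, map_one, mul_one,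
        theta_mul_self hQ hE]
    · simp [refl_of_perp (hvx i), refl_of_perp (hux i)]
  · refine ⟨g * refl Q v, (mem_commutator_iff hQ hE _).2 ⟨?_, ?_⟩, fun i => ?_⟩
    · simp [even_rk_mul_refl hQ _ hv0, hev]
    · rw [theta_mul_refl hQ _ hv0, hv, hcg, theta_mul_self hQ hE]
    · simp [refl_of_perp (hvx i)]

lemma exists_Q_eq_perp3 (hQ : ND Q) (h6 : 6 ≤ finrank F V) {e y z : V} (he : Q e = 0) (he0 : e ≠ 0)
    (hy : Q y = 0) (hz : Q z = 0) (hey : polar Q e y = 0) (hez : polar Q e z = 0)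
    (hyz : polar Q y z ≠ 0) (c : F) : ∃ v, Q v = c ∧ ∀ i, polar Q (![e, y, z] i) v = 0 := by
  have hz' : Q ((polar Q y z)⁻¹ • z) = 0 := by rw [Q_smul, hz, mul_zero]
  have hyz' : polar Q y ((polar Q y z)⁻¹ • z) = 1 := by rw [B_smul_right, inv_mul_cancel₀ hyz]
  have hd := finrank_hp1 hy hz' hyz'
  have hem : e ∈ hp1 Q y ((polar Q y z)⁻¹ • z) :=
    mem_hp1.2 ⟨hey, by rw [B_smul_right, hez, mul_zero]⟩
  have pz : ∀ x : hp1 Q y ((polar Q y z)⁻¹ • z), polar Q x z = 0 := fun x => by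
    have := (mem_hp1.1 x.2).2
    rw [B_smul_right] at this
    exact (mul_eq_zero.1 this).resolve_left (inv_ne_zero hyz)
  have py : ∀ x : hp1 Q y ((polar Q y z)⁻¹ • z), polar Q x y = 0 := fun x => (mem_hp1.1 x.2).1
  have hnd := nd_hp1 hQ hy hz' hyz'
  generalize hp1 Q y ((polar Q y z)⁻¹ • z) = W at *
  have he' : (Q.restrict W) ⟨e, hem⟩ = 0 := he
  obtain ⟨f, hf, hef⟩ := exists_hyp_partner hnd (fun h => he0 (congrArg Subtype.val h)) he'
  have hd' := finrank_hp1 he' hf hef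
  obtain ⟨v, hv⟩ := exists_Q_eq (nd_hp1 hnd he' hf hef) (by omega) c
  refine ⟨v.1.1, hv, fun i => ?_⟩
  rw [B_comm]
  fin_cases i
  · exact (polar_restrict W v.1 ⟨e, hem⟩).symm.trans (mem_hp1.1 v.2).1
  · exact py _
  · exact pz _

omit [FiniteDimensional F V] [Finite F] in
lemma li_three {e y z : V} (he0 : e ≠ 0) (hy : Q y = 0) (hz : Q z = 0)
    (hey : polar Q e y = 0) (hez : polar Q e z = 0) (hyz : polar Q y z ≠ 0) :
    LinearIndependent F ![e, y, z] := by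
  rw [Fintype.linearIndependent_iff]
  intro c hc
  simp only [Fin.sum_univ_three, Matrix.cons_val] at hc
  have h1 := congrArg (polar Q · y) hc
  have h2 := congrArg (polar Q · z) hc
  simp only [polar_add_left, B_smul_left, B_self, hy, hz, hey, hez, B_comm Q z y,
    polar_zero_left] at h1 h2
  have h3 : c 2 = 0 := by simpa [hyz] using h1
  have h4 : c 1 = 0 := by simpa [hyz] using h2
  have h5 : c 0 = 0 := by simpa [h3, h4, he0] using hc
  intro i; fin_cases i <;> assumption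

omit [Finite F] in
lemma exists_of_meet_not_prp (hQ : ND Q) {s t : OG Q} (hs : LR s) (ht : LR t) (h : Meet s t)
    (h' : ¬ Prp s t) : ∃ e y z he hy hz, e ≠ 0 ∧ Q y = 0 ∧ Q z = 0 ∧ z ∉ F ∙ e ∧ polar Q y z ≠ 0 ∧
      s = siegel e y he hy ∧ t = siegel e z he hz := by
  obtain ⟨e, he0, h1, h2⟩ := h
  obtain ⟨y, he, hy, h3, h4, rfl⟩ := hs.exists_eq hQ h1 he0
  obtain ⟨z, he', hz, h5, h6, rfl⟩ := ht.exists_eq hQ h2 he0
  exact ⟨e, y, z, he, hy, hz, he0, h3, h5, h6,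
    fun h7 => h' ((meet_prp_siegel hQ he he0 h3 h5 hy hz h4 h6).2 h7).2, rfl, rfl⟩

omit [Finite F] in
lemma meet_of_move (hQ : ND Q) {s t t' : OG Q} (ht : LR t) (h1 : Meet s t) (h2 : ¬ Prp s t)
    (h3 : Meet t t') (h4 : Prp s t') (hs : LR s) : Meet s t' := by
  obtain ⟨e, he0, h5, h6⟩ := h1
  obtain ⟨x, hx0, h7, h8⟩ := h3
  by_cases h9 : x ∈ F ∙ e
  · exact ⟨x, hx0, (Submodule.span_singleton_le_iff_mem _ _).2 h5 h9, h8⟩
  · refine absurd (fun a ha b hb => ?_) h2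
    rw [ht.movS_eq hQ h6 h7 he0 h9] at hb
    obtain ⟨c, d, rfl⟩ := Submodule.mem_span_pair.1 hb
    rw [polar_add_right, B_smul_right, B_smul_right, (hs.ts hQ).polar_eq ha h5, h4 a ha x h8]
    simp

omit [FiniteDimensional F V] [Finite F] in
lemma Meet.conj {s t : OG Q} (h : Meet s t) (g : OG Q) : Meet (g * s * g⁻¹) (g * t * g⁻¹) := by
  obtain ⟨x, h0, h1, h2⟩ := h
  exact ⟨g.1 x, by simpa using h0, by rw [movS_conj]; exact ⟨x, h1, rfl⟩,
    by rw [movS_conj]; exact ⟨x, h2, rfl⟩⟩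

section
variable (hQ : ND Q) (h7 : 7 ≤ finrank F V) {α : MulAut (POm Q)}
include hQ h7

theorem meetPres_of_pair {s t s' t' : Om Q} (hs : LR s.1) (ht : LR t.1) (hs' : LR s'.1)
    (ht' : LR t'.1) (h1 : Cor α s s') (h2 : Cor α t t') (h3 : Meet s.1 t.1) (h4 : ¬ Prp s.1 t.1)
    (h5 : Meet s'.1 t'.1) : MeetPres α := by
  intro s₁ t₁ s₁' t₁' k1 k2 k3 k4 k5 k6 k7
  by_cases k8 : Prp s₁.1 t₁.1
  · exact (Cor.meet_prp hQ h7 k1 k2 k3 k4 k5 k6 ⟨k7, k8⟩).1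
  refine (Cor.meet_or_prp hQ h7 k1 k2 k3 k4 k5 k6 (Or.inl k7)).elim id fun k9 => ?_
  obtain ⟨e, y, z, he, hy, hz, he0, a1, a2, -, a4, a5, a6⟩ := exists_of_meet_not_prp hQ hs ht h3 h4
  obtain ⟨e₁, y₁, z₁, he₁, hy₁, hz₁, he₁0, b1, b2, b3, b4, b5, b6⟩ :=
    exists_of_meet_not_prp hQ k1 k2 k7 k8
  have hc : polar Q y z / polar Q y₁ z₁ ≠ 0 := div_ne_zero a4 b4
  have c1 : Q ((polar Q y z / polar Q y₁ z₁) • z₁) = 0 := by simp [Q_smul, b2]
  have c2 : polar Q e₁ ((polar Q y z / polar Q y₁ z₁) • z₁) = 0 := by simp [hz₁]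
  have c3 : polar Q y₁ ((polar Q y z / polar Q y₁ z₁) • z₁) = polar Q y z := by
    rw [B_smul_right, div_mul_cancel₀ _ b4]
  have c4 : (polar Q y z / polar Q y₁ z₁) • z₁ ∉ F ∙ e₁ := by rwa [Submodule.smul_mem_iff _ hc]
  have c5 : Submodule.span F {e₁, (polar Q y z / polar Q y₁ z₁) • z₁} = movS t₁.1 := by
    rw [b6, movS_siegel hQ he₁ hz₁ b2 he₁0 b3, Submodule.span_insert, Submodule.span_insert,
      Submodule.span_singleton_smul_eq hc.isUnit]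
  generalize (polar Q y z / polar Q y₁ z₁) • z₁ = w at c1 c2 c3 c4 c5
  obtain ⟨g₀, -, hg₀⟩ := witt_family hQ gen_top ![e, y, z] ![e₁, y₁, w]
    (li_three he0 a1 a2 hy hz a4) (li_three he₁0 b1 c1 hy₁ c2 (c3 ▸ a4))
    (fun i => by fin_cases i <;> simp [*])
    (fun i j => by
      fin_cases i <;> fin_cases j <;>
        simp [B_self, he, he₁, a1, a2, b1, c1, hy, hz, hy₁, c2, c3, B_comm Q y e, B_comm Q z e,
          B_comm Q y₁ e₁, B_comm Q w e₁, B_comm Q z y, B_comm Q w y₁])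
  obtain ⟨g, hg, hg'⟩ := exists_Om_fix hQ (nonExc_of_finrank hQ (by omega)) ![e, y, z] g₀
    (exists_Q_eq_perp3 hQ (by omega) he he0 a1 a2 hy hz a4)
  have d0 : g.1 e = e₁ := (hg' 0).trans (hg₀ 0)
  have d1 : g.1 y = y₁ := (hg' 1).trans (hg₀ 1)
  have d2 : g.1 z = w := (hg' 2).trans (hg₀ 2)
  obtain ⟨g', hgg⟩ := exists_cor α ⟨g, hg⟩
  have e1 : (⟨g, hg⟩ : Om Q) * s * (⟨g, hg⟩ : Om Q)⁻¹ = s₁ := Subtype.ext (by
    change g * s.1 * g⁻¹ = _
    rw [a5, b5, siegel_conj]; exact siegel_congr _ _ d0 d1)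
  have e2 : movS ((⟨g, hg⟩ : Om Q) * t * (⟨g, hg⟩ : Om Q)⁻¹).1 = movS t₁.1 := by
    change movS (g * t.1 * g⁻¹) = _
    rw [a6, siegel_conj, siegel_congr _ _ d0 d2, movS_siegel hQ he₁ c2 c1 he₁0 c4, c5]
  have f1 := (hgg.mul h1).mul hgg.inv
  have f2 := (hgg.mul h2).mul hgg.inv
  have l2 : LR ((⟨g, hg⟩ : Om Q) * t * (⟨g, hg⟩ : Om Q)⁻¹).1 := ht.conj g
  have l2' : LR (g' * t' * g'⁻¹).1 := ht'.conj g'.1
  rw [e1] at f1
  have e3 : s₁' = g' * s' * g'⁻¹ := lr_unique hQ h7 k3 (hs'.conj g'.1) (k5.pm_eq f1)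
  have m1 : Meet s₁'.1 (g' * t' * g'⁻¹).1 := e3 ▸ h5.conj g'.1
  refine meet_of_move hQ l2' m1 (fun m2 => k8 ?_) (Cor.meet_prp hQ h7 l2 k2 l2' k4 f2 k6 ?_).1 k9 k3
  · have := (Cor.meet_prp hQ h7 k3 l2' k1 l2 k5.symm f2.symm ⟨m1, m2⟩).2
    rwa [Prp, e2] at this
  · rw [Meet, Prp, e2]
    exact ⟨⟨e₁, he₁0, c5 ▸ Submodule.subset_span (by simp), c5 ▸ Submodule.subset_span (by simp)⟩,
      fun a ha b hb => (k2.ts hQ).polar_eq ha hb⟩

theorem mem_range_of_pair {s t s' t' : Om Q} (hs : LR s.1) (ht : LR t.1) (hs' : LR s'.1)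
    (ht' : LR t'.1) (h1 : Cor α s s') (h2 : Cor α t t') (h3 : Meet s.1 t.1) (h4 : ¬ Prp s.1 t.1)
    (h5 : Meet s'.1 t'.1) : α ∈ (act Q).range := by
  obtain ⟨g, hg⟩ := exists_act_eq hQ h7 (meetPres_of_pair hQ h7 hs ht hs' ht' h1 h2 h3 h4 h5)
    (meetPres_of_pair hQ h7 hs' ht' hs ht h1.symm h2.symm h5
      (fun h6 => h4 (Cor.meet_prp hQ h7 hs' ht' hs ht h1.symm h2.symm ⟨h5, h6⟩).2) h3)
  exact ⟨g, hg.symm⟩

omit [Finite F] h7 in
lemma exists_four {s t : OG Q} (hs : LR s) (ht : LR t) (h : ¬ Meet s t) (h' : Prp s t) :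
    ∃ (x : Fin 4 → V) (h1 : _) (h2 : _) (h3 : _) (h4 : _), LinearIndependent F x ∧ (∀ i, Q (x i) = 0) ∧
      (∀ i j, polar Q (x i) (x j) = 0) ∧ s = siegel (x 0) (x 1) h1 h2 ∧
      t = siegel (x 2) (x 3) h3 h4 := by
  have hb := inf_eq_bot_of_not_meet h
  have hts := ts_sup_of_prp hQ hs ht h'
  obtain ⟨e, f, he, hef, hf, he0, hfe, rfl⟩ := hs
  obtain ⟨e', f', he', hef', hf', he0', hfe', rfl⟩ := ht
  rw [movS_siegel hQ he hef hf he0 hfe, movS_siegel hQ he' hef' hf' he0' hfe'] at hb hts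
  have hm : ∀ i, ![e, f, e', f'] i ∈ Submodule.span F {e, f} ⊔ Submodule.span F {e', f'} := fun i => by
    fin_cases i
    · exact Submodule.mem_sup_left (Submodule.subset_span (by simp))
    · exact Submodule.mem_sup_left (Submodule.subset_span (by simp))
    · exact Submodule.mem_sup_right (Submodule.subset_span (by simp))
    · exact Submodule.mem_sup_right (Submodule.subset_span (by simp))
  refine ⟨![e, f, e', f'], he, hef, he', hef', ?_, fun i => hts _ (hm i),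
    fun i j => hts.polar_eq (hm i) (hm j), rfl, rfl⟩
  rw [Fintype.linearIndependent_iff]
  intro c hc
  simp only [Fin.sum_univ_four, Matrix.cons_val] at hc
  have h1 : c 0 • e + c 1 • f ∈ Submodule.span F {e, f} ⊓ Submodule.span F {e', f'} :=
    ⟨Submodule.mem_span_pair.2 ⟨_, _, rfl⟩, Submodule.mem_span_pair.2
      ⟨-c 2, -c 3, by linear_combination (norm := module) -hc⟩⟩
  rw [hb, Submodule.mem_bot] at h1
  rw [h1, zero_add] at hc
  have h2 := LinearIndependent.pair_iff.1 (linearIndependent_pair_of he0 hfe) _ _ h1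
  have h3 := LinearIndependent.pair_iff.1 (linearIndependent_pair_of he0' hfe') _ _ hc
  intro i; fin_cases i
  exacts [h2.1, h2.2, h3.1, h3.2]

theorem eq_top_of_notMem {S : Subgroup (MulAut (POm Q))} (hS : (act Q).range ≤ S)
    {τ : MulAut (POm Q)} (hτ : τ ∈ S) (hτ' : τ ∉ (act Q).range) : S = ⊤ := by
  obtain ⟨e, he0, he⟩ := exists_sing_of_three_le Q (by omega)
  obtain ⟨s, t, hs, ht, h1, h2, h3, -⟩ := exists_two_lines hQ h7 he he0
  have h4 : Meet s.1 t.1 := ⟨e, he0, h1, h2⟩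
  have key : ∀ β ∉ (act Q).range, ∃ s' t' : Om Q, Cor β s s' ∧ Cor β t t' ∧
      ∃ (x : Fin 4 → V) (h1 : _) (h2 : _) (h3 : _) (h4 : _), LinearIndependent F x ∧
      (∀ i, Q (x i) = 0) ∧ (∀ i j, polar Q (x i) (x j) = 0) ∧ s'.1 = siegel (x 0) (x 1) h1 h2 ∧
      t'.1 = siegel (x 2) (x 3) h3 h4 := fun β hβ => by
    obtain ⟨s', hs', h5⟩ := exists_lr hQ h7 β hs
    obtain ⟨t', ht', h6⟩ := exists_lr hQ h7 β ht
    have h8 : ¬ Meet s'.1 t'.1 := fun h => hβ (mem_range_of_pair hQ h7 hs ht hs' ht' h5 h6 h4 h3 h)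
    exact ⟨s', t', h5, h6, exists_four hQ hs' ht' h8
      ((Cor.meet_or_prp hQ h7 hs ht hs' ht' h5 h6 (Or.inl h4)).resolve_left h8)⟩
  rw [eq_top_iff]
  intro β _
  by_cases hβ : β ∈ (act Q).range
  · exact hS hβ
  obtain ⟨s₁, t₁, a1, a2, x, p1, p2, p3, p4, a3, a4, a5, a6, a7⟩ := key β hβ
  obtain ⟨s₂, t₂, b1, b2, y, q1, q2, q3, q4, b3, b4, b5, b6, b7⟩ := key τ hτ'
  obtain ⟨g, -, hg⟩ := witt_family hQ gen_top x y a3 b3 (fun i => by rw [a4, b4])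
    (fun i j => by rw [a5, b5])
  have c1 : actOm Q (SS.ofO Q g) s₁ = s₂ := Subtype.ext (by
    rw [actOm_coe, SS.actO_ofO, a6, b6, siegel_conj]; exact siegel_congr _ _ (hg 0) (hg 1))
  have c2 : actOm Q (SS.ofO Q g) t₁ = t₂ := Subtype.ext (by
    rw [actOm_coe, SS.actO_ofO, a7, b7, siegel_conj]; exact siegel_congr _ _ (hg 2) (hg 3))
  have d1 := (a1.comp (c1 ▸ cor_act (SS.ofO Q g) s₁)).comp b1.symm
  have d2 := (a2.comp (c2 ▸ cor_act (SS.ofO Q g) t₁)).comp b2.symm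
  have := hS (mem_range_of_pair hQ h7 hs ht hs ht d1 d2 h4 h3 h4)
  rwa [mul_mem_cancel_left (inv_mem hτ), mul_mem_cancel_left (hS ⟨_, rfl⟩)] at this

end

end Cfsg.Agent.H7
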