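import Cfsg.Agent.H7.Descent3
import Cfsg.Agent.H7.TriA
import Cfsg.Agent.H7.Oct
import Cfsg.Agent.H6.BalLib

/-!
Generation of `Ω` by Siegel transformations and the Iwasawa argument.
-/

set_option autoImplicit false

namespace Cfsg.Agent.H7

open QuadraticMap Module Subgroup

variable {F V : Type*} [Field F] [AddCommGroup V] [Module F V] {Q : QuadraticForm F V}

lemma siegel_pow {p w : V} (hp : Q p = 0) (hw : polar Q p w = 0) (k : ℕ) :
    siegel p w hp hw ^ k = siegel p ((k : F) • w) hp (by simp [hw]) := by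
  induction k with
  | zero => rw [pow_zero, ← siegel_zero hp (by simp)]; exact siegel_congr _ _ rfl (by simp)
  | succ k ih => rw [pow_succ, ih, siegel_mul]; exact siegel_congr _ _ rfl (by simp [add_smul])

lemma siegel_pow_char (r : ℕ) [CharP F r] {p w : V} (hp : Q p = 0) (hw : polar Q p w = 0) :
    siegel p w hp hw ^ r = 1 := by
  rw [siegel_pow, ← siegel_zero hp (by simp)]; exact siegel_congr _ _ rfl (by simp)

lemma siegel_inv {p w : V} (hp : Q p = 0) (hw : polar Q p w = 0) :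
    (siegel p w hp hw)⁻¹ = siegel p (-w) hp (by simp [hw]) := by
  rw [inv_eq_iff_mul_eq_one, siegel_mul, ← siegel_zero hp (by simp)]
  exact siegel_congr _ _ rfl (by simp)

variable (Q) in
/-- the Siegel transformations with a given centre -/
def sgAt (p : V) (hp : Q p = 0) : Subgroup (OG Q) where
  carrier := {s | ∃ w hw, s = siegel p w hp hw}
  one_mem' := ⟨0, by simp, (siegel_zero hp _).symm⟩
  mul_mem' := by rintro _ _ ⟨w, hw, rfl⟩ ⟨w', hw', rfl⟩; exact ⟨_, _, siegel_mul hp hw hw'⟩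
  inv_mem' := by rintro _ ⟨w, hw, rfl⟩; exact ⟨_, _, siegel_inv hp hw⟩

variable (Q) in
/-- the group generated by the Siegel transformations -/
def sgAll : Subgroup (OG Q) := closure {s | ∃ p w hp hw, s = siegel p w hp hw}

lemma siegel_mem_sgAll {p w : V} (hp : Q p = 0) (hw : polar Q p w = 0) :
    siegel p w hp hw ∈ sgAll Q := subset_closure ⟨p, w, hp, hw, rfl⟩

instance instNormalSgAll : (sgAll Q).Normal := ⟨fun n hn g => by
  induction hn using closure_induction with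
  | mem x hx =>
    obtain ⟨p, w, hp, hw, rfl⟩ := hx
    rw [siegel_conj]; exact siegel_mem_sgAll _ _
  | one => simp
  | mul x y _ _ hx hy =>
    rw [show g * (x * y) * g⁻¹ = (g * x * g⁻¹) * (g * y * g⁻¹) by group]; exact mul_mem hx hy
  | inv x _ hx => rw [show g * x⁻¹ * g⁻¹ = (g * x * g⁻¹)⁻¹ by group]; exact inv_mem hx⟩

lemma exists_siegel_map {p x y : V} (hp : Q p = 0) (h0 : polar Q x p ≠ 0)
    (h1 : polar Q y p = polar Q x p) (h2 : Q y = Q x) : ∃ w hw, (siegel p w hp hw).1 x = y := by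
  refine ⟨(polar Q x p)⁻¹ • (x - y), by simp [B_comm Q p, h1], ?_⟩
  rw [siegel_apply, smul_smul, mul_inv_cancel₀ h0, one_smul, B_smul_right, Q_smul, Q_sub,
    polar_sub_right, B_self, h2]
  have : (polar Q x p)⁻¹ * (2 * Q x - polar Q x y) =
      (polar Q x p)⁻¹ ^ 2 * (Q x + Q x - polar Q x y) * polar Q x p := by field_simp; ring
  rw [this]; abel

lemma exists_siegel_par {p x y : V} (hp : Q p = 0) (hx : Q x = 0) (hy : Q y = 0)
    (h0 : polar Q x p ≠ 0) (h1 : polar Q y p ≠ 0) :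
    ∃ w hw, ∃ c : F, c ≠ 0 ∧ (siegel p w hp hw).1 x = c • y := by
  obtain ⟨w, hw, h⟩ := exists_siegel_map (y := (polar Q x p / polar Q y p) • y) hp h0
    (by rw [B_smul_left, div_mul_cancel₀ _ h1]) (by simp [Q_smul, hx, hy])
  exact ⟨w, hw, _, div_ne_zero h0 h1, h⟩

variable [FiniteDimensional F V]

lemma exists_sgAll_map [Finite F] (hQ : ND Q) (h4 : 4 ≤ finrank F V) {x y : V} (hx : Q x ≠ 0)
    (h : Q y = Q x) : ∃ u ∈ sgAll Q, u.1 x = y := by
  obtain ⟨e, f, he, hf, hef⟩ := exists_hyp_pair hQ (by omega)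
  have hd := finrank_hp1 he hf hef
  have hnd := nd_hp1 hQ he hf hef
  let R : V → V → Prop := fun x y => ∃ u ∈ sgAll Q, u.1 x = y
  have symm : ∀ {a b}, R a b → R b a := fun ⟨u, hu, h⟩ => ⟨u⁻¹, inv_mem hu, by simp [← h]⟩
  have trans : ∀ {a b c}, R a b → R b c → R a c := fun ⟨u, hu, h⟩ ⟨v, hv, h'⟩ =>
    ⟨v * u, mul_mem hv hu, by simp [h, h']⟩
  have step : ∀ {p a b}, Q p = 0 → polar Q a p ≠ 0 → polar Q b p = polar Q a p → Q b = Q a →
      R a b := fun hp h0 h1 h2 =>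
    let ⟨_, _, h⟩ := exists_siegel_map hp h0 h1 h2; ⟨_, siegel_mem_sgAll _ _, h⟩
  have hfe : polar Q f e = 1 := (B_comm _ _ _).trans hef
  have k1 : ∀ v, v ≠ 0 → polar Q v e = 0 → polar Q v f = 0 → ∀ t : F, R v (v + t • f) := by
    intro v hv h1 h2 t
    obtain ⟨w, -, hw⟩ := hnd.exists_polar_eq_one ⊥ (u := ⟨v, mem_hp1.2 ⟨h1, h2⟩⟩) (by simpa using hv)
    refine ⟨_, siegel_mem_sgAll (w := t • w.1) hf (by simp [B_comm Q f, (mem_hp1.1 w.2).2]), ?_⟩
    rw [polar_restrict] at hw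
    simp [siegel_apply, h2, hw]
  obtain ⟨v, hv⟩ := exists_Q_eq hnd (by omega) (Q x)
  have hv' : Q v = Q x := hv
  have k2 : ∀ a, Q a = Q x → polar Q a e ≠ 0 → R a v := fun a h1 h2 =>
    trans (step he h2 (by simp [(mem_hp1.1 v.2).1, hfe]) (by
      simp [Q_add, Q_smul, hf, (mem_hp1.1 v.2).2, hv', h1]))
      (symm (k1 v (by rintro h0; simp [h0] at hv'; exact hx hv'.symm) (mem_hp1.1 v.2).1
        (mem_hp1.1 v.2).2 (polar Q a e)))
  have k3 : ∀ a, Q a = Q x → R a v := fun a h1 => by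
    by_cases h2 : polar Q a e = 0
    · by_cases h3 : polar Q a f = 0
      · exact trans (k1 a (by rintro rfl; exact hx (by simpa using h1.symm)) h2 h3 1)
          (k2 _ (by simp [Q_add, hf, h3, h1]) (by simp [h2, hfe]))
      · have h4 : Q (polar Q a f • e + (Q x / polar Q a f) • f) = Q x := by
          simp only [Q_add, Q_smul, he, hf, B_smul_left, B_smul_right, hef]; field_simp; ring
        exact trans (step hf h3 (by simp [hef, B_self, hf]) (h4.trans h1.symm))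
          (k2 _ h4 (by simp [B_self, he, hfe, hx, h3]))
    · exact k2 a h1 h2
  exact trans (k3 x rfl) (symm (k3 y h))

theorem Om_le_sgAll [Finite F] (hQ : ND Q) (hE : NonExc Q) (h4 : 4 ≤ finrank F V) :
    Om Q ≤ sgAll Q := by
  let π := QuotientGroup.mk' (sgAll Q)
  have h1 : ∀ (g : OG Q) v, Q v ≠ 0 → π g * π (refl Q v) = π (refl Q v) * π g := fun g v hv => by
    obtain ⟨u, hu, h⟩ := exists_sgAll_map hQ h4 hv (OG.map_Q g v)
    have h2 : π u = 1 := (QuotientGroup.eq_one_iff u).2 hu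
    rw [← mul_inv_eq_iff_eq_mul, ← map_inv, ← map_mul, ← map_mul, refl_conj, ← h, ← refl_conj,
      map_mul, map_mul, map_inv, h2, one_mul, inv_one, mul_one]
  rw [← QuotientGroup.ker_mk' (sgAll Q), Om, _root_.commutator_def, commutator_le]
  intro g _ h _
  rw [MonoidHom.mem_ker, map_commutatorElement, commutatorElement_eq_one_iff_mul_comm]
  refine refl_induction hQ hE (P := fun h => π g * π h = π h * π g) h (by simp)
    fun h v hv ih => ?_
  rw [map_mul, ← mul_assoc, ih, mul_assoc, h1 g v hv, mul_assoc]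

section emb

variable {F₀ V₀ : Type*} [Field F₀] [AddCommGroup V₀] [Module F₀ V₀]

/-- a semilinear similarity into a bigger space -/
structure Emb (e : F₀ →+* F) (Q₀ : QuadraticForm F₀ V₀) (Q : QuadraticForm F V) (j : V₀ →+ V)
    (l : F) : Prop where
  l_ne : l ≠ 0
  smul : ∀ a v, j (a • v) = e a • j v
  map_Q : ∀ v, Q (j v) = l * e (Q₀ v)

variable {e : F₀ →+* F} {Q₀ : QuadraticForm F₀ V₀} {j : V₀ →+ V} {l : F}

omit [FiniteDimensional F V]

lemma Ext.emb (X : Ext e Q₀ Q j l) : Emb e Q₀ Q j l := ⟨X.l_ne, X.smul, X.map_Q⟩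

lemma emb_subtype (W : Submodule F V) :
    Emb (RingHom.id F) (Q.restrict W) Q W.subtype.toAddMonoidHom 1 :=
  ⟨one_ne_zero, fun _ _ => rfl, fun _ => (one_mul _).symm⟩

lemma Emb.map_B (X : Emb e Q₀ Q j l) (x y : V₀) : polar Q (j x) (j y) = l * e (polar Q₀ x y) := by
  simp only [polar, ← map_add, X.map_Q, map_sub]; ring

variable [FiniteDimensional F₀ V₀]

lemma Emb.fix_pt [FiniteDimensional F V] (X : Emb e Q₀ Q j l) (hQ : ND Q) (hQ₀ : ND Q₀)
    (h3 : 3 ≤ finrank F₀ V₀) (g : SS Q) {c : F} (hc : c ≠ 0) {p : V₀} (hp : Q₀ p = 0)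
    (h : ∀ w, polar Q₀ p w = 0 → ∀ h1 h2,
      SS.actO Q g (siegel (c • j p) (j w) h1 h2) = siegel (c • j p) (j w) h1 h2) :
    g.γ (j p) ∈ F ∙ j p := by
  by_cases hp0 : p = 0
  · simp [hp0]
  obtain ⟨f, hf, hpf⟩ := exists_hyp_partner hQ₀ hp0 hp
  have hd := finrank_hp1 hp hf hpf
  have hnd := nd_hp1 hQ₀ hp hf hpf
  have : Nontrivial (hp1 Q₀ p f) := Module.nontrivial_of_finrank_pos (R := F₀) (by omega)
  obtain ⟨w, hw0⟩ := exists_ne (0 : hp1 Q₀ p f)
  obtain ⟨w', -, hw'⟩ := hnd.exists_polar_eq_one ⊥ (u := w) (by simpa using hw0)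
  rw [polar_restrict] at hw'
  have a1 : Q (c • j p) = 0 := by simp [Q_smul, X.map_Q, hp]
  have a2 : ∀ w : hp1 Q₀ p f, polar Q₀ p w = 0 := fun w => (B_comm _ _ _).trans (mem_hp1.1 w.2).1
  have a3 : ∀ w : hp1 Q₀ p f, polar Q (c • j p) (j w) = 0 := fun w => by simp [X.map_B, a2]
  have a4 : ∀ w : hp1 Q₀ p f, polar Q (j w) (c • j p) = 0 := fun w => (B_comm _ _ _).trans (a3 w)
  have b1 : j p ∈ movS (siegel _ _ a1 (a3 w)) := mem_movS.2 ⟨(c * l)⁻¹ • j w', by
    rw [siegel_apply, B_smul_left, B_smul_left, a4, X.map_B, B_comm, hw', map_one, smul_smul]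
    simp only [mul_zero, zero_smul, sub_zero, add_sub_cancel_left]
    rw [show (c * l)⁻¹ * (l * 1) * c = 1 by have := X.l_ne; field_simp, one_smul]⟩
  have b2 := mem_movS_actO g b1
  rw [h w (a2 w)] at b2
  obtain ⟨x, hx⟩ := mem_movS.1 b2
  have b3 := SS.actO_apply' g (siegel _ _ a1 (a3 w')) (c • j p)
  rw [h w' (a2 w'), siegel_self, g.map_smul, map_smul] at b3
  replace b3 := smul_right_injective V (by simpa using hc) b3
  rw [siegel_apply] at hx
  have b4 : g.γ (j p) = ((polar Q x (j w) - Q (j w) * polar Q x (c • j p)) * c) • j p -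
      polar Q x (c • j p) • j w := by rw [← hx]; module
  have b5 : polar Q (g.γ (j p)) (c • j p) = 0 := by
    rw [b4, polar_sub_left, B_smul_left _ _ (j w), a4]; simp [B_self, X.map_Q, hp]
  simp only [siegel_apply, b5] at b3
  have b6 : polar Q (g.γ (j p)) (j w') • c • j p = 0 := by linear_combination (norm := module) b3
  have b7 : j p ≠ 0 := fun h0 => by
    have := X.map_B p f
    rw [h0, hpf, map_one, mul_one, polar_zero_left] at this
    exact X.l_ne this.symm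
  have b8 : polar Q x (c • j p) = 0 := by
    have := (smul_eq_zero.1 b6).resolve_right (smul_ne_zero hc b7)
    rw [b4, polar_sub_left, B_smul_left, B_smul_left, X.map_B, X.map_B, a2, hw'] at this
    simpa [X.l_ne] using this
  rw [b8, zero_smul, sub_zero] at b4
  exact b4 ▸ Submodule.smul_mem _ _ (Submodule.mem_span_singleton_self _)

lemma Emb.scal [Finite F₀] (X : Emb e Q₀ Q j l) (hQ₀ : ND Q₀) (h3 : 3 ≤ finrank F₀ V₀) (g : SS Q)
    (h : ∀ u, Q₀ u = 0 → g.γ (j u) ∈ F ∙ j u) :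
    ∃ β : Fˣ, (∀ v, g.γ (j v) = (β : F) • j v) ∧ ∀ t, g.σ (e t) = e t := by
  have hl := X.l_ne
  have key : ∀ {a b : V₀} {α β : F}, Q₀ a = 0 → Q₀ b = 0 → polar Q₀ a b = 1 →
      g.γ (j a) = α • j a → g.γ (j b) = β • j b → ∀ w ∈ hp1 Q₀ a b, g.γ (j w) = β • j w := by
    intro a b α β ha hb hab h1 h2 w hw
    obtain ⟨h4, h5⟩ := mem_hp1.1 hw
    have hα : α ≠ 0 := by
      rintro rfl
      rw [zero_smul, map_eq_zero_iff _ g.γ.injective] at h1
      have := X.map_B a b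
      rw [h1, hab, map_one, mul_one, polar_zero_left] at this
      exact hl this.symm
    have hβ : β ≠ 0 := by
      rintro rfl
      rw [zero_smul, map_eq_zero_iff _ g.γ.injective] at h2
      have := X.map_B a b
      rw [h2, hab, map_one, mul_one, polar_zero_right] at this
      exact hl this.symm
    have h6 : polar Q (g.γ (j w)) (j a) = 0 := by
      have := g.map_B (j w) (j a)
      rw [h1, B_smul_right, X.map_B, h4] at this
      simpa [hα] using this
    have h7 : polar Q (g.γ (j w)) (j b) = 0 := by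
      have := g.map_B (j w) (j b)
      rw [h2, B_smul_right, X.map_B, h5] at this
      simpa [hβ] using this
    obtain ⟨k, hk⟩ := Submodule.mem_span_singleton.1 (h (b + w - Q₀ w • a) (by
      simp [Q_sub, Q_add, Q_smul, ha, hb, h4, B_comm Q₀ b w, h5, B_comm Q₀ b a, hab]))
    simp only [map_sub, map_add, X.smul, g.map_smul, h1, h2] at hk
    have h8 := congrArg (polar Q · (j a)) hk
    have h9 := congrArg (polar Q · (j b)) hk
    simp [X.map_B, h6, h7, h4, h5, B_self, X.map_Q, ha, hb, B_comm Q₀ b a, hab, hl] at h8 h9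
    subst h8
    have h10 : k * e (Q₀ w) = g.σ (e (Q₀ w)) * α := mul_right_cancel₀ hl (by linear_combination h9)
    linear_combination (norm := module) -hk - h10 • j a
  obtain ⟨a, b, ha, hb, hab⟩ := exists_hyp_pair hQ₀ h3
  obtain ⟨α, h1⟩ := Submodule.mem_span_singleton.1 (h a ha)
  obtain ⟨β, h2⟩ := Submodule.mem_span_singleton.1 (h b hb)
  have hd := finrank_hp1 ha hb hab
  have hnd := nd_hp1 hQ₀ ha hb hab
  have : Nontrivial (hp1 Q₀ a b) := Module.nontrivial_of_finrank_pos (R := F₀) (by omega)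
  obtain ⟨w, hw0⟩ := exists_ne (0 : hp1 Q₀ a b)
  obtain ⟨w', -, hw'⟩ := hnd.exists_polar_eq_one ⊥ (u := w) (by simpa using hw0)
  rw [polar_restrict] at hw'
  have h4 : j w ≠ 0 := fun h0 => by
    have := X.map_B w w'
    rw [h0, hw', map_one, mul_one, polar_zero_left] at this
    exact hl this.symm
  have h5 := key ha hb hab h1.symm h2.symm
  have h6 := key hb ha ((B_comm _ _ _).trans hab) h2.symm h1.symm w (mem_hp1.2 (mem_hp1.1 w.2).symm)
  obtain rfl : α = β := smul_left_injective F h4 (h6.symm.trans (h5 w w.2))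
  have hα : α ≠ 0 := by
    rintro rfl
    exact g.apply_ne_zero h4 (by simpa using h6)
  have h7 : ∀ t, g.σ (e t) = e t := fun t => by
    have := h5 _ (Submodule.smul_mem _ t w.2)
    rw [X.smul, g.map_smul, h6, smul_comm] at this
    exact smul_left_injective F h4 (smul_right_injective V hα this)
  refine ⟨Units.mk0 α hα, fun v => ?_, h7⟩
  have := h5 _ (proj_mem_hp1 ha hb hab v)
  simp only [map_sub, X.smul, g.map_smul, h7, ← h1, ← h2] at this
  rw [Units.val_mk0]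
  linear_combination (norm := module) this

end emb

lemma emb_id : Emb (RingHom.id F) Q Q (AddMonoidHom.id V) 1 :=
  ⟨one_ne_zero, fun _ _ => rfl, fun _ => (one_mul _).symm⟩

section iwa

variable [Finite F] (hQ : ND Q) {G : Type*} [Group G] {ρ : G →* OG Q}
  (hρ : ∀ p w hp hw, siegel p w hp hw ∈ ρ.range) {M : Subgroup G} [hM : M.Normal]
include hQ hρ

lemma exists_nonperp (h3 : 3 ≤ finrank F V) (h4 : finrank F V ≠ 4) {m : G} (hm : m ∈ M)
    (h : ∀ c : F, ∃ v, (ρ m).1 v ≠ c • v) :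
    ∃ m ∈ M, ∃ p, Q p = 0 ∧ polar Q ((ρ m).1 p) p ≠ 0 := by
  obtain ⟨p, hp, h1⟩ : ∃ p, Q p = 0 ∧ (ρ m).1 p ∉ F ∙ p := by
    by_contra h1
    push Not at h1
    obtain ⟨β, h2, -⟩ := emb_id.scal hQ h3 (SS.ofO Q (ρ m)) h1
    obtain ⟨v, hv⟩ := h β
    exact hv (h2 v)
  by_cases h2 : polar Q ((ρ m).1 p) p = 0
  swap
  · exact ⟨m, hm, p, hp, h2⟩
  have hp0 : p ≠ 0 := by rintro rfl; simp at h1
  obtain ⟨f, hf⟩ := exists_hypSys_pair hQ hp ((B_comm _ _ _).trans h2) (by simp [hp]) hp0 h1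
  have h5 := hf.finrank_eq
  obtain ⟨w, a1, a2, a3⟩ := exists_nonsing_perp2 hQ (by simp at h5; omega) (f 1) p
  have a4 : polar Q p (f 1) = 0 := hf.ef 0 1
  have a5 : polar Q ((ρ m).1 p) (f 1) = 1 := hf.ef 1 1
  obtain ⟨u, hu⟩ := hρ _ _ (hf.Qf 1) a2
  have a6 : (ρ u)⁻¹.1 p = p := by
    rw [OG.inv_apply_eq, hu, siegel_apply, a3, a4]; simp
  refine ⟨u * m * u⁻¹ * m⁻¹, mul_mem (hM.conj_mem m hm u) (inv_mem hm), (ρ m).1 p, by simp [hp], ?_⟩
  simp only [map_mul, map_inv, OG.mul_apply, OG.inv_apply_apply, a6]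
  rw [hu, siegel_apply, a5]
  simp [B_self, hp, B_comm Q (f 1), a5, B_comm Q w, a1]

omit [Finite F] hQ [FiniteDimensional F V] in
lemma orb_of_nonperp {m : G} (hm : m ∈ M) {p : V} (hp : Q p = 0) {k : F} {q : V} (hk : k ≠ 0)
    (h1 : (ρ m).1 p = k • q) (h : polar Q q p ≠ 0) {c : V} (hc : Q c = 0) (h2 : polar Q c p ≠ 0) :
    ∃ m ∈ M, ∃ k : F, k ≠ 0 ∧ (ρ m).1 p = k • c := by
  have hq : Q q = 0 := by
    have := OG.map_Q (ρ m) p
    rw [h1, Q_smul, hp] at this
    simpa [hk] using this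
  obtain ⟨w, hw, a, ha, h3⟩ := exists_siegel_par hp hq hc h h2
  obtain ⟨u, hu⟩ := hρ _ _ hp hw
  refine ⟨u * m * u⁻¹, hM.conj_mem m hm u, k * a, mul_ne_zero hk ha, ?_⟩
  have : (ρ u)⁻¹.1 p = p := by rw [OG.inv_apply_eq, hu, siegel_self]
  simp only [map_mul, map_inv, OG.mul_apply, this]
  rw [h1, map_smul, hu, h3, smul_smul]

omit [Finite F] in
lemma orb_all {m : G} (hm : m ∈ M) {p : V} (hp : Q p = 0) (h : polar Q ((ρ m).1 p) p ≠ 0)
    {c : V} (hc : Q c = 0) (hc0 : c ≠ 0) : ∃ m ∈ M, ∃ k : F, k ≠ 0 ∧ (ρ m).1 p = k • c := by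
  have h1 := fun c => orb_of_nonperp hρ hm hp one_ne_zero (one_smul _ _).symm h (c := c)
  by_cases h2 : polar Q c p = 0
  swap
  · exact h1 c hc h2
  have hp0 : p ≠ 0 := by rintro rfl; simp at h
  by_cases h3 : c ∈ F ∙ p
  · obtain ⟨k, rfl⟩ := Submodule.mem_span_singleton.1 h3
    have hk : k ≠ 0 := by rintro rfl; simp at hc0
    exact ⟨1, one_mem _, k⁻¹, inv_ne_zero hk, by simp [smul_smul, hk]⟩
  obtain ⟨f, hf⟩ := exists_hypSys_pair hQ hp ((B_comm _ _ _).trans h2) hc hp0 h3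
  have a1 : Q (f 0 + f 1) = 0 := by rw [Q_add, hf.Qf, hf.Qf, hf.ff]; simp
  have a2 : polar Q p (f 0 + f 1) = 1 := by
    rw [polar_add_right]; exact (congrArg₂ _ (hf.ef 0 0) (hf.ef 0 1)).trans (by simp)
  have a3 : polar Q c (f 0 + f 1) = 1 := by
    rw [polar_add_right]; exact (congrArg₂ _ (hf.ef 1 0) (hf.ef 1 1)).trans (by simp)
  obtain ⟨m₁, b1, k₁, b2, b3⟩ := h1 _ a1 (by rw [B_comm, a2]; exact one_ne_zero)
  obtain ⟨m₂, c1, k₂, c2, c3⟩ := orb_of_nonperp hρ (inv_mem b1) a1 (q := p) (inv_ne_zero b2)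
    (by rw [map_inv, OG.inv_apply_eq, map_smul, b3, smul_smul, inv_mul_cancel₀ b2, one_smul])
    (by rw [a2]; exact one_ne_zero) hc (by rw [a3]; exact one_ne_zero)
  exact ⟨m₂ * m₁, mul_mem c1 b1, k₁ * k₂, mul_ne_zero b2 c2, by
    rw [map_mul, OG.mul_apply, b3, map_smul, c3, smul_smul]⟩

omit [Finite F] hQ [FiniteDimensional F V] in
lemma exists_swap (inj : Function.Injective ρ) {r : ℕ} [CharP F r] (hr : Odd r) {m : G} (hm : m ∈ M)
    {p : V} (hp : Q p = 0) (h : polar Q ((ρ m).1 p) p ≠ 0) :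
    ∃ w ∈ M, ∀ k : ℕ, Odd k → ∀ c : F, ((ρ w) ^ k).1 p ≠ c • p := by
  obtain ⟨w, hw, a, ha, h3⟩ := exists_siegel_par (p := (ρ m).1 p) (x := (ρ m).1 ((ρ m).1 p))
    (y := p) (by simp [hp]) (by simp [hp]) hp (by simpa using h) (by rwa [B_comm])
  obtain ⟨u, hu⟩ := hρ _ _ _ hw
  have h1 : (ρ (u * m)).1 p = (ρ m).1 p := by rw [map_mul, OG.mul_apply, hu, siegel_self]
  have h2 : (ρ (u * m)).1 ((ρ m).1 p) = a • p := by rw [map_mul, OG.mul_apply, hu, h3]
  have h4 : ∀ k : ℕ, (ρ (u * m) ^ (2 * k + 1)).1 p = a ^ k • (ρ m).1 p := fun k => by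
    induction k with
    | zero => simpa using h1
    | succ k ih =>
      rw [show 2 * (k + 1) + 1 = (2 * k + 1) + 1 + 1 by ring, pow_succ', pow_succ', OG.mul_apply,
        OG.mul_apply, ih, map_smul, h2, map_smul, map_smul, h1, smul_smul, pow_succ]
  refine ⟨(u * m) ^ r, ?_, fun k hk c hc => ?_⟩
  · rw [← QuotientGroup.eq_one_iff, QuotientGroup.mk_pow, QuotientGroup.mk_mul,
      (QuotientGroup.eq_one_iff m).2 hm, mul_one, ← QuotientGroup.mk_pow,
      show u ^ r = 1 from inj (by rw [map_pow, hu, siegel_pow_char, map_one]), QuotientGroup.mk_one]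
  · obtain ⟨l, hl⟩ := hr.mul hk
    rw [map_pow, ← pow_mul, hl, h4] at hc
    have := congrArg (polar Q · p) hc
    simp [B_self, hp, ha, h] at this

end iwa

theorem iwasawa [Finite F] (hQ : ND Q) (h5 : 5 ≤ finrank F V) (r : ℕ) [CharP F r]
    {M : Subgroup (Om Q)} [hM : M.Normal] {m : Om Q} (hm : m ∈ M)
    (h : ∀ c : F, ∃ v, m.1.1 v ≠ c • v) (s : Om Q) : s ^ r ∈ M := by
  have hρ : ∀ p w hp hw, siegel p w hp hw ∈ (Om Q).subtype.range := fun p w hp hw =>
    ⟨⟨_, siegel_mem_Om hQ h5 hp hw⟩, rfl⟩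
  obtain ⟨m, hm, p, hp, h1⟩ := exists_nonperp hQ hρ (by omega) (by omega) hm h
  refine H6.pow_mem_of_mem_sup (D := (sgAt Q p hp).subgroupOf (Om Q)) ?_ ?_
  · rintro ⟨_, _⟩ ⟨w, hw, rfl⟩
    exact Subtype.ext (siegel_pow_char r hp hw)
  have h2 : sgAll Q ≤ (M ⊔ (sgAt Q p hp).subgroupOf (Om Q)).map (Om Q).subtype := by
    rw [sgAll, closure_le]
    rintro _ ⟨c, w, hc, hw, rfl⟩
    by_cases hc0 : c = 0
    · subst hc0
      rw [show siegel 0 w hc hw = 1 from OG.ext' fun x => by simp [siegel_apply]]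
      exact one_mem _
    obtain ⟨n, hn, k, hk, h3⟩ := orb_all hQ hρ hm hp h1 hc hc0
    have h4 : n.1⁻¹.1 c = k⁻¹ • p := by
      rw [OG.inv_apply_eq, map_smul]
      change c = k⁻¹ • ((Om Q).subtype n).1 p
      rw [h3, smul_smul, inv_mul_cancel₀ hk, one_smul]
    have h6 : polar Q p (k⁻¹ • n.1⁻¹.1 w) = 0 := by
      rw [B_smul_right, ← B_smul_left, ← h4, OG.map_B, hw]
    refine ⟨n * ⟨_, siegel_mem_Om hQ h5 hp h6⟩ * n⁻¹, mul_mem (mul_mem (mem_sup_left hn)
      (mem_sup_right ⟨_, h6, rfl⟩)) (inv_mem (mem_sup_left hn)), ?_⟩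
    change n.1 * siegel _ _ hp h6 * n.1⁻¹ = _
    rw [← siegel_smul_left k⁻¹ hp (by simp [Q_smul, hp]) (by rw [← h4, OG.map_B, hw]), siegel_conj]
    exact siegel_congr _ _ (by rw [← h4]; simp) (by simp)
  obtain ⟨t, ht, h3⟩ := h2 (Om_le_sgAll hQ (nonExc_of_finrank hQ (by omega)) (by omega) s.2)
  exact Subtype.ext h3 ▸ ht

lemma actO_eq_of_comm [Nontrivial V] {A : Type*} [Group A] {a : SS Q →* A} (ha : a.ker = ZS Q)
    {r : ℕ} [Fact r.Prime] [CharP F r] {g : SS Q} {s : OG Q} (hs : s ^ r = 1)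
    (h : a g * a (SS.ofO Q s) = a (SS.ofO Q s) * a g) : SS.actO Q g s = s := by
  obtain ⟨l, hl⟩ : g * SS.ofO Q s * g⁻¹ * (SS.ofO Q s)⁻¹ ∈ ZS Q := by
    rw [← ha, MonoidHom.mem_ker]; simp [h]
  rw [eq_mul_inv_iff_mul_eq, ← SS.ofO_actO] at hl
  have h1 := congrArg (· ^ r) hl
  simp only [(Commute.symm (sc_comm_of_GO (ofO_mem_GO s) l)).mul_pow, ← map_pow, hs, map_one,
    mul_one] at h1
  have h2 : l = 1 := Units.ext ((frobenius F r).injective (by
    have := congrArg Units.val (SS.sc_injective (h1.trans (map_one _).symm))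
    simpa [frobenius_def] using this))
  rw [h2, map_one, one_mul] at hl
  exact (SS.ofO_injective hl).symm

end Cfsg.Agent.H7
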