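import Cfsg.Agent.H7.BalF
import Cfsg.Agent.H7.DescB

/-!
Local balance for orthogonal groups: bridge to the groups of the Prelude.
-/

set_option autoImplicit false

namespace Cfsg.Agent.H7

open QuadraticMap Module Subgroup

lemma conj_injective_congr {G H : Type*} [Group G] [Group H] (e : G ≃* H)
    (h : Function.Injective (MulAut.conj : H →* MulAut H)) :
    Function.Injective (MulAut.conj : G →* MulAut G) :=
  (injective_iff_map_eq_one _).2 fun x hx => e.map_eq_one_iff.1 (h (by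
    ext y
    obtain ⟨y, rfl⟩ := e.surjective y
    have := congrArg (fun α : MulAut G => e (α y)) hx
    simpa using this))

lemma conj_injective_POm {F V : Type*} [Field F] [AddCommGroup V] [Module F V]
    {Q : QuadraticForm F V} [FiniteDimensional F V] [Finite F] (hQ : ND Q) (h5 : 5 ≤ finrank F V) :
    Function.Injective (MulAut.conj : POm Q →* MulAut (POm Q)) :=
  (injective_iff_map_eq_one _).2 fun x hx => by
    obtain ⟨s, rfl⟩ := QuotientGroup.mk'_surjective _ x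
    obtain ⟨l, hl⟩ := (act_eq_one_iff hQ h5).1 ((act_ofO s).trans hx)
    exact (QuotientGroup.eq_one_iff s).2 ((mem_center_Om_iff hQ h5).2
      ⟨l, fun v => congrArg (·.γ v) hl⟩)

variable {F : Type*} [Field F] {ι : Type} [Fintype ι] [DecidableEq ι]
  {Q : QuadraticForm F (ι → F)} [Finite F]

lemma conj_injective_POmega (hQ : ND Q) (h5 : 5 ≤ Fintype.card ι) :
    Function.Injective (MulAut.conj : Cfsg.POmega F ⇑Q →* _) :=
  conj_injective_congr (pomEquiv Q) (conj_injective_POm hQ (by simpa using h5))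

theorem inn_cent_ne_bot (hQ : ND Q) (h5 : 5 ≤ Fintype.card ι) {γ : SS Q} {p : ℕ} (hp : p.Prime)
    (ho : orderOf (actP Q γ) = p) (hσ : γ.σ ≠ 1) :
    Cfsg.Inn (Cfsg.POmega F ⇑Q) ⊓ centralizer {actP Q γ} ≠ ⊥ := by
  have ha := ker_actP hQ h5
  have : Nonempty ι := Fintype.card_pos_iff.1 (by omega)
  obtain ⟨μ, Q₀, j, l, h⟩ := exists_fx' hQ (orderOf_σ_eq ha hp ho hσ) (pow_mem_ZS ha ho) (he_fixF γ.σ)
  have := h.inf_ne_bot ha hQ (by simpa using h5)
  rwa [← inn_eq_KS, map_mul, actP_sc, one_mul] at this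

theorem coprime_of_unbal (hQ : ND Q) (h7 : 7 ≤ Fintype.card ι) (r : ℕ) [Fact r.Prime] [CharP F r]
    {γ : SS Q} {p : ℕ} [Fact p.Prime] (hpr : p ≠ r) (ho : orderOf (actP Q γ) = p) (hσ : γ.σ ≠ 1)
    (hU : H6.Unbal p (Cfsg.Inn (Cfsg.POmega F ⇑Q)) (actP Q γ)) :
    (Nat.card ↥(Cfsg.Inn (Cfsg.POmega F ⇑Q) ⊓ centralizer {actP Q γ})).Coprime p := by
  have ha := ker_actP hQ (by omega)
  have h7' : 7 ≤ finrank F (ι → F) := by simpa using h7
  have : Nonempty ι := Fintype.card_pos_iff.1 (by omega)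
  have h1 := orderOf_σ_eq ha Fact.out ho hσ
  obtain ⟨μ, Q₀, j, l, h⟩ := exists_fx' hQ h1 (pow_mem_ZS ha ho) (he_fixF γ.σ)
  have e1 : actP Q γ = actP Q (SS.sc _ μ * γ) := by rw [map_mul, actP_sc, one_mul]
  have : ((KS Q).map (actP Q)).Normal := inn_eq_KS (Q := Q) ▸ inferInstance
  rw [inn_eq_KS, e1] at hU ⊢
  refine h.coprime_of_unbal ha hQ (by omega) r hpr (by simpa using h1) (fun n hn => ?_) hU
  have h0 := h.X.rank
  have hQ₀ := h.X.nd hQ
  obtain ⟨u, hu0, hu⟩ := exists_sing_of_three_le Q₀ (by omega)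
  obtain ⟨s, t, hs, ht, a1, a2, a3, -⟩ := exists_two_lines hQ₀ (by omega) hu hu0
  obtain ⟨u, y, z, hu, hy, hz, hu0, b1, b2, b3, b4, b5, b6⟩ :=
    exists_of_meet_not_prp hQ₀ hs ht ⟨u, hu0, a1, a2⟩ a3
  have hl := inv_ne_zero h.X.l_ne
  have key : ∀ {y z : _}, Q₀ y = 0 → polar Q₀ u z = 0 → polar Q₀ y z ≠ 0 →
      j y ∉ F ∙ (l⁻¹ • j u) := fun {y z} _ h2 h3 h4 => by
    obtain ⟨c, hc⟩ := Submodule.mem_span_singleton.1 h4
    have := congrArg (polar Q · (j z)) hc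
    simp [h.X.map_B, h2, h3, h.X.l_ne] at this
  have c0 : l⁻¹ • j u ≠ 0 := smul_ne_zero hl fun h2 => hu0 (h.X.injective (by simpa using h2))
  have c1 := key b1 hz b4
  have c2 := key b2 hy (by rwa [B_comm])
  have c3 : Q (l⁻¹ • j u) = 0 := by simp [Q_smul, h.X.map_Q, hu]
  have c4 : Q (j y) = 0 := by simp [h.X.map_Q, b1]
  have c5 : Q (j z) = 0 := by simp [h.X.map_Q, b2]
  have c6 : polar Q (l⁻¹ • j u) (j y) = 0 := by simp [h.X.map_B, hy]
  have c7 : polar Q (l⁻¹ • j u) (j z) = 0 := by simp [h.X.map_B, hz]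
  have d : ∀ s : Om Q₀, ∀ s' : Om Q, h.X.EO s.1 = s'.1 →
      Cor (MulAut.congr (pomEquiv Q) n) s' s' := fun s s' e => by
    have h2 := congrArg (MulAut.congr (pomEquiv Q)) (hn s)
    have h3 : MulAut.congr (pomEquiv Q) (actP Q (SS.ofO Q s'.1)) = MulAut.conj (pm Q s') :=
      ((MulAut.congr (pomEquiv Q)).apply_symm_apply _).trans (act_ofO s')
    rw [e, map_mul, map_mul, h3, ← mul_inv_eq_iff_eq_mul] at h2
    refine conj_injective_POm hQ (by omega) (Eq.trans ?_ h2)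
    ext x; simp
  have l1 := lr_sgO hQ h7' c3 c6 c4 c0 c1
  have l2 := lr_sgO hQ h7' c3 c7 c5 c0 c2
  have m1 : Meet (sgO hQ h7' _ _ c3 c6).1 (sgO hQ h7' _ _ c3 c7).1 := ⟨_, c0,
    movS_sgO hQ h7' c3 c6 c4 c0 c1 ▸ Submodule.subset_span (by simp),
    movS_sgO hQ h7' c3 c7 c5 c0 c2 ▸ Submodule.subset_span (by simp)⟩
  obtain ⟨g, hg⟩ := mem_range_of_pair hQ h7' l1 l2 l1 l2 (d s _ (b5 ▸ h.X.EO_siegel hu hy))
    (d t _ (b6 ▸ h.X.EO_siegel hu hz)) m1 (fun h2 => b4 (by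
      simpa [h.X.map_B, h.X.l_ne] using
        (meet_prp_siegel hQ c3 c0 c4 c5 c6 c7 c1 c2).1 ⟨m1, h2⟩)) m1
  exact ⟨g, (congrArg (MulAut.congr (pomEquiv Q)).symm hg).trans
    ((MulAut.congr (pomEquiv Q)).symm_apply_apply n)⟩

end Cfsg.Agent.H7
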