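import Cfsg.Agent.H7.BalG
import Cfsg.Agent.H7.BalB

/-!
Local balance for orthogonal groups: graph automorphisms induced by similarities.
-/

set_option autoImplicit false

namespace Cfsg.Agent.H7

open QuadraticMap Module Subgroup

variable {F V : Type*} [Field F] [AddCommGroup V] [Module F V] {Q : QuadraticForm F V}
  [FiniteDimensional F V] [Finite F]

lemma pow_notMem_DS (hQ : ND Q) (hE : NonExc Q) (hev : Even (finrank F V)) [Nontrivial V]
    {g : SS Q} (hg : g ∈ GO Q) (hD : g ∉ DS Q) {n : ℕ} (hn : Odd n) : g ^ n ∉ DS Q := by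
  obtain ⟨k, rfl⟩ := hn
  rw [pow_succ, two_mul, pow_add, mul_mem_DS_iff hQ hE hev (mul_mem (pow_mem hg _) (pow_mem hg _)) hg,
    mul_mem_DS_iff hQ hE hev (pow_mem hg _) (pow_mem hg _)]
  simpa using hD

theorem not_unbal_graph {A : Type*} [Group A] [Finite A] {a : SS Q →* A} (ha : a.ker = ZS Q)
    [((KS Q).map a).Normal] (hQ : ND Q) {k : ℕ} (hk : finrank F V = 2 * k) (h4 : 4 ≤ k)
    (haut : ∀ (n : A) (s t : OG Q), LR s → LR t → Meet s t → ¬ Prp s t →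
      Commute n (a (SS.ofO Q s)) → Commute n (a (SS.ofO Q t)) → n ∈ a.range)
    (hs : Odd k → Function.Surjective a) (r : ℕ) [Fact r.Prime] [CharP F r] {p : ℕ}
    [Fact p.Prime] (hpr : p ≠ r) {g : SS Q} (ho : orderOf (a g) = p) (hg : g ∈ GO Q)
    (hD : g ∉ DS Q) : ¬ H6.Unbal p ((KS Q).map a) (a g) := by
  have : Nontrivial V := Module.nontrivial_of_finrank_pos (R := F) (by omega)
  have hev : Even (finrank F V) := hk ▸ even_two_mul k
  have hZ := pow_mem_ZS ha ho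
  obtain rfl : p = 2 := by
    by_contra h
    obtain ⟨l, hl⟩ := hZ
    exact pow_notMem_DS hQ (nonExc_of_finrank hQ (by omega)) hev hg hD
      ((Fact.out : p.Prime).odd_of_ne_two h) (hl ▸ sc_mem_DS hev l)
  have h2 : (2 : F) ≠ 0 := fun h => hpr ((Nat.prime_dvd_prime_iff_eq Fact.out Nat.prime_two).1
    ((CharP.cast_eq_zero_iff F r 2).1 (by simpa using h))).symm
  rcases graph_cases h2 hQ hk hg hD (pow_two g ▸ hZ) with ⟨h, t, rfl, h5, h6⟩ | ⟨h5, h6, h7⟩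
  · rw [map_mul, show a (SS.sc Q t) = 1 from ha.ge ⟨t, rfl⟩, mul_one]
    exact not_unbal_A ha h2 hQ (by omega) hev h5 h6 haut
  · exact not_unbal_B ha h2 hQ hk (by obtain ⟨j, hj⟩ := h6; omega) hg h5 h7 (hs h6)

lemma conj_trans_eq {G H : Type*} [Group G] [Group H] (ψ : H ≃* G) {α β δ : MulAut G} {δ' : MulAut H}
    (h : δ = α * β * α⁻¹) (h' : ∀ y, δ (ψ y) = ψ (δ' y)) :
    ((MulEquiv.trans α ψ.symm).symm.trans β).trans (MulEquiv.trans α ψ.symm) = δ' :=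
  MulEquiv.ext fun y => ψ.symm_apply_eq.2 (by subst h; exact h' y)

theorem fieldClassMinus_of {m : ℕ} (hm : 3 ≤ m) {a b : F}
    (hab : ∀ z₁ z₂ : F, z₁ ^ 2 + a * z₁ * z₂ + b * z₂ ^ 2 = 0 → z₁ = 0 ∧ z₂ = 0)
    {γ : SS (QM F m a b)} {p : ℕ} (hp : p.Prime) (hord : orderOf (actP _ γ) = p) (h1 : γ.σ ≠ 1) :
    Cfsg.IsFieldAutClassPOmegaMinus (a := a) (b := b) m (actP (QM F m a b) γ) := by
  have hQ := nd_QM (m := m) (disc_ne_zero_of_aniso hab)
  have hk := finrank_QM F m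
  have hev : Even (Module.finrank F ((Fin m ⊕ Fin m) ⊕ Fin 2 → F)) := hk ▸ even_two_mul _
  have ha := ker_actP hQ (by simp; omega)
  have hσ := orderOf_σ_eq ha hp hord h1
  have hP := not_plusType_QM (m := m) hab
  obtain ⟨μ, Q₀, j, l, hF⟩ := exists_fx' hQ hσ (pow_mem_ZS ha hord) (he_fixF γ.σ)
  have ho : Odd (orderOf γ.σ) := Nat.not_even_iff_odd.1 fun h2 =>
    hP (hF.plusType_of_even hQ hev (by simpa using h2))
  obtain ⟨-, ζ, -, hζ, -⟩ := exists_QM_of_not_plus (hF.X.nd hQ) (by simpa using hev)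
    fun h2 => hP (hF.stabMax_of_plus hQ h2).plusType
  have hab' := aniso_of_no_root (ζ := (ζ : F)) fun t ht => by
    obtain ⟨s, hs⟩ := exists_root_of_odd (he_fixF γ.σ) ho (a := 1) (b := ζ) (t := t)
      (by simpa using ht)
    exact hζ s (by simpa using hs)
  have h2 : γ.σ 1 = 1 := map_one _
  have h3 : γ.σ ζ = ζ := (he_fixF γ.σ _).2 ⟨ζ, rfl⟩
  obtain ⟨φ, hφ⟩ := exists_equiv_QM hQ (m := m) (by rw [hk]; ring) hP hab'
  obtain ⟨ψ₀, h6⟩ : ∃ ψ₀ : Cfsg.POmega F ⇑(QM F m 1 ζ) ≃* Cfsg.POmega F ⇑(QM F m a b),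
      ∀ g y, actP _ (g.transport φ hφ) (ψ₀ y) = ψ₀ (actP _ g y) :=
    ⟨((pomEquiv _).trans (pomCongr φ hφ)).trans (pomEquiv _).symm, fun g y => by
      simp [actP_apply, act_transport]⟩
  obtain ⟨α, -, h4⟩ := isConjUnder_even hQ (γ := γ)
    (γ' := (SS.std γ.σ (std_QM m h2 h3)).transport φ hφ) rfl hσ (pow_mem_ZS ha hord)
    (ha.le (by
      rw [MonoidHom.mem_ker, map_pow]
      ext y : 1
      obtain ⟨y, rfl⟩ := ψ₀.surjective y
      have : ∀ n : ℕ, (actP _ ((SS.std γ.σ (std_QM m h2 h3)).transport φ hφ) ^ n) (ψ₀ y) =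
          ψ₀ (actP _ (SS.std γ.σ (std_QM m h2 h3) ^ n) y) := fun n => by
        induction n with
        | zero => simp
        | succ n ih => rw [pow_succ', pow_succ', MulAut.mul_apply, ih, h6, map_mul, MulAut.mul_apply]
      rw [this, SS.std_pow_eq_one (nd_QM (disc_ne_zero_of_aniso hab')) _
        (hσ ▸ pow_orderOf_eq_one _), map_one]
      rfl)) ha (nonExc_of_finrank hQ (by omega)) hev (by omega)
    (iff_of_false (fun h => hP h.plusType) fun h => hP h.plusType)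
  have h7 := ((hasMat_std γ.σ (std_QM m h2 h3)).isField_iff _).2 (conj_trans_eq ψ₀ h4 (h6 _))
  exact ⟨1, ζ, @MulEquiv.trans _ _ _ (_) (_) (_) α ψ₀.symm, γ.σ, hab', h1, h2, h3, h7⟩

end Cfsg.Agent.H7
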