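/-
Fusion in the split torus of a Chevalley group.
-/
import Cfsg.Agent.H9.ChevFold
import Cfsg.Agent.H9.ChevFix

set_option autoImplicit false
set_option linter.unusedSectionVars false

namespace Cfsg.Agent.H7.Alt

open Subgroup Cfsg.Agent.H9.Chev Dat

variable {I Φ : Type} [Fintype I] [DecidableEq I] {l : ℕ} {F : Type*} [Field F] {d : Dat I Φ l F}

def GH (d : Dat I Φ l F) : Subgroup (GL I F) := d.US Set.univ ⊔ d.T

def WE (d : Dat I Φ l F) (p : Fin l) : AddMonoid.End (Fin l → ℤ) := d.W p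

def WL (d : Dat I Φ l F) (L : List (Fin l)) : AddMonoid.End (Fin l → ℤ) := (L.map (WE d)).prod

lemma WL_cons (p : Fin l) (L : List (Fin l)) (v : Fin l → ℤ) : WL d (p :: L) v = d.W p (WL d L v) := by
  rfl

lemma WL_append (L L' : List (Fin l)) : WL d (L ++ L') = WL d L * WL d L' := by simp [WL]

lemma T_comm : ∀ x ∈ d.T, ∀ y ∈ d.T, x * y = y * x := by
  rintro _ ⟨χ, rfl⟩ _ ⟨ψ, rfl⟩
  rw [← map_mul, ← map_mul, mul_comm χ ψ]

lemma exists_pow (L : List (Fin l)) (k : ℕ) : ∃ L', d.nw L' = d.nw L ^ k ∧ WL d L' = WL d L ^ k := by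
  induction k with
  | zero => exact ⟨[], by simp [nw], by simp [WL]⟩
  | succ k ih =>
    obtain ⟨L', h1, h2⟩ := ih
    exact ⟨L' ++ L, by rw [nw_append, h1, pow_succ], by rw [WL_append, h2, pow_succ]⟩

lemma WL_inv {β : (Fin l → ℤ) → (Fin l → ℤ) → ℤ} (hβ : ∀ p v w, β (d.W p v) (d.W p w) = β v w)
    (L : List (Fin l)) (v w : Fin l → ℤ) : β (WL d L v) (WL d L w) = β v w := by
  induction L with
  | nil => rfl
  | cons p L ih => rw [WL_cons, WL_cons, hβ, ih]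

variable (h : d.Ax)
include h

lemma rt_ww (L : List (Fin l)) (r : Φ) : d.rt (d.ww L r) = WL d L (d.rt r) := by
  induction L with
  | nil => rfl
  | cons p L ih => rw [ww_cons, h.rt_w, ih, WL_cons]

lemma nw_D (L : List (Fin l)) (χ : AddChar (Fin l → ℤ) Fˣ) :
    d.nw L * d.D (χ.compAddMonoidHom (WL d L)) = d.D χ * d.nw L := by
  induction L generalizing χ with
  | nil => simp only [nw, List.map_nil, List.prod_nil, one_mul, mul_one]; rfl
  | cons p L ih =>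
    have e1 : χ.compAddMonoidHom (WL d (p :: L)) =
        (χ.compAddMonoidHom (d.W p)).compAddMonoidHom (WL d L) := by
      rfl
    have e2 : (χ.compAddMonoidHom (d.W p)).compAddMonoidHom (d.W p) = χ := by
      ext v; simp [h.W_W]
    rw [nw_cons, mul_assoc, e1, ih, ← mul_assoc, h.n_D, e2, mul_assoc]

lemma nw_gr (L : List (Fin l)) (a b : I) (H : (d.nw L).1 a b ≠ 0) : d.gr a = WL d L (d.gr b) := by
  induction L generalizing a with
  | nil =>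
    have : a = b := by
      by_contra hab
      exact H (by simp [nw, Matrix.one_apply_ne hab])
    rw [this]; rfl
  | cons p L ih =>
    rw [nw_cons, Units.val_mul, Matrix.mul_apply] at H
    obtain ⟨c, -, hc⟩ := Finset.exists_ne_zero_of_sum_ne_zero H
    rw [WL_cons, ← ih c (right_ne_zero_of_mul hc), h.n_gr p a c (left_ne_zero_of_mul hc)]

lemma nw_pow_mem {L : List (Fin l)} {k : ℕ} (H : WL d L ^ k = 1) : d.nw L ^ k ∈ d.T := by
  obtain ⟨L', h1, h2⟩ := exists_pow (d := d) L k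
  rw [← h1]
  refine h.del L' fun r hr => ?_
  have : d.ww L' r = r := h.rt_inj (by rw [rt_ww h, h2, H]; rfl)
  rwa [this]

lemma nw_pow_inv {L : List (Fin l)} {k : ℕ} (H : WL d L ^ k = -1) :
    ∀ x ∈ d.T, d.nw L ^ k * x * (d.nw L ^ k)⁻¹ = x⁻¹ := by
  obtain ⟨L', h1, h2⟩ := exists_pow (d := d) L k
  rintro _ ⟨χ, rfl⟩
  rw [← h1, mul_inv_eq_iff_eq_mul, ← map_inv, ← nw_D h, h2, H]
  congr 2
  ext v
  show _ = ((χ (- -v) : Fˣ) : F)
  rw [neg_neg]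

lemma nw_norm (L : List (Fin l)) : d.nw L ∈ normalizer (d.T : Set (GL I F)) := by
  rw [mem_normalizer_iff]
  intro x
  refine ⟨h.nw_T L, ?_⟩
  rintro ⟨χ, hχ⟩
  refine ⟨χ.compAddMonoidHom (WL d L), mul_left_cancel (a := d.nw L) ?_⟩
  rw [nw_D h, hχ]; group

lemma mul_pow_mem {t n : GL I F} (ht : t ∈ d.T) (hn : n ∈ normalizer (d.T : Set (GL I F))) {k : ℕ}
    (H : n ^ k ∈ d.T) : (t * n) ^ k ∈ d.T := by
  have : ∀ k : ℕ, (t * n) ^ k * (n ^ k)⁻¹ ∈ d.T := by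
    intro k
    induction k with
    | zero => simp
    | succ k ih =>
      have := mul_mem ht ((mem_normalizer_iff.mp hn _).mp ih)
      convert this using 1
      rw [pow_succ', pow_succ']; group
  simpa using mul_mem (this k) H

variable [Finite Φ]

lemma cell_GH {g : GL I F} (hg : g ∈ GH d) : ∃ L, d.Cell L g := by
  have h1 : d.T ≤ normalizer (d.US Set.univ : Set (GL I F)) := fun t ht => by
    rw [mem_normalizer_iff]
    refine fun x => ⟨h.T_conj ht, fun hx => ?_⟩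
    have := h.T_conj (inv_mem ht) hx
    convert this using 1; group
  have h2 : g ∈ ((d.T ⊔ d.US Set.univ : Subgroup (GL I F)) : Set (GL I F)) := by rwa [sup_comm]
  rw [coe_mul_of_left_le_normalizer_right _ _ h1] at h2
  obtain ⟨t, ht, u, hu, rfl⟩ := h2
  obtain ⟨L, hL⟩ := h.bruhat hu
  exact ⟨L, h.cell_T ht hL⟩

lemma fuse {g : GL I F} (hg : g ∈ GH d) : ∃ L, ∃ u ∈ d.US (d.Pos (ht l)), ∃ t ∈ d.T,
    ∃ v ∈ d.US (d.Pos (-ht l)), g = u * t * v * d.nw L ∧ ∀ x ∈ d.T, g * x * g⁻¹ ∈ d.T →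
      g * x * g⁻¹ = d.nw L * x * (d.nw L)⁻¹ ∧ g * x * g⁻¹ * u = u * (g * x * g⁻¹) ∧
        g * x * g⁻¹ * v = v * (g * x * g⁻¹) := by
  obtain ⟨L, hL⟩ := cell_GH h hg
  obtain ⟨u, hu, t, ht, v, hv, e⟩ := h.cell_ldu hL
  refine ⟨L, u, hu, t, ht, v, hv, e, fun x hx hx' => ?_⟩
  have hy := h.nw_T L hx
  set y := d.nw L * x * (d.nw L)⁻¹ with hyd
  set x' := g * x * g⁻¹ with hxd
  have e1 : u * (t * y) * (y⁻¹ * v * y⁻¹⁻¹) = (x' * u * x'⁻¹) * (x' * t) * v := by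
    rw [hyd, hxd, e]; group
  obtain ⟨h1, h2, h3⟩ := h.ldu hu (h.T_conj hx' hu) (h.T_conj (inv_mem hy) hv) hv (mul_mem ht hy)
    (mul_mem hx' ht) e1
  have h4 : x' = y := by
    rw [T_comm _ hx' _ ht] at h2
    exact (mul_left_cancel h2).symm
  refine ⟨h4, mul_inv_eq_iff_eq_mul.mp h1.symm, ?_⟩
  rw [h4]
  nth_rw 1 [← h3]
  group

lemma eq_one_of_reg {f : (Fin l → ℤ) →+ ℤ} (S : Set Φ) (hS : d.Up f S) : ∀ u ∈ d.US S,
    (∀ r, ∃ χ, χ (d.rt r) ≠ 1 ∧ d.D χ * u = u * d.D χ) → u = 1 := by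
  refine Ax.up_ind (P := fun S => ∀ u ∈ d.US S,
    (∀ r, ∃ χ, χ (d.rt r) ≠ 1 ∧ d.D χ * u = u * d.D χ) → u = 1) ?_ ?_ S hS
  · intro u hu _
    simpa [US] using hu
  · intro S r hS hr hmin hup ih u hu H
    obtain ⟨t, u', hu', rfl⟩ := h.peel hup (hS r hr).1 hu
    obtain ⟨χ, h1, h2⟩ := H r
    obtain ⟨c, hc⟩ := h.tau_peel (hS r hr).1
    have e : d.x r t * u' = d.x r (χ (d.rt r) * t) * (d.D χ * u' * (d.D χ)⁻¹) := by
      rw [← mul_assoc, ← mul_assoc, ← h.D_x, mul_assoc (d.D χ), h2]; group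
    have h3 := hc (S \ {r}) (fun s hs => hmin s hs.1) (by simp) _ hu' t
    rw [e, hc (S \ {r}) (fun s hs => hmin s hs.1) (by simp) _ (h.T_conj (D_mem χ) hu')] at h3
    have h4 : t = 0 := by
      by_contra h0
      exact h1 (Units.ext (mul_right_cancel₀ h0 (h3.trans (one_mul t).symm)))
    subst h4
    rw [h.x_zero, one_mul] at H ⊢
    exact ih u' hu' H

theorem reg_main {g : GL I F} (hg : g ∈ GH d)
    (H : ∀ r, ∃ χ, χ (d.rt r) ≠ 1 ∧ g⁻¹ * d.D χ * g ∈ d.T) : ∃ t ∈ d.T, ∃ L, g = t * d.nw L := by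
  obtain ⟨L, u, hu, t, ht, v, hv, e, H'⟩ := fuse h hg
  have h1 : ∀ r, ∃ χ, χ (d.rt r) ≠ 1 ∧ d.D χ * u = u * d.D χ ∧ d.D χ * v = v * d.D χ := by
    intro r
    obtain ⟨χ, h1, h2⟩ := H r
    have e1 : g * (g⁻¹ * d.D χ * g) * g⁻¹ = d.D χ := by group
    have := H' _ h2 (by rw [e1]; exact D_mem χ)
    rw [e1] at this
    exact ⟨χ, h1, this.2⟩
  have h2 := eq_one_of_reg h _ (up_pos _) u hu fun r => (h1 r).imp fun χ h => ⟨h.1, h.2.1⟩
  have h3 := eq_one_of_reg h _ (up_pos _) v hv fun r => (h1 r).imp fun χ h => ⟨h.1, h.2.2⟩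
  exact ⟨t, ht, L, by rw [e, h2, h3, one_mul, mul_one]⟩

lemma conj_x {t : GL I F} (ht : t ∈ d.T) (L : List (Fin l)) (r : Φ) {c : F} (hc : c ≠ 0) :
    ∃ c' : F, c' ≠ 0 ∧ t * d.nw L * d.x r c * (t * d.nw L)⁻¹ = d.x (d.ww L r) c' := by
  obtain ⟨χ, rfl⟩ := ht
  obtain ⟨ε, hε, H⟩ := h.nw_conj L r
  refine ⟨χ (d.rt (d.ww L r)) * (ε * c), mul_ne_zero (Units.ne_zero _) (mul_ne_zero ?_ hc), ?_⟩
  · rcases hε with rfl | rfl <;> simp
  · rw [mul_inv_eq_iff_eq_mul, mul_assoc, (H c).1, ← mul_assoc, h.D_x, mul_assoc]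

end Cfsg.Agent.H7.Alt
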