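import Cfsg.Agent.H7.Iwa

/-!
Local balance for orthogonal groups: field and graph-field automorphisms.
-/

set_option autoImplicit false

namespace Cfsg.Agent.H7

open QuadraticMap Module Subgroup

variable {F₀ F V₀ V : Type*} [Field F₀] [Field F] [AddCommGroup V₀] [Module F₀ V₀]
  [AddCommGroup V] [Module F V] {Q : QuadraticForm F V}

variable (Q) in
/-- the inclusion of `Ω` in the similarity group -/
def omGO : Om Q →* GO Q := ((SS.ofO Q).comp (Om Q).subtype).codRestrict _ fun _ => ofO_mem_GO _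

instance instNormalOmGO : (omGO Q).range.Normal := ⟨by
  rintro _ ⟨s, rfl⟩ g
  exact ⟨actOm Q g s, Subtype.ext (SS.ofO_actO g.1 s.1)⟩⟩

lemma SS.pow_c_of_GO {g : SS Q} (hg : g ∈ GO Q) (k : ℕ) : (g ^ k).c = g.c ^ k := by
  induction k with
  | zero => simp
  | succ k ih => rw [pow_succ', SS.mul_c_of_GO hg, ih, pow_succ']

lemma exists_omGO_pow [FiniteDimensional F V] [Finite F] (hQ : ND Q) (hE : NonExc Q) (y : GO Q) :
    ∃ s, omGO Q s = y ^ ((Nat.card F - 1) * 2) := by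
  obtain ⟨h, hh⟩ : y.1 ^ (Nat.card F - 1) ∈ OO Q := mem_OO.2 ⟨pow_mem y.2 _, by
    rw [SS.pow_c_of_GO y.2, ← Nat.card_units, pow_card_eq_one']⟩
  refine ⟨⟨h * h, (mem_commutator_iff hQ hE _).2 ⟨(even_rk_mul hQ hE _ _).2 Iff.rfl, by
    rw [theta_mul hQ hE, theta_mul_self hQ hE]⟩⟩, Subtype.ext ?_⟩
  change SS.ofO Q (h * h) = _
  rw [map_mul, hh, pow_mul, pow_two]; rfl

lemma exists_Om_elt [FiniteDimensional F V] [Finite F] (hQ : ND Q) (h5 : 5 ≤ finrank F V) {p : ℕ}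
    (hp : p.Prime) (hd : p ∣ Nat.card F - 1) :
    ∃ s : Om Q, s ^ p = 1 ∧ SS.ofO Q s.1 ∉ ZS Q := by
  have : Fact p.Prime := ⟨hp⟩
  obtain ⟨μ, hμ⟩ := exists_prime_orderOf_dvd_card' (G := Fˣ) p (by rwa [Nat.card_units])
  obtain ⟨e, f, h⟩ := exists_hypSys_of_le hQ (m := 2) h5
  refine ⟨⟨h.ext (levi (diagGL ![μ, μ⁻¹])), (h.levi_mem_iff hQ (nonExc_of_finrank hQ (by omega)) _).2
    ⟨1, by simp [diagGL]⟩⟩, Subtype.ext ?_, ?_⟩
  · have : (![μ, μ⁻¹] : Fin 2 → Fˣ) ^ p = 1 := by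
      ext i; fin_cases i <;> simp [← hμ, ← Units.val_pow_eq_pow_val]
    rw [coe_pow, ← map_pow, ← map_pow, ← map_pow, this, map_one, map_one, map_one, coe_one]
  · rintro ⟨l, hl⟩
    have h1 := h.finrank_eq
    have : Nontrivial (hperp Q e f) := Module.nontrivial_of_finrank_pos (R := F) (by simp at h1; omega)
    obtain ⟨x, hx⟩ := exists_ne (0 : hperp Q e f)
    have h2 := congrArg (·.γ x) hl
    have h3 := congrArg (·.γ (e 0)) hl
    simp only [SS.sc_apply, SS.ofO_apply, h.ext_of_mem _ x.2, h.levi_e] at h2 h3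
    have h4 : (l : F) = 1 := smul_left_injective F (m := x.1) (by simpa using hx) (by simpa using h2)
    have h6 : (μ : F) = 1 := smul_left_injective F (h.linearIndependent_e.ne_zero 0)
      (by simpa [h4] using h3.symm)
    exact hp.one_lt.ne' (by rw [← hμ, show μ = 1 from Units.ext h6, orderOf_one])

lemma exists_ne_smul_of_notMem [Nontrivial V] (hQ : ND Q) {s : OG Q} (h : SS.ofO Q s ∉ ZS Q)
    (c : F) : ∃ v, s.1 v ≠ c • v := by
  by_contra h1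
  push Not at h1
  obtain ⟨v, hv⟩ := exists_ne (0 : V)
  have hc : c ≠ 0 := by rintro rfl; exact hv (by simpa using h1 v)
  exact h ⟨Units.mk0 c hc, SS.ext_of_apply hQ fun x => (h1 x).symm⟩

variable {γ : SS Q} {e : F₀ →+* F} {Q₀ : QuadraticForm F₀ V₀} {j : V₀ →+ V} {l : F}
  [FiniteDimensional F₀ V₀]

lemma Ext.EO_siegel (X : Ext e Q₀ Q j l) {p w : V₀} (hp : Q₀ p = 0) (hw : polar Q₀ p w = 0) :
    X.EO (siegel p w hp hw) = siegel (l⁻¹ • j p) (j w) (by simp [Q_smul, X.map_Q, hp])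
      (by simp [X.map_B, hw]) := by
  refine Subtype.ext (LinearEquiv.toLinearMap_injective (X.lin_ext fun v => ?_))
  change (X.EO _).1 (j v) = (siegel _ _ _ _).1 (j v)
  have := X.l_ne
  simp only [X.EO_j, siegel_apply, map_sub, map_add, X.smul, X.map_B, X.map_Q, B_smul_right,
    smul_smul, map_mul]
  have h1 : ∀ x : F, l * x * l⁻¹ = x := fun x => by field_simp
  have h2 : ∀ x : F, l⁻¹ * (l * x) = x := fun x => by field_simp
  rw [h1, h2, mul_assoc l, h1]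

variable [FiniteDimensional F V] [Finite F] {A : Type*} [Group A] {a : SS Q →* A}
  (ha : a.ker = ZS Q) (hQ : ND Q) (h5 : 5 ≤ finrank F V)
include ha hQ h5

lemma Fx.pow_eq_one_of_comm (h : Fx γ e Q₀ j l) {g : SS Q}
    (hg : ∀ s : Om Q₀, a g * a (SS.ofO Q (h.X.EO s.1)) = a (SS.ofO Q (h.X.EO s.1)) * a g) :
    a g ^ orderOf γ.σ = 1 := by
  have := finite_of_he h.he
  obtain ⟨r, hr⟩ := CharP.exists F
  have : Fact r.Prime := ⟨CharP.char_is_prime F r⟩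
  have : Nontrivial V := Module.nontrivial_of_finrank_pos (R := F) (by omega)
  have h0 := h.X.rank
  have hQ₀ := h.X.nd hQ
  obtain ⟨β, h1, h2⟩ := h.X.emb.scal hQ₀ (by omega) g fun u hu =>
    h.X.emb.fix_pt hQ hQ₀ (by omega) g (inv_ne_zero h.X.l_ne) hu fun w hw _ _ =>
      actO_eq_of_comm ha (siegel_pow_char r _ _) (by
        have := hg ⟨_, siegel_mem_Om hQ₀ (by omega) hu hw⟩
        rwa [h.X.EO_siegel] at this)
  have h3 : a g = a (SS.sc Q β⁻¹ * g) := by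
    rw [map_mul, show a (SS.sc Q β⁻¹) = 1 from ha.ge ⟨_, rfl⟩, one_mul]
  rw [h3, ← map_pow, h.ss_ext hQ (by omega) (g := (SS.sc Q β⁻¹ * g) ^ _) (g' := 1), map_one]
  · rw [SS.pow_σ, SS.one_σ, ← orderOf_dvd_iff_pow_eq_one]
    refine H6.orderOf_dvd_of_fix fun x hx => ?_
    obtain ⟨y, rfl⟩ := (h.he x).1 hx
    simpa using h2 y
  · intro v
    rw [SS.pow_apply, SS.one_apply]
    exact Function.iterate_fixed (by rw [SS.mul_apply, h1, SS.sc_apply, smul_smul]; simp) _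

omit [Finite F] in
lemma Fx.mem_inf (h : Fx γ e Q₀ j l) (s : Om Q₀) :
    a (h.X.E (omGO Q₀ s)) ∈ (KS Q).map a ⊓ centralizer {a γ} :=
  ⟨⟨_, h.X.E_mem_KS (ofO_mem_KS s.2), rfl⟩,
    mem_centralizer_singleton_iff.2 ((h.E_comm _).map a)⟩

omit [Finite F] in
lemma Fx.E_eq_one_iff (h : Fx γ e Q₀ j l) (s : Om Q₀) :
    a (h.X.E (omGO Q₀ s)) = 1 ↔ SS.ofO Q₀ s.1 ∈ ZS Q₀ := by
  have h0 := h.X.rank
  have : Nontrivial V₀ := Module.nontrivial_of_finrank_pos (R := F₀) (by omega)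
  rw [← MonoidHom.mem_ker, ha, h.X.E_mem_ZS_iff (h.X.nd hQ)]; rfl

theorem Fx.coprime_of_unbal [Finite A] (h : Fx γ e Q₀ j l) (r : ℕ) [Fact r.Prime] [CharP F r]
    {p : ℕ} [Fact p.Prime] (hpr : p ≠ r) (hσ : orderOf γ.σ = p) [((KS Q).map a).Normal]
    (haut : ∀ n : A, (∀ s : Om Q₀, n * a (SS.ofO Q (h.X.EO s.1)) = a (SS.ofO Q (h.X.EO s.1)) * n) →
      n ∈ a.range) (hU : H6.Unbal p ((KS Q).map a) (a γ)) :
    (Nat.card ↥((KS Q).map a ⊓ centralizer {a γ})).Coprime p := by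
  have := finite_of_he h.he
  have h0 := h.X.rank
  have : Nontrivial V₀ := Module.nontrivial_of_finrank_pos (R := F₀) (by omega)
  have hQ₀ := h.X.nd hQ
  have : CharP F₀ r := (RingHom.charP_iff_charP e r).2 ‹_›
  have hp : p.Prime := Fact.out
  have hE : ∀ s : Om Q₀, h.X.E (omGO Q₀ s) = SS.ofO Q (h.X.EO s.1) := fun s => h.X.E_ofO s.1
  refine hU.coprime (a.comp h.X.E) (omGO Q₀) (h.mem_inf ha hQ h5) ?_ (fun n hn hc => ?_) ⊤ (k := r)
    (e := (Nat.card F₀ - 1) * 2) ((Nat.coprime_primes Fact.out hp).2 hpr.symm)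
    (fun M hM ⟨m, hm, h1⟩ s _ => iwasawa hQ₀ (by omega) r hm (exists_ne_smul_of_notMem hQ₀
      fun h2 => h1 ((h.E_eq_one_iff ha hQ h5 m).2 h2)) s)
    (fun y => ?_) fun hd => ?_
  · rintro _ ⟨⟨d, hd, rfl⟩, h1⟩
    obtain ⟨g, μ, rfl⟩ := h.exists_E' (KS_le_GO hd) (by
      rw [← ha, MonoidHom.mem_ker]; simp [mem_centralizer_singleton_iff.1 h1])
    exact ⟨g, by rw [map_mul, show a (SS.sc Q μ) = 1 from ha.ge ⟨_, rfl⟩, one_mul]; rfl⟩
  · simp only [MonoidHom.comp_apply, hE] at hc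
    obtain ⟨g, rfl⟩ := haut n hc
    exact H6.eq_one_of_pow_of_coprime hn (pow_orderOf_eq_one _)
      (hσ ▸ h.pow_eq_one_of_comm ha hQ h5 hc)
  · obtain ⟨s, hs⟩ := exists_omGO_pow hQ₀ (nonExc_of_finrank hQ₀ (by omega)) y
    exact ⟨s, trivial, hs⟩
  · obtain ⟨s, h1, h2⟩ := exists_Om_elt hQ₀ (by omega) hp (((Nat.Prime.dvd_mul hp).1 hd).elim id
      fun h1 => by
        obtain rfl := (Nat.prime_dvd_prime_iff_eq hp Nat.prime_two).1 h1
        have := Fintype.ofFinite F₀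
        have := FiniteField.odd_card_of_char_ne_two (F := F₀) (by rw [ringChar.eq F₀ r]; exact hpr.symm)
        rw [Nat.card_eq_fintype_card]; omega)
    exact ⟨s, trivial, mt (h.E_eq_one_iff ha hQ h5 s).1 h2, by rw [pow_two, pow_mul, h1, one_pow]⟩

theorem Fx.inf_ne_bot (h : Fx γ e Q₀ j l) : (KS Q).map a ⊓ centralizer {a γ} ≠ ⊥ := by
  intro h1
  have := finite_of_he h.he
  have h0 := h.X.rank
  have hQ₀ := h.X.nd hQ
  obtain ⟨u, hu0, hu⟩ := exists_sing_of_three_le Q₀ (by omega)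
  obtain ⟨w, h2, h3, h4⟩ := exists_sing_nbr hQ₀ (by omega) hu0 hu
  obtain ⟨c, hc⟩ := (h.E_eq_one_iff ha hQ h5 ⟨_, siegel_mem_Om hQ₀ (by omega) hu h3⟩).1
    ((eq_bot_iff_forall _).1 h1 _ (h.mem_inf ha hQ h5 _))
  have h6 := congrArg (·.γ u) hc
  simp only [SS.sc_apply, SS.ofO_apply, siegel_self] at h6
  obtain rfl : c = 1 := Units.ext (smul_left_injective F₀ hu0 (h6.trans (one_smul _ _).symm))
  rw [map_one, eq_comm, map_eq_one_iff _ SS.ofO_injective] at hc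
  exact LR.ne_one hQ₀ ⟨u, w, hu, h3, h2, hu0, h4, rfl⟩ hc

end Cfsg.Agent.H7
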