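import Cfsg.Agent.H7.Graph

/-!
Local balance for orthogonal groups: graph involutions.
-/

set_option autoImplicit false

namespace Cfsg.Agent.H7

open QuadraticMap Module Subgroup QuadraticAlgebra

variable {F V : Type*} [Field F] [AddCommGroup V] [Module F V] {Q : QuadraticForm F V}

/-- extension by the identity on the orthogonal complement -/
noncomputable def extU {U : Submodule F V} (hU : IsCompl U (perp Q U)) :
    OG (Q.restrict U) →* OG Q :=
  (OG.congr (Submodule.prodEquivOfIsCompl U _ hU) (Q_prodEquivOfIsCompl hU)).toMonoidHom.comp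
    ((sumHom (Q.restrict U) (Q.restrict (perp Q U))).comp (MonoidHom.inl _ _))

lemma extU_add {U : Submodule F V} (hU : IsCompl U (perp Q U)) (s : OG (Q.restrict U)) (u : U)
    (y : perp Q U) : (extU hU s).1 (u + y) = s.1 u + y := by
  change Submodule.prodEquivOfIsCompl U _ hU ((sumHom _ _ (s, 1)).1
    ((Submodule.prodEquivOfIsCompl U _ hU).symm (Submodule.prodEquivOfIsCompl U _ hU (u, y)))) = _
  rw [LinearEquiv.symm_apply_apply]; rfl

lemma exists_add_of_isCompl {U W : Submodule F V} (h : IsCompl U W) (x : V) :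
    ∃ (u : U) (w : W), x = u + w := by
  obtain ⟨u, hu, w, hw, rfl⟩ := Submodule.mem_sup.1 (h.sup_eq_top ▸ Submodule.mem_top (x := x))
  exact ⟨⟨u, hu⟩, ⟨w, hw⟩, rfl⟩

lemma extU_siegel {U : Submodule F V} (hU : IsCompl U (perp Q U)) {p w : U}
    (hp : Q.restrict U p = 0) (hw : polar (Q.restrict U) p w = 0) :
    extU hU (siegel p w hp hw) =
      siegel (Q := Q) p.1 w.1 (show Q p.1 = 0 from hp) ((polar_restrict U p w).symm.trans hw) :=
  OG.ext' fun x => by
    obtain ⟨u, y, rfl⟩ := exists_add_of_isCompl hU x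
    have h1 : ∀ v : U, polar Q y v = 0 := fun v => (B_comm _ _ _).trans (mem_perp.1 y.2 _ v.2)
    rw [extU_add, siegel_apply, siegel_apply]
    simp only [polar_restrict, polar_add_left, h1, add_zero, Submodule.coe_sub, Submodule.coe_add,
      Submodule.coe_smul]
    change _ - (Q w * _) • _ + _ = _
    abel

/-- restriction to an invariant subspace -/
def resU (G : Subgroup (OG Q)) (U : Submodule F V) (h : ∀ s ∈ G, ∀ u ∈ U, s.1 u ∈ U) :
    G →* OG (Q.restrict U) where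
  toFun s := ⟨
    { toFun := fun u => ⟨s.1.1 u, h _ s.2 _ u.2⟩
      invFun := fun u => ⟨s.1⁻¹.1 u, h _ (inv_mem s.2) _ u.2⟩
      map_add' := fun _ _ => Subtype.ext (map_add _ _ _)
      map_smul' := fun _ _ => Subtype.ext (map_smul _ _ _)
      left_inv := fun _ => Subtype.ext (OG.inv_apply_apply _ _)
      right_inv := fun _ => Subtype.ext (OG.apply_inv_apply _ _) }, fun v => s.1.2 v⟩
  map_one' := rfl
  map_mul' _ _ := rfl

lemma exists_swap' {G : Type*} [Group G] {ρ : G →* OG Q} {r : ℕ} (hr : Odd r)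
    (hρ : ∀ p w hp hw, ∃ u, ρ u = siegel p w hp hw ∧ u ^ r = 1) {M : Subgroup G} [hM : M.Normal]
    {m : G} (hm : m ∈ M) {p : V} (hp : Q p = 0) (h : polar Q ((ρ m).1 p) p ≠ 0) :
    ∃ w ∈ M, ∀ k : ℕ, Odd k → ∀ c : F, ((ρ w) ^ k).1 p ≠ c • p := by
  obtain ⟨w, hw, a, ha, h3⟩ := exists_siegel_par (p := (ρ m).1 p) (x := (ρ m).1 ((ρ m).1 p))
    (y := p) (by simp [hp]) (by simp [hp]) hp (by simpa using h) (by rwa [B_comm])
  obtain ⟨u, hu, hu'⟩ := hρ _ _ _ hw
  have h1 : (ρ (u * m)).1 p = (ρ m).1 p := by rw [map_mul, OG.mul_apply, hu, siegel_self]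
  have h2 : (ρ (u * m)).1 ((ρ m).1 p) = a • p := by rw [map_mul, OG.mul_apply, hu, h3]
  have h4 : ∀ k : ℕ, (ρ (u * m) ^ (2 * k + 1)).1 p = a ^ k • (ρ m).1 p := fun k => by
    induction k with
    | zero => simpa using h1
    | succ k ih =>
      rw [show 2 * (k + 1) + 1 = (2 * k + 1) + 1 + 1 by ring, pow_succ', pow_succ', OG.mul_apply,
        OG.mul_apply, ih, map_smul, h2, map_smul, map_smul, h1, smul_smul, pow_succ]
  refine ⟨(u * m) ^ r, ?_, fun k hk c hc => ?_⟩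
  · rw [← QuotientGroup.eq_one_iff, QuotientGroup.mk_pow, QuotientGroup.mk_mul,
      (QuotientGroup.eq_one_iff m).2 hm, mul_one, ← QuotientGroup.mk_pow, hu', QuotientGroup.mk_one]
  · obtain ⟨l, hl⟩ := hr.mul hk
    rw [map_pow, ← pow_mul, hl, h4] at hc
    have := congrArg (polar Q · p) hc
    simp [B_self, hp, ha, h] at this

lemma exists_smul_of_finrank_one {U : Submodule F V} (h : finrank F U = 1) (f : V →ₗ[F] V)
    (hf : ∀ u ∈ U, f u ∈ U) : ∃ c : F, ∀ u ∈ U, f u = c • u := by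
  obtain ⟨v, -, hv⟩ := finrank_eq_one_iff'.1 h
  obtain ⟨c, hc⟩ := hv ⟨f v, hf _ v.2⟩
  refine ⟨c, fun u hu => ?_⟩
  obtain ⟨a, ha⟩ := hv ⟨u, hu⟩
  have h1 : u = a • v.1 := (congrArg Subtype.val ha).symm
  have h2 : f v = c • v.1 := (congrArg Subtype.val hc).symm
  rw [h1, map_smul, h2, smul_comm]

variable [FiniteDimensional F V] [Finite F]

lemma mem_span_of_fixed (hQ : ND Q) (h : 5 ≤ finrank F V) {u y : V} (hu0 : u ≠ 0) (hu : Q u = 0)
    (key : ∀ w hw, (siegel u w hu hw).1 y = y) : y ∈ F ∙ u := by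
  have h1 : polar Q y u = 0 := by
    by_contra h0
    obtain ⟨w, hw, h2, h3⟩ := exists_sing_nbr hQ h hu0 hu
    have := key w h2
    rw [siegel_apply, hw] at this
    apply h3
    refine Submodule.mem_span_singleton.2 ⟨polar Q y w / polar Q y u, ?_⟩
    apply smul_right_injective V h0
    simp only [smul_smul]
    rw [mul_div_cancel₀ _ h0]
    linear_combination (norm := module) this
  have h2 : ∀ w, polar Q u w = 0 → polar Q y w = 0 := fun w hw => by
    have := key w hw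
    rw [siegel_apply, h1] at this
    have h3 : polar Q y w • u = 0 := by linear_combination (norm := module) this
    exact (smul_eq_zero.1 h3).resolve_right hu0
  rw [← perp_perp hQ (F ∙ u), mem_perp]
  intro w hw
  rw [B_comm]
  exact h2 w (mem_perp.1 hw u (Submodule.mem_span_singleton_self u))

lemma odd_char (h2 : (2 : F) ≠ 0) (r : ℕ) [Fact r.Prime] [CharP F r] : Odd r :=
  (Fact.out : r.Prime).odd_of_ne_two fun h => h2 (by have := CharP.cast_eq_zero F r; rwa [h] at this)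

lemma scalar_on_of_odd (h2 : (2 : F) ≠ 0) {U : Submodule F V} (hU : IsCompl U (perp Q U))
    (ho : Odd (finrank F U)) {K : Subgroup (OG Q)} (hK : ∀ s ∈ K, ∀ u ∈ U, s.1 u ∈ U)
    (hs : ∀ p ∈ U, ∀ w ∈ U, ∀ hp hw, siegel p w hp hw ∈ K) {M : Subgroup K} [M.Normal]
    (hM : ∀ m ∈ M, ∃ k, Odd k ∧ SS.ofO Q (m.1 ^ k) ∈ ZS Q) {m : K} (hm : m ∈ M) :
    ∃ c : F, ∀ u ∈ U, m.1.1 u = c • u := by
  by_cases h1 : finrank F U = 1
  · exact exists_smul_of_finrank_one h1 m.1.1.toLinearMap (hK _ m.2)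
  obtain ⟨r, hr⟩ := CharP.exists F
  have : Fact r.Prime := ⟨CharP.char_is_prime F r⟩
  have hρ : ∀ p w hp hw, ∃ u, resU K U hK u = siegel p w hp hw ∧ u ^ r = 1 := fun p w hp hw =>
    ⟨⟨_, hs _ p.2 _ w.2 hp ((polar_restrict U p w).symm.trans hw)⟩, OG.ext' fun x => Subtype.ext (by
      rw [siegel_apply]
      simp only [polar_restrict, Submodule.coe_sub, Submodule.coe_add, Submodule.coe_smul]
      exact siegel_apply (Q := Q) (p := p.1) hp ((polar_restrict U p w).symm.trans hw) x.1),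
      Subtype.ext (siegel_pow_char (Q := Q) (p := p.1) r hp ((polar_restrict U p w).symm.trans hw))⟩
  by_contra h
  push Not at h
  obtain ⟨j, hj⟩ := ho
  obtain ⟨n, hn, p, hp, h3⟩ := exists_nonperp (nd_restrict_iff.2 hU.inf_eq_bot)
    (fun p w hp hw => (hρ p w hp hw).imp fun _ => And.left) (by omega) (by omega) hm fun c => by
      obtain ⟨u, hu, h3⟩ := h c
      exact ⟨⟨u, hu⟩, fun h4 => h3 (congrArg Subtype.val h4)⟩
  obtain ⟨w, hw, h4⟩ := exists_swap' (odd_char h2 r) hρ hn hp h3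
  obtain ⟨k, hk, l, hl⟩ := hM w hw
  refine h4 k hk l (Subtype.ext ?_)
  rw [← map_pow]
  exact (congrArg (·.γ p.1) hl).symm

lemma sq_mem_ZS (hQ : ND Q) {U : Submodule F V} (hU : IsCompl U (perp Q U)) {g : SS Q}
    (hg : g ∈ GO Q) {b c : F} (h1 : ∀ u ∈ U, g.γ u = b • u) (h2 : ∀ u ∈ perp Q U, g.γ u = c • u) :
    g * g ∈ ZS Q := by
  have key : ∀ W : Submodule F V, W ⊓ perp Q W = ⊥ → ∀ b : F, (∀ u ∈ W, g.γ u = b • u) →
      ∀ u ∈ W, g.γ (g.γ u) = (g.c : F) • u := fun W hW b h u hu => by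
    refine sub_eq_zero.1 ((Submodule.eq_bot_iff _).1 hW _ ⟨?_, mem_perp.2 fun y hy => ?_⟩)
    · rw [h u hu, h _ (W.smul_mem _ hu)]
      exact sub_mem (W.smul_mem _ (W.smul_mem _ hu)) (W.smul_mem _ hu)
    · have := SS.map_B' hg y u
      rw [h y hy, h u hu] at this
      rw [h u hu, h _ (W.smul_mem _ hu), polar_sub_right, B_smul_right _ (g.c : F), ← this]
      simp
  refine ⟨g.c, SS.ext ?_ ?_ (AddEquiv.ext fun x => ?_)⟩
  · rw [SS.mul_σ, mem_GO.1 hg]; rfl
  · rw [SS.mul_c_of_GO hg, SS.sc_c, pow_two]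
  · obtain ⟨u, y, rfl⟩ := exists_add_of_isCompl hU x
    rw [SS.mul_apply, map_add g.γ, map_add g.γ, key U hU.inf_eq_bot b h1 u u.2,
      key _ (perp_nd hQ hU.inf_eq_bot) c h2 y y.2, SS.sc_apply, smul_add]

lemma scal_on (hQ : ND Q) {U : Submodule F V} (hU : U ⊓ perp Q U = ⊥) (h3 : 3 ≤ finrank F U)
    {g : SS Q} (h : ∀ p ∈ U, ∀ w ∈ U, ∀ hp hw, SS.actO Q g (siegel p w hp hw) = siegel p w hp hw) :
    g ∈ GO Q ∧ ∃ b : Fˣ, ∀ u ∈ U, g.γ u = (b : F) • u := by
  have h1 := nd_restrict_iff.2 hU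
  obtain ⟨b, h4, h5⟩ := (emb_subtype U).scal h1 h3 g fun u hu =>
    (emb_subtype U).fix_pt hQ h1 h3 g one_ne_zero hu fun w _ _ _ =>
      h _ (U.smul_mem _ u.2) _ w.2 _ _
  exact ⟨RingEquiv.ext h5, b, fun u hu => h4 ⟨u, hu⟩⟩

lemma sq_mem_ZS_of_comm (hQ : ND Q) {U : Submodule F V} (hU : IsCompl U (perp Q U))
    (h3 : 3 ≤ finrank F U) (ho : Odd (finrank F (perp Q U))) {g : SS Q}
    (h : ∀ p ∈ U, ∀ w ∈ U, ∀ hp hw, SS.actO Q g (siegel p w hp hw) = siegel p w hp hw)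
    (h' : ∀ p ∈ perp Q U, ∀ w ∈ perp Q U, ∀ hp hw,
      SS.actO Q g (siegel p w hp hw) = siegel p w hp hw) : g * g ∈ ZS Q := by
  obtain ⟨hg, b, h1⟩ := scal_on hQ hU.inf_eq_bot h3 h
  by_cases h4 : finrank F (perp Q U) = 1
  · obtain ⟨c, hc⟩ := exists_smul_of_finrank_one h4 (g.lin hg).toLinearMap fun y hy =>
      mem_perp.2 fun u hu => by
        have := SS.map_B' hg u y
        rw [h1 u hu, mem_perp.1 hy u hu, B_smul_left, mul_zero] at this
        exact (mul_eq_zero.1 this).resolve_left b.ne_zero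
    exact sq_mem_ZS hQ hU hg h1 hc
  · obtain ⟨j, hj⟩ := ho
    obtain ⟨-, c, hc⟩ := scal_on hQ (perp_nd hQ hU.inf_eq_bot) (by omega) h'
    exact sq_mem_ZS hQ hU hg h1 hc

omit [Finite F] in
lemma siegel_mem_comm (h2 : (2 : F) ≠ 0) (hQ : ND Q) {h : OG Q} (hh : h * h = 1) {p w : V}
    (hp : p ∈ fixS h) (hw : w ∈ fixS h) (h1 : Q p = 0) (h3 : polar Q p w = 0) :
    siegel p w h1 h3 ∈ ⁅centralizer {h}, centralizer {h}⁆ := by
  have hU := isCompl_fixS h2 hh hQ
  have h4 := nd_restrict_iff.2 hU.inf_eq_bot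
  have h5 : (extU hU).range ≤ centralizer {h} := by
    rintro _ ⟨s, rfl⟩
    refine mem_centralizer_singleton_iff.2 (OG.ext' fun x => ?_)
    obtain ⟨u, y, rfl⟩ := exists_add_of_isCompl hU x
    have h6 : h.1 y = -y := (mem_movS_iff h2 hh).1 (perp_fixS hQ h ▸ y.2)
    rw [OG.mul_apply, OG.mul_apply, extU_add, map_add h.1, map_add h.1, mem_fixS.1 u.2,
      mem_fixS.1 (s.1 u).2, h6]
    exact extU_add hU s u (-y)
  have := mem_map_of_mem (extU hU) (siegel_mem_commutator h4 (nonExc_of_two h4 h2)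
    (p := ⟨p, hp⟩) (w := ⟨w, hw⟩) h1 ((polar_restrict _ _ _).trans h3))
  rw [_root_.commutator_def, map_commutator, ← MonoidHom.range_eq_map] at this
  exact extU_siegel hU (p := ⟨p, hp⟩) (w := ⟨w, hw⟩) h1 ((polar_restrict _ _ _).trans h3) ▸
    commutator_mono h5 h5 this

omit [FiniteDimensional F V] [Finite F] in
lemma cent_neg (h : OG Q) : centralizer {h * negOne Q} = centralizer {h} := by
  ext s
  simp only [mem_centralizer_singleton_iff]
  exact ⟨fun h1 => OG.ext' fun x => by simpa using congrArg (·.1 x) h1,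
    fun h1 => OG.ext' fun x => by simpa using congrArg (·.1 x) h1⟩

variable {A : Type*} [Group A] [Finite A] {a : SS Q →* A} (ha : a.ker = ZS Q)
  [((KS Q).map a).Normal] (h2 : (2 : F) ≠ 0) (hQ : ND Q)
include ha h2 hQ

theorem not_unbal_A (h8 : 8 ≤ finrank F V) (hev : Even (finrank F V)) {h : OG Q} (hh : h * h = 1)
    (ho : ¬ Even (rk h))
    (haut : ∀ (n : A) (s t : OG Q), LR s → LR t → Meet s t → ¬ Prp s t →
      Commute n (a (SS.ofO Q s)) → Commute n (a (SS.ofO Q t)) → n ∈ a.range) :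
    ¬ H6.Unbal 2 ((KS Q).map a) (a (SS.ofO Q h)) := by
  intro hU
  have : Nontrivial V := Module.nontrivial_of_finrank_pos (R := F) (by omega)
  obtain ⟨r, hr⟩ := CharP.exists F
  have : Fact r.Prime := ⟨CharP.char_is_prime F r⟩
  set K := ⁅centralizer {h}, centralizer {h}⁆ with hK
  have hKC : K ≤ centralizer {h} := commutator_le_self _
  have h1 := rk_add_fix h
  have hU1 := isCompl_fixS h2 hh hQ
  have hU2 := isCompl_fixS h2 (neg_mul_self hh) hQ
  have e1 : fixS (h * negOne Q) = perp Q (fixS h) := (fixS_neg h2 hh).trans (perp_fixS hQ h).symm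
  have o2 : Odd (finrank F (perp Q (fixS h))) := by
    rw [perp_fixS hQ]; exact Nat.not_even_iff_odd.1 ho
  have o1 : Odd (finrank F (fixS h)) := by
    rw [← h1, Nat.even_add] at hev
    exact Nat.not_even_iff_odd.1 (mt hev.2 ho)
  have s1 : ∀ p ∈ fixS h, ∀ w ∈ fixS h, ∀ hp hw, siegel p w hp hw ∈ K := fun p hp w hw =>
    siegel_mem_comm h2 hQ hh hp hw
  have s2 : ∀ p ∈ perp Q (fixS h), ∀ w ∈ perp Q (fixS h), ∀ hp hw, siegel p w hp hw ∈ K :=
    fun p hp w hw a b => by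
      have := siegel_mem_comm h2 hQ (neg_mul_self hh) (e1 ▸ hp) (e1 ▸ hw) a b
      rwa [cent_neg] at this
  rw [e1] at hU2
  refine (hU.exists_normal (a.comp ((SS.ofO Q).comp K.subtype))
    (fun s => ⟨⟨_, ofO_mem_KS (commutator_mono le_top le_top s.2), rfl⟩,
      mem_centralizer_singleton_iff.2 (by
        simp only [MonoidHom.comp_apply, ← map_mul, coe_subtype,
          mem_centralizer_singleton_iff.1 (hKC s.2)])⟩) ?_ ?_).elim ?_
  rotate_right
  · rintro M ⟨hM, ⟨m, hm, h3⟩, h4⟩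
    have h5 : ∀ m ∈ M, ∃ k, Odd k ∧ SS.ofO Q (m.1 ^ k) ∈ ZS Q := fun m hm =>
      ⟨_, Nat.coprime_two_right.1 (h4 m hm), ha.le (by
        rw [MonoidHom.mem_ker, map_pow, map_pow]; exact pow_orderOf_eq_one _)⟩
    have h6 : ∀ s ∈ K, ∀ x, s.1 (h.1 x) = h.1 (s.1 x) := fun s hs x =>
      congrArg (·.1 x) (mem_centralizer_singleton_iff.1 (hKC hs))
    obtain ⟨b, hb⟩ := scalar_on_of_odd h2 hU1 o1 (fun s hs u hu => by
      rw [mem_fixS, ← h6 s hs, mem_fixS.1 hu]) s1 h5 hm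
    obtain ⟨c, hc⟩ := scalar_on_of_odd h2 hU2 o2 (fun s hs u hu => by
      rw [perp_fixS hQ, mem_movS_iff h2 hh] at hu ⊢
      rw [← h6 s hs, hu, map_neg]) s2 h5 hm
    refine h3 (H6.eq_one_of_pow_of_coprime (h4 m hm) (pow_orderOf_eq_one _) ?_)
    rw [pow_two, MonoidHom.comp_apply, ← map_mul]
    exact ha.ge (sq_mem_ZS hQ hU1 (ofO_mem_GO _) hb hc)
  · rintro _ ⟨⟨d, hd, rfl⟩, h3⟩ s
    obtain ⟨l, hl, h4⟩ := comm_sign ha (ofO_mem_GO h) (KS_le_GO hd) (ν := 1)
      (fun x => (invol_apply hh x).trans (one_smul _ _).symm) (mem_centralizer_singleton_iff.1 h3)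
    have h5 : (centralizer {h}).map (SS.actO Q d).toMonoidHom ≤ centralizer {h} := by
      rintro _ ⟨t, ht, rfl⟩
      refine mem_centralizer_singleton_iff.2 (OG.ext' fun x => ?_)
      obtain ⟨x, rfl⟩ := d.γ.surjective x
      have h6 : ∀ x, h.1 (d.γ x) = l • d.γ (h.1 x) := fun x => by
        have := h4 x
        rw [SS.ofO_apply, SS.ofO_apply] at this
        rcases hl with rfl | rfl <;> simp [this]
      change (SS.actO Q d t).1 (h.1 (d.γ x)) = h.1 ((SS.actO Q d t).1 (d.γ x))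
      rw [h6, map_smul, SS.actO_apply', SS.actO_apply', h6]
      exact congrArg (fun y : OG Q => l • d.γ (y.1 x)) (mem_centralizer_singleton_iff.1 ht)
    have h7 := (map_commutator _ _ _).le (mem_map_of_mem (SS.actO Q d).toMonoidHom s.2)
    refine ⟨⟨SS.actO Q d s, commutator_mono h5 h5 h7⟩, ?_⟩
    simp [SS.ofO_actO]
  · intro n hn hc
    have key : ∀ U : Submodule F V, U ⊓ perp Q U = ⊥ → 5 ≤ finrank F U →
        (∀ p ∈ U, ∀ w ∈ U, ∀ hp hw, siegel p w hp hw ∈ K) → n ∈ a.range := fun U h3 h5 h6 => by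
      obtain ⟨e, f, hef⟩ := exists_hypSys_of_le (nd_restrict_iff.2 h3) (m := 2) h5
      have b0 : Q (e 0) = 0 := hef.Qe 0
      have b1 : polar Q (e 0) (e 1) = 0 := (polar_restrict _ _ _).symm.trans (hef.ee 0 1)
      have b2 : polar Q (e 0) (f 1) = 0 := (polar_restrict _ _ _).symm.trans (hef.ef 0 1)
      have b3 : polar Q (e 1) (f 1) = 1 := (polar_restrict _ _ _).symm.trans (hef.ef 1 1)
      have b4 : (e 0).1 ≠ 0 := fun h7 => hef.linearIndependent_e.ne_zero 0 (Subtype.ext h7)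
      have b5 : (e 1).1 ∉ F ∙ (e 0).1 := fun h7 => by
        obtain ⟨c, hc⟩ := Submodule.mem_span_singleton.1 h7
        rw [← hc] at b3; simp [b2] at b3
      have b6 : (f 1).1 ∉ F ∙ (e 0).1 := fun h7 => by
        obtain ⟨c, hc⟩ := Submodule.mem_span_singleton.1 h7
        rw [← hc] at b3; simp [B_comm Q (e 1), b1] at b3
      have m1 : Meet (siegel _ _ b0 b1) (siegel _ _ b0 b2) := ⟨_, b4,
        movS_siegel hQ b0 b1 (hef.Qe 1) b4 b5 ▸ Submodule.subset_span (by simp),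
        movS_siegel hQ b0 b2 (hef.Qf 1) b4 b6 ▸ Submodule.subset_span (by simp)⟩
      exact haut n _ _ ⟨_, _, b0, b1, hef.Qe 1, b4, b5, rfl⟩ ⟨_, _, b0, b2, hef.Qf 1, b4, b6, rfl⟩ m1
        (fun h7 => one_ne_zero (b3.symm.trans
          ((meet_prp_siegel hQ b0 b4 (hef.Qe 1) (hef.Qf 1) b1 b2 b5 b6).1 ⟨m1, h7⟩)))
        (hc ⟨_, h6 _ (e 0).2 _ (e 1).2 b0 b1⟩) (hc ⟨_, h6 _ (e 0).2 _ (f 1).2 b0 b2⟩)
    have h3 := finrank_perp hQ (fixS h)
    obtain ⟨j, hj⟩ := id o1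
    obtain ⟨j', hj'⟩ := id o2
    obtain ⟨g, rfl⟩ : n ∈ a.range := by
      by_cases h5 : 5 ≤ finrank F (fixS h)
      · exact key _ hU1.inf_eq_bot h5 s1
      · exact key _ hU2.inf_eq_bot (by omega) s2
    have c1 := fun p hp w hw a b => actO_eq_of_comm ha (siegel_pow_char r a b) (hc ⟨_, s1 p hp w hw a b⟩)
    have c2 := fun p hp w hw a b => actO_eq_of_comm ha (siegel_pow_char r a b) (hc ⟨_, s2 p hp w hw a b⟩)
    refine H6.eq_one_of_pow_of_coprime hn (pow_orderOf_eq_one _) ?_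
    rw [pow_two, ← map_mul]
    refine ha.ge ?_
    by_cases h5 : 3 ≤ finrank F (fixS h)
    · exact sq_mem_ZS_of_comm hQ hU1 h5 o2 c1 c2
    · exact sq_mem_ZS_of_comm hQ hU2 (by omega) (by rwa [perp_perp hQ]) c2 (by rwa [perp_perp hQ])

theorem not_unbal_B {k : ℕ} (hk : finrank F V = 2 * k) (h5 : 5 ≤ k) {g : SS Q} (hg : g ∈ GO Q)
    (h1 : ¬ IsSquare (g.c : F)) (h4 : ∀ x, g.γ (g.γ x) = (g.c : F) • x)
    (hs : Function.Surjective a) : ¬ H6.Unbal 2 ((KS Q).map a) (a g) := by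
  intro hU
  have : Nontrivial V := Module.nontrivial_of_finrank_pos (R := F) (by omega)
  obtain ⟨r, hr⟩ := CharP.exists F
  have : Fact r.Prime := ⟨CharP.char_is_prime F r⟩
  have := fact_of_not_isSquare h1
  letI := twMod (g.lin hg).toLinearMap h4
  have := twMod_tower (g.lin hg).toLinearMap h4
  have hω : ∀ x, (ω : QuadraticAlgebra F (g.c : F) 0) • x = g.γ x := twMod_omega _ h4
  have hB : ∀ x y, polar Q ((ω : QuadraticAlgebra F (g.c : F) 0) • x) y =
      polar Q x ((ω : QuadraticAlgebra F (g.c : F) 0) • y) := fun x y =>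
    mul_left_cancel₀ g.c.ne_zero (by rw [hω, hω, ← SS.map_B' hg, h4, B_smul_left])
  have h6 := tw_finrank F V (g.c : F)
  have := tw_finiteDimensional F V (g.c : F)
  have := tw_finite F (g.c : F)
  have : CharP (QuadraticAlgebra F (g.c : F) 0) r :=
    charP_of_injective_algebraMap (algebraMap F _).injective r
  have hE := nd_twQ hB h2 hQ
  have h7 : 5 ≤ finrank (QuadraticAlgebra F (g.c : F) 0) V := by omega
  refine (hU.exists_normal
    (a.comp ((SS.ofO Q).comp ((twRes hB h2).comp (Om (twQ hB)).subtype)))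
    (fun s => ⟨⟨_, ofO_mem_KS (map_mem_commutator (twRes hB h2) s.2), rfl⟩,
      mem_centralizer_singleton_iff.2 (by
        rw [MonoidHom.comp_apply, ← map_mul, ← map_mul]
        refine congrArg a (SS.ext_of_apply hQ fun x => ?_)
        change s.1.1 (g.γ x) = g.γ (s.1.1 x)
        rw [← hω, ← hω, map_smul])⟩) ?_ ?_).elim ?_
  rotate_right
  · rintro M ⟨hM, ⟨m, hm, h3⟩, h8⟩
    have hρ : ∀ p w hp hw, ∃ u, (Om (twQ hB)).subtype u = siegel p w hp hw ∧ u ^ r = 1 :=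
      fun p w hp hw => ⟨⟨_, siegel_mem_Om hE h7 hp hw⟩, rfl, Subtype.ext (siegel_pow_char r hp hw)⟩
    obtain ⟨n, hn, p, hp, h9⟩ := exists_nonperp hE
      (fun p w hp hw => (hρ p w hp hw).imp fun _ => And.left) (by omega) (by omega) hm fun c => by
      by_contra h9
      push Not at h9
      obtain ⟨v, hv⟩ := exists_Q_ne_zero hE (by omega)
      have h10 := OG.map_Q m.1 v
      rw [show m.1.1 v = c • v from h9 v, Q_smul, mul_eq_right₀ hv, pow_two,
        mul_self_eq_one_iff] at h10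
      refine h3 (ha.ge ?_)
      rcases h10 with rfl | rfl
      · exact ⟨1, SS.ext_of_apply hQ fun x => by simpa [twRes_apply] using (h9 x).symm⟩
      · exact ⟨-1, SS.ext_of_apply hQ fun x => by simpa [twRes_apply] using (h9 x).symm⟩
    obtain ⟨w, hw, h10⟩ := exists_swap' (odd_char h2 r) hρ hn hp h9
    obtain ⟨l, hl⟩ := ha.le (show SS.ofO Q (twRes hB h2 (w ^ _).1) ∈ a.ker from
      (map_pow (a.comp ((SS.ofO Q).comp ((twRes hB h2).comp (Om (twQ hB)).subtype))) w _).trans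
        (pow_orderOf_eq_one _))
    refine h10 _ (Nat.coprime_two_right.1 (h8 w hw)) (algebraMap F _ l) ?_
    rw [algebraMap_smul]
    exact (congrArg (·.γ p) hl).symm
  · rintro _ ⟨⟨d, hd, rfl⟩, h3⟩ s
    obtain ⟨l, hl, h8⟩ := comm_sign ha hg (KS_le_GO hd) h4 (mem_centralizer_singleton_iff.1 h3)
    obtain ⟨D, hD⟩ := exists_twSS hB h2 (KS_le_GO hd) hl (by simpa only [hω] using h8)
    refine ⟨actOm _ D s, ?_⟩
    rw [MonoidHom.comp_apply, MonoidHom.comp_apply a, ← map_inv, ← map_mul, ← map_mul]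
    refine congrArg a (SS.ext_of_apply hQ fun x => ?_)
    obtain ⟨x, rfl⟩ := d.γ.surjective x
    change d.γ (s.1.1 (d⁻¹.γ (d.γ x))) = (SS.actO _ D s.1).1 (d.γ x)
    rw [SS.inv_apply, ← hD, ← hD, SS.actO_apply']
  · intro n hn hc
    obtain ⟨d, rfl⟩ := hs n
    obtain ⟨z, hz⟩ := scalar_of_fix_sing hE h7 (d.γ : V →+ V) fun u hu => by
      by_cases hu0 : u = 0
      · simp [hu0]
      refine mem_span_of_fixed hE h7 hu0 hu fun w hw => ?_
      have h8 := actO_eq_of_comm ha (r := r) (s := twRes hB h2 (siegel u w hu hw))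
        (by rw [← map_pow, siegel_pow_char, map_one]) (hc ⟨_, siegel_mem_Om hE h7 hu hw⟩)
      have h9 := SS.actO_apply' d (twRes hB h2 (siegel u w hu hw)) u
      rwa [h8, twRes_apply, twRes_apply, siegel_self] at h9
    replace hz : ∀ v, d.γ v = z • v := hz
    obtain ⟨x, hx⟩ := exists_ne (0 : V)
    have hd : d ∈ GO Q := RingEquiv.ext fun b => smul_left_injective F (d.apply_ne_zero hx) (by
      change d.σ b • d.γ x = b • d.γ x
      rw [← d.map_smul, hz, hz, smul_comm])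
    obtain ⟨e, f, -, -, hef⟩ := exists_hyp_pair hE (by omega)
    have h8 : polar (twQ hB) (z • e) (z • f) = (d.c : F) • polar (twQ hB) e f := by
      rw [polar_twQ hB h2, polar_twQ hB h2, smul_comm, ← hz, ← hz, ← hz, SS.map_B' hd, SS.map_B' hd]
      ext <;> simp; ring
    rw [B_smul_left, B_smul_right, hef, mul_one, ← Algebra.algebraMap_eq_smul_one] at h8
    refine H6.eq_one_of_pow_of_coprime hn (pow_orderOf_eq_one _) ?_
    rw [pow_two, ← map_mul]
    refine ha.ge ⟨d.c, SS.ext_of_apply hQ fun x => ?_⟩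
    rw [SS.mul_apply, hz, hz, smul_smul, h8, algebraMap_smul, SS.sc_apply]

end Cfsg.Agent.H7
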