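import Cfsg.Agent.H7.OutB

/-!
Galois descent for semisimilarities of finite order.
-/

set_option autoImplicit false

namespace Cfsg.Agent.H7

open QuadraticMap Module Subgroup

variable {F₀ F V₀ V : Type*} [Field F₀] [Field F] [AddCommGroup V₀] [Module F₀ V₀]
  [AddCommGroup V] [Module F V] {Q : QuadraticForm F V}

/-- `Q₀` is the form on the fixed vectors of `γ` -/
structure Fx (γ : SS Q) (e : F₀ →+* F) (Q₀ : QuadraticForm F₀ V₀) (j : V₀ →+ V) (l : F) : Prop where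
  X : Ext e Q₀ Q j l
  he : ∀ x, γ.σ x = x ↔ ∃ y, e y = x
  fix : ∀ v, γ.γ (j v) = j v

lemma SS.c_eq_of_apply {g h : SS Q} {v : V} (hv : Q v ≠ 0) (h1 : g.σ = h.σ) (h2 : g.γ v = h.γ v) :
    g.c = h.c := by
  have := g.map_Q v
  rw [h2, h.map_Q, h1] at this
  exact Units.ext (mul_right_cancel₀ (by simpa using hv) this).symm

lemma SS.sc_injective [Nontrivial V] : Function.Injective (SS.sc Q) := fun a b h => by
  obtain ⟨v, hv⟩ := exists_ne (0 : V)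
  exact Units.ext (smul_left_injective F hv (congrArg (fun g : SS Q => g.γ v) h))

lemma SS.mul_sc (g : SS Q) (l : Fˣ) :
    g * SS.sc Q l = SS.sc Q (Units.map (g.σ : F →* F) l) * g := by
  rw [← SS.conj_sc, inv_mul_cancel_right]

lemma SS.sc_mul_pow (g : SS Q) (l : Fˣ) (n : ℕ) :
    ∃ u : Fˣ, (u : F) = H6.nrm g.σ n l ∧ (SS.sc Q l * g) ^ n = SS.sc Q u * g ^ n := by
  induction n with
  | zero => exact ⟨1, by simp [H6.nrm], by simp⟩
  | succ n ih =>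
    obtain ⟨u, h1, h2⟩ := ih
    refine ⟨u * Units.map ((g ^ n).σ : F →* F) l, by simp [H6.nrm_succ', h1, SS.pow_σ], ?_⟩
    rw [pow_succ, h2, map_mul, pow_succ, mul_assoc, ← mul_assoc (g ^ n), SS.mul_sc]
    simp only [mul_assoc]

lemma exists_sc_mul_pow_eq_one [Finite F] [Nontrivial V] {g : SS Q} {r : ℕ} (hr : orderOf g.σ = r)
    (hg : g ^ r ∈ ZS Q) : ∃ l, (SS.sc Q l * g) ^ r = 1 := by
  obtain ⟨c, hc⟩ := hg
  have h1 : g.σ c = c := by
    have := SS.conj_sc g c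
    rw [hc, (Commute.refl g).pow_right r, mul_inv_cancel_right, ← hc] at this
    exact (congrArg Units.val (SS.sc_injective this)).symm
  obtain ⟨l, hl0, hl⟩ := H6.exists_nrm_eq hr (inv_ne_zero c.ne_zero) (by rw [map_inv₀, h1])
  obtain ⟨u, h2, h3⟩ := g.sc_mul_pow (Units.mk0 l hl0) r
  refine ⟨_, h3.trans ?_⟩
  rw [← hc, ← map_mul, show u * c = 1 from Units.ext (by simp [h2, hl]), map_one]

lemma exists_fx [FiniteDimensional F V] (hQ : ND Q) [Nontrivial V] {γ : SS Q} {r : ℕ}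
    (hr : orderOf γ.σ = r) (hr0 : 0 < r) (hγ : γ ^ r = 1) {e : F₀ →+* F}
    (he : ∀ x, γ.σ x = x ↔ ∃ y, e y = x) :
    ∃ (Q₀ : QuadraticForm F₀ (Fin (finrank F V) → F₀)) (j : _) (l : F), Fx γ e Q₀ j l := by
  have h1 := H6.span_fixed_eq_top hr hr0 (τ := (γ.γ : V →+ V)) γ.map_smul fun v => by
    have := γ.pow_apply r v
    rw [hγ] at this
    exact this.symm
  let b := (Basis.ofSpan h1.ge).reindex ((Basis.ofSpan h1.ge).indexEquiv (finBasis F V))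
  have hb : ∀ i, γ.γ (b i) = b i := fun i =>
    Basis.ofSpan_subset h1.ge ⟨_, (Basis.reindex_apply _ _ i).symm⟩
  let j : (Fin (finrank F V) → F₀) →+ V := b.equivFun.symm.toLinearMap.toAddMonoidHom.comp (piMap _ e)
  have hj : ∀ v, j v = ∑ i, e (v i) • b i := fun v => by simp [j]
  have hσ : ∀ y, γ.σ (e y) = e y := fun y => (he _).2 ⟨y, rfl⟩
  have hfix : ∀ v, γ.γ (j v) = j v := fun v => by simp [hj, γ.map_smul, hσ, hb]
  have hsm : ∀ a v, j (a • v) = e a • j v := fun a v => by simp [hj, Finset.smul_sum, smul_smul]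
  have hsp : Submodule.span F (Set.range j) = ⊤ := by
    rw [eq_top_iff, ← b.span_eq]
    refine Submodule.span_mono ?_
    rintro _ ⟨i, rfl⟩
    exact ⟨Pi.single i 1, by simp [hj, Pi.single_apply, apply_ite e]⟩
  obtain ⟨w, hw⟩ : ∃ w, Q (j w) ≠ 0 := by
    by_contra h
    push Not at h
    have : Q = 0 := quad_ext_of_span (S := j.range) hsp (by rintro _ ⟨v, rfl⟩; exact h v)
    obtain ⟨v, hv⟩ := exists_ne (0 : V)
    exact hv (hQ.eq_zero fun y => by simp [this, polar])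
  have h2 : ∀ v, ∃ y, e y = Q (j v) / Q (j w) := fun v => (he _).1 (by
    have h3 := γ.map_Q (j v)
    have h4 := γ.map_Q (j w)
    rw [hfix] at h3 h4
    rw [map_div₀]
    conv_rhs => rw [h3, h4]
    rw [mul_div_mul_left _ _ γ.c.ne_zero])
  choose q hq using h2
  have h3 : ∀ x y, e (polar q x y) = polar Q (j x) (j y) / Q (j w) := fun x y => by
    simp only [polar, map_sub, hq, map_add j]; ring
  refine ⟨QuadraticMap.ofPolar q (fun a x => e.injective ?_) (fun x x' y => e.injective ?_)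
    (fun a x y => e.injective ?_), j, Q (j w), ⟨hw, hsm, fun v => ?_, hsp, by simp⟩, he, hfix⟩
  · rw [hq, hsm, Q_smul, smul_eq_mul, map_mul, map_mul, hq]; ring
  · rw [map_add, h3, h3, h3, map_add, polar_add_left, add_div]
  · rw [h3, hsm, B_smul_left, smul_eq_mul, map_mul, h3, mul_div_assoc]
  · rw [ofPolar_apply, hq]; field_simp

namespace Fx

variable {γ : SS Q} {e : F₀ →+* F} {Q₀ : QuadraticForm F₀ V₀} {j : V₀ →+ V} {l : F}

lemma σ_e (h : Fx γ e Q₀ j l) (y : F₀) : γ.σ (e y) = e y := (h.he _).2 ⟨y, rfl⟩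

lemma comp (h : Fx γ e Q₀ j l) {W₀ : Type*} [AddCommGroup W₀] [Module F₀ W₀]
    {Q₁ : QuadraticForm F₀ W₀} (ψ : W₀ ≃ₗ[F₀] V₀) {c : F₀} (hc : c ≠ 0)
    (hψ : ∀ x, Q₀ (ψ x) = c * Q₁ x) :
    Fx γ e Q₁ (j.comp ψ.toLinearMap.toAddMonoidHom) (l * e c) :=
  ⟨h.X.comp ψ hc hψ, h.he, fun _ => h.fix _⟩

lemma comm_refl (h : Fx γ e Q₀ j l) (v : V₀) : Commute (SS.ofO Q (refl Q (j v))) γ := by
  have := SS.ofO_actO γ (refl Q (j v))
  rw [SS.actO_refl, h.fix, eq_mul_inv_iff_mul_eq] at this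
  exact this

variable [FiniteDimensional F₀ V₀]

lemma repr_apply (h : Fx γ e Q₀ j l) {ι : Type*} [Fintype ι] (b : Basis ι F₀ V₀) (x : V) (i : ι) :
    (h.X.basis b).repr (γ.γ x) i = γ.σ ((h.X.basis b).repr x i) := by
  conv_lhs => rw [← (h.X.basis b).sum_repr x, map_sum]
  simp only [γ.map_smul, h.X.basis_apply, h.fix]
  simp only [← h.X.basis_apply b]
  exact congrFun ((h.X.basis b).repr_sum_self _) i

lemma mem_range (h : Fx γ e Q₀ j l) {x : V} (hx : γ.γ x = x) : ∃ v, j v = x := by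
  let b := finBasis F₀ V₀
  have h1 : ∀ i, ∃ y, e y = (h.X.basis b).repr x i := fun i =>
    (h.he _).1 (by rw [← h.repr_apply, hx])
  choose y hy using h1
  refine ⟨b.equivFun.symm y, (h.X.basis b).repr.injective (Finsupp.ext fun i => ?_)⟩
  rw [h.X.repr_j, ← hy, ← Basis.equivFun_apply, LinearEquiv.apply_symm_apply]

lemma exists_ne (h : Fx γ e Q₀ j l) (hQ : ND Q) (hn : 1 ≤ finrank F V) : ∃ v, Q (j v) ≠ 0 := by
  obtain ⟨v, hv⟩ := exists_Q_ne_zero (h.X.nd hQ) (h.X.rank ▸ hn)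
  exact ⟨v, by simp [h.X.map_Q, h.X.l_ne, hv]⟩

lemma ss_ext (h : Fx γ e Q₀ j l) (hQ : ND Q) (hn : 1 ≤ finrank F V) {g g' : SS Q}
    (h1 : g.σ = g'.σ) (h2 : ∀ v, g.γ (j v) = g'.γ (j v)) : g = g' := by
  obtain ⟨v, hv⟩ := h.exists_ne hQ hn
  exact h.X.ss_ext h1 (SS.c_eq_of_apply hv h1 (h2 v)) h2

lemma E_comm (h : Fx γ e Q₀ j l) (g : GO Q₀) : Commute (h.X.E g) γ :=
  h.X.ss_ext (by simp) (by ext; simp [h.σ_e, mul_comm]) fun v => by
    simp [h.fix, h.X.E_j]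

lemma exists_E (h : Fx γ e Q₀ j l) {d : SS Q} (hd : d ∈ GO Q) (hc : Commute d γ) :
    ∃ g, h.X.E g = d := by
  have h1 : ∀ v, ∃ w, j w = d.γ (j v) := fun v => h.mem_range (by
    rw [← SS.mul_apply, ← hc.eq, SS.mul_apply, h.fix])
  choose g hg using h1
  let g₁ : V₀ →ₗ[F₀] V₀ :=
    { toFun := g
      map_add' := fun x y => h.X.injective (by simp [hg])
      map_smul' := fun a x => h.X.injective (by simp [hg, h.X.smul, d.map_smul, mem_GO.1 hd]) }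
  have h2 : Function.Injective g₁ := fun x y hxy => h.X.injective (d.γ.injective (by
    rw [← hg, ← hg]; exact congrArg j hxy))
  obtain ⟨c, hc'⟩ := (h.he d.c).1 (by rw [← SS.conj_c γ d hd, ← hc.eq, mul_inv_cancel_right])
  have hc0 : c ≠ 0 := by rintro rfl; exact d.c.ne_zero (by rw [← hc', map_zero])
  refine ⟨⟨SS.ofLin (LinearEquiv.ofInjectiveEndo g₁ h2) (Units.mk0 c hc0) fun v => ?_, rfl⟩,
    h.X.ss_ext (mem_GO.1 hd).symm (Units.ext hc') fun v => (h.X.E_j _ v).trans (hg v)⟩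
  apply e.injective
  apply mul_left_cancel₀ h.X.l_ne
  change l * e (Q₀ (g v)) = _
  rw [← h.X.map_Q, hg, d.map_Q, h.X.map_Q, mem_GO.1 hd, ← hc']
  simp; ring

lemma exists_E' (h : Fx γ e Q₀ j l) [Nontrivial V₀] {d : SS Q} (hd : d ∈ GO Q)
    (hc : d * γ * d⁻¹ * γ⁻¹ ∈ ZS Q) : ∃ g μ, d = SS.sc Q μ * h.X.E g := by
  obtain ⟨a, ha⟩ := hc
  rw [eq_mul_inv_iff_mul_eq, eq_mul_inv_iff_mul_eq] at ha
  obtain ⟨v, hv⟩ := _root_.exists_ne (0 : V₀)
  let b := finBasis F₀ V₀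
  obtain ⟨i, hi⟩ : ∃ i, (h.X.basis b).repr (d.γ (j v)) i ≠ 0 := by
    by_contra h1
    push Not at h1
    exact d.apply_ne_zero (fun h2 => hv (h.X.injective (h2.trans (map_zero j).symm)))
      ((h.X.basis b).repr.map_eq_zero_iff.1 (Finsupp.ext h1))
  have h1 := congrArg (fun g : SS Q => (h.X.basis b).repr (g.γ (j v)) i) ha
  simp only [SS.mul_apply, h.fix, SS.sc_apply, map_smul, Finsupp.smul_apply, h.repr_apply,
    smul_eq_mul] at h1
  obtain ⟨g, hg⟩ := h.exists_E (d := SS.sc Q (Units.mk0 _ hi)⁻¹ * d) (mul_mem (sc_mem_GO _) hd) (by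
    change _ = _
    rw [mul_assoc, ← ha, ← mul_assoc γ, SS.mul_sc γ, ← mul_assoc, ← mul_assoc, ← map_mul]
    congr 3
    ext
    simp only [Units.val_mul, Units.val_inv_eq_inv_val, Units.val_mk0, Units.coe_map,
      MonoidHom.coe_coe, map_inv₀]
    have : γ.σ ((h.X.basis b).repr (d.γ (j v)) i) ≠ 0 := by simpa using hi
    field_simp
    exact h1)
  exact ⟨g, Units.mk0 _ hi, by rw [hg, ← mul_assoc, ← map_mul]; simp⟩

lemma exists_conj (h : Fx γ e Q₀ j l) (hQ : ND Q) (hn : 1 ≤ finrank F V) {γ' : SS Q} {j' : V₀ →+ V}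
    {l' : F} (h' : Fx γ' e Q₀ j' l') (hσ : γ.σ = γ'.σ) : ∃ g ∈ GO Q, γ' = g * γ * g⁻¹ := by
  obtain ⟨ψ, h1, h2⟩ := h.X.exists_equiv h'.X
  have h3 : ∀ x, Q (ψ x) = (Units.mk0 _ (div_ne_zero h'.X.l_ne h.X.l_ne) : Fˣ) * Q x := h2
  refine ⟨SS.ofLin ψ _ h3, rfl, ?_⟩
  rw [eq_mul_inv_iff_mul_eq]
  exact h.ss_ext hQ hn (by simp [hσ]) fun v => by simp [h1, h.fix, h'.fix]

section aut
variable {A : Type*} [Group A] {a : SS Q →* A} (ha : a.ker = ZS Q) {H : Subgroup (SS Q)}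
  {H₀ : Subgroup (SS Q₀)} (hH : H ≤ GO Q) (hZ : ZS Q ≤ H) (hH₀ : H₀ ≤ GO Q₀)
include ha hH hZ

lemma mem_inf_comap_iff (h : Fx γ e Q₀ j l) [Nontrivial V₀]
    (hE : ∀ g : GO Q₀, h.X.E g ∈ H ↔ g.1 ∈ H₀) {d : SS Q} :
    d ∈ H ⊓ (centralizer {a γ}).comap a ↔
      ∃ g : GO Q₀, g.1 ∈ H₀ ∧ ∃ μ, d = SS.sc Q μ * h.X.E g := by
  have h0 : ∀ μ, a (SS.sc Q μ) = 1 := fun μ => (ha ▸ ⟨μ, rfl⟩ : SS.sc Q μ ∈ a.ker)
  rw [mem_inf, mem_comap, mem_centralizer_singleton_iff]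
  constructor
  · rintro ⟨h1, h2⟩
    obtain ⟨g, μ, rfl⟩ := h.exists_E' (hH h1) (by
      rw [← ha, MonoidHom.mem_ker, map_mul, map_mul, map_mul, h2]; simp)
    rw [mul_mem_cancel_left (hZ ⟨μ, rfl⟩), hE] at h1
    exact ⟨g, h1, μ, rfl⟩
  · rintro ⟨g, h1, μ, rfl⟩
    refine ⟨mul_mem (hZ ⟨μ, rfl⟩) ((hE g).2 h1), ?_⟩
    rw [map_mul, h0, one_mul, ← map_mul, (h.E_comm g).eq, map_mul]

include hH₀ in
theorem centralizer_equiv (h : Fx γ e Q₀ j l) (hQ : ND Q) [Nontrivial V₀]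
    (hE : ∀ g : GO Q₀, h.X.E g ∈ H ↔ g.1 ∈ H₀) {A₀ : Type*} [Group A₀] {a₀ : SS Q₀ →* A₀}
    (ha₀ : a₀.ker = ZS Q₀) : Nonempty (↥(H.map a ⊓ centralizer {a γ}) ≃* H₀.map a₀) := by
  have h0 : ∀ μ, a (SS.sc Q μ) = 1 := fun μ => (ha ▸ ⟨μ, rfl⟩ : SS.sc Q μ ∈ a.ker)
  let f : H₀ →* A := a.comp (h.X.E.comp (inclusion hH₀))
  let f₀ : H₀ →* A₀ := a₀.comp H₀.subtype
  have h1 : f.ker = f₀.ker := by
    ext g
    change h.X.E _ ∈ a.ker ↔ g.1 ∈ a₀.ker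
    rw [ha, ha₀, h.X.E_mem_ZS_iff (h.X.nd hQ)]; rfl
  have h2 : f.range = H.map a ⊓ centralizer {a γ} := by
    ext x
    constructor
    · rintro ⟨g, rfl⟩
      have := (h.mem_inf_comap_iff ha hH hZ hE).2 ⟨inclusion hH₀ g, g.2, 1, rfl⟩
      rw [map_one, one_mul] at this
      exact ⟨mem_map_of_mem _ this.1, this.2⟩
    · rintro ⟨⟨d, h3, rfl⟩, h4⟩
      obtain ⟨g, h5, μ, rfl⟩ := (h.mem_inf_comap_iff ha hH hZ hE).1 ⟨h3, h4⟩
      exact ⟨⟨g, h5⟩, by rw [map_mul, h0, one_mul]; rfl⟩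
  have h3 : f₀.range = H₀.map a₀ := by rw [MonoidHom.range_comp, range_subtype]
  rw [← h2, ← h3]
  exact ⟨(QuotientGroup.quotientKerEquivRange f).symm.trans
    ((QuotientGroup.quotientMulEquivOfEq h1).trans (QuotientGroup.quotientKerEquivRange f₀))⟩

end aut

end Fx

lemma split_eq {A : Type*} [Group A] (a : SS Q →* A) {H : Subgroup (SS Q)} (hK : KS Q ≤ H) (x : A) :
    Cfsg.splitClassCount (H.map a) ((KS Q).map a) x =
      ((H ⊓ (centralizer {x}).comap a).map (piO Q)).relIndex (H.map (piO Q)) := by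
  have h := H6.splitClassCount_eq_relIndex (a.comp H.subtype) ((piO Q).comp H.subtype) x
  rw [MonoidHom.range_comp, MonoidHom.range_comp, range_subtype, ← MonoidHom.comap_ker, ker_piO,
    ← map_map, ← map_map, ← comap_comap] at h
  simp only [comap_subtype, subgroupOf_map_subtype] at h
  rwa [inf_eq_left.2 hK, inf_comm] at h

end Cfsg.Agent.H7
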