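import Cfsg.Agent.H7.Descent2

/-!
Conjugacy and class splitting for field type automorphisms.
-/

set_option autoImplicit false

namespace Cfsg.Agent.H7

open QuadraticMap Module Subgroup

variable {F₀ F V₀ V : Type*} [Field F₀] [Field F] [AddCommGroup V₀] [Module F₀ V₀]
  [AddCommGroup V] [Module F V] {Q : QuadraticForm F V} [FiniteDimensional F V] [Finite F]

lemma exists_QM_of_not_plus (hQ : ND Q) (hev : Even (finrank F V)) (h : ¬ PlusType Q) :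
    ∃ (m : ℕ) (ζ : F), finrank F V = 2 * m + 2 ∧ (∀ t : F, t ^ 2 + t + ζ ≠ 0) ∧
      ∃ φ : ((Fin m ⊕ Fin m) ⊕ Fin 2 → F) ≃ₗ[F] V, ∀ x, Q (φ x) = QM F m 1 ζ x := by
  obtain ⟨k, hk⟩ := hev
  obtain ⟨m, rfl⟩ : ∃ m, k = m + 1 := by
    refine Nat.exists_eq_succ_of_ne_zero ?_
    rintro rfl
    exact h ⟨⊥, fun u hu => by simp [(Submodule.mem_bot F).1 hu], by simp [hk]⟩
  obtain ⟨ζ, hζ, φ, hφ⟩ := exists_equiv_QM_one hQ (m := m) (by omega) h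
  exact ⟨m, ζ, by omega, hζ, φ, hφ⟩

lemma exists_fx' (hQ : ND Q) [Nontrivial V] {γ : SS Q} {r : ℕ} (hr : orderOf γ.σ = r)
    (hγ : γ ^ r ∈ ZS Q) {e : F₀ →+* F} (he : ∀ x, γ.σ x = x ↔ ∃ y, e y = x) :
    ∃ (μ : Fˣ) (Q₀ : QuadraticForm F₀ (Fin (finrank F V) → F₀)) (j : _) (l : F),
      Fx (SS.sc Q μ * γ) e Q₀ j l := by
  obtain ⟨μ, hμ⟩ := exists_sc_mul_pow_eq_one hr hγ
  have := H6.ringAut_finite (F := F)
  exact ⟨μ, exists_fx hQ (by simpa using hr) (hr ▸ orderOf_pos _) hμ (by simpa using he)⟩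

section ext
variable {e : F₀ →+* F} {Q₀ : QuadraticForm F₀ V₀} {j : V₀ →+ V} {l : F}
  [FiniteDimensional F₀ V₀] [Finite F₀]

lemma Ext.theta_EO (X : Ext e Q₀ Q j l) (hQ : ND Q) (hE : NonExc Q₀) {h : OG Q₀}
    (hh : Even (rk h)) :
    Even (rk (X.EO h)) ∧ ∃ a : F₀, a ≠ 0 ∧ chi a = theta h ∧ theta (X.EO h) = chi (e a) := by
  obtain ⟨vs, h1, rfl⟩ := exists_refl_list (X.nd hQ) hE h
  have h2 : X.EO (vs.map (refl Q₀)).prod = ((vs.map j).map (refl Q)).prod := by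
    rw [map_list_prod, List.map_map, List.map_map]
    congr 2
    exact funext X.EO_refl
  have h3 : ∀ v ∈ vs.map j, Q v ≠ 0 := fun v hv => by
    obtain ⟨w, hw, rfl⟩ := List.mem_map.1 hv
    simp [X.map_Q, X.l_ne, h1 w hw]
  rw [even_rk_list (X.nd hQ) vs h1] at hh
  rw [h2, even_rk_list hQ _ h3, theta_list hQ _ h3, theta_list (X.nd hQ) _ h1, List.length_map]
  refine ⟨hh, _, List.prod_ne_zero fun h0 => ?_, rfl, ?_⟩
  · obtain ⟨w, hw, h0⟩ := List.mem_map.1 h0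
    exact h1 w hw h0
  · have : ((vs.map j).map fun v => Q v).prod = l ^ vs.length * e (vs.map fun v => Q₀ v).prod := by
      simp only [List.map_map, Function.comp_def, X.map_Q, List.prod_map_mul, map_list_prod]
      simp
    obtain ⟨k, hk⟩ := hh
    rw [this, hk, ← two_mul, pow_mul', map_mul, chi_sq (pow_ne_zero _ X.l_ne), one_mul]

omit [FiniteDimensional F V] [Finite F] [FiniteDimensional F₀ V₀] [Finite F₀] in
lemma Ext.frame (X : Ext e Q₀ Q j l) {m : ℕ} {a b : Fin m → V₀} {u v : V₀} (h : Frame Q₀ a b u v) :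
    Frame Q (fun i => j (a i)) (fun i => l⁻¹ • j (b i)) (j u) (j v) where
  two := mt (two_eq_zero_iff_of_hom e).1 h.two
  hyp := X.hypSys h.hyp
  hu := mem_hperp.2 fun i => by simp [X.map_B, mem_hperp.1 h.hu i]
  hv := mem_hperp.2 fun i => by simp [X.map_B, mem_hperp.1 h.hv i]
  Qu := by simp [X.map_Q, X.l_ne, h.Qu]
  Qv := by simp [X.map_Q, X.l_ne, h.Qv]
  uv := by simp [X.map_B, h.uv]
  rank := X.rank.trans h.rank

omit [Finite F] [Finite F₀] [FiniteDimensional F V] in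
lemma Ext.piO_E_mul (X : Ext e Q₀ Q j l) (h : OG Q₀) (a : F₀ˣ) (hg : SS.ofO Q₀ h * SS.sc Q₀ a ∈ GO Q₀) :
    piO Q (X.E ⟨_, hg⟩) = piO Q (SS.ofO Q (X.EO h)) := by
  rw [show (⟨_, hg⟩ : GO Q₀) = ⟨SS.ofO Q₀ h, rfl⟩ * ⟨SS.sc Q₀ a, rfl⟩ from rfl, map_mul, X.E_ofO,
    X.E_sc, map_mul, piO_sc, mul_one]

end ext

namespace Fx
variable {γ : SS Q} {e : F₀ →+* F} {Q₀ : QuadraticForm F₀ V₀} {j : V₀ →+ V} {l : F}
  [FiniteDimensional F₀ V₀]

lemma cls_iff (h : Fx γ e Q₀ j l) (hQ : ND Q) (hE : NonExc Q) (hev : Even (finrank F V))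
    [Nontrivial V] : Cls γ ↔ PlusType Q₀ := by
  refine ⟨fun h1 => ?_, fun h1 => (h.stabMax_of_plus hQ h1).cls⟩
  by_contra h2
  have := finite_of_he h.he
  obtain ⟨m, ζ, -, hζ, φ, hφ⟩ := exists_QM_of_not_plus (h.X.nd hQ) (h.X.rank ▸ hev) h2
  have h' := h.comp φ one_ne_zero (Q₁ := QM F₀ m 1 ζ) (by simpa using hφ)
  obtain ⟨ψ, -, hψ⟩ := h'.X.exists_equiv (ext_QM e m 1 ζ)
  obtain ⟨t, ht⟩ : ∃ t : F, t ^ 2 + t + e ζ = 0 := by
    by_contra! hn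
    rw [map_one] at hψ
    exact not_plusType_QM (aniso_of_no_root hn) (h1.plusType.sim ψ _ hψ)
  have ht' : t ^ 2 + e 1 * t + e ζ = 0 := by simpa using ht
  obtain ⟨v, hv, h3⟩ := h'.stabMax_QM ht (by
    refine ((root_fixed_or h.he ht').resolve_left fun h3 => ?_).trans (by simp)
    obtain ⟨s, hs⟩ := exists_root_of_fixed h.he ht' h3
    exact hζ s (by simpa using hs))
  exact h1.not_refl_mul hQ hE hev hv h3.cls

lemma plusType_of_even (h : Fx γ e Q₀ j l) (hQ : ND Q) (hev : Even (finrank F V))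
    (hr : Even (orderOf γ.σ)) : PlusType Q := by
  have := finite_of_he h.he
  by_cases h1 : PlusType Q₀
  · exact h.X.plusType (h.X.nd hQ) h1
  · obtain ⟨ζ, -, h2⟩ := h.X.plusType_iff (h.X.nd hQ) (h.X.rank ▸ hev) h1
    exact h2.2 (by simpa using exists_root_of_he h.he hr 1 ζ)

lemma exists_conj_DS (h : Fx γ e Q₀ j l) (hQ : ND Q) (hE : NonExc Q) (hev : Even (finrank F V))
    (hn : 1 ≤ finrank F V) {γ' : SS Q} {j' : V₀ →+ V} {l' : F} (h' : Fx γ' e Q₀ j' l')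
    (hσ : γ.σ = γ'.σ) : ∃ g ∈ DS Q, γ' = g * γ * g⁻¹ := by
  obtain ⟨g, hg, h1⟩ := h.exists_conj hQ hn h' hσ
  by_cases h2 : g ∈ DS Q
  · exact ⟨g, h2, h1⟩
  · obtain ⟨v, hv⟩ := h.exists_ne hQ hn
    refine ⟨_, (mul_refl_mem_DS_iff hQ hE hev hg hv).2 h2, ?_⟩
    rw [h1, mul_assoc g _ γ, (h.comm_refl v).eq]
    group

section count
variable {A : Type*} [Group A] {a : SS Q →* A} (ha : a.ker = ZS Q)
include ha

omit [FiniteDimensional F V] [Finite F] in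
lemma mem_cent_map_iff {H : Subgroup (SS Q)} {H₀ : Subgroup (SS Q₀)} (hH : H ≤ GO Q) (hZ : ZS Q ≤ H)
    (h : Fx γ e Q₀ j l) [Nontrivial V₀] (hE : ∀ g : GO Q₀, h.X.E g ∈ H ↔ g.1 ∈ H₀) {y : Ou Q} :
    y ∈ (H ⊓ (centralizer {a γ}).comap a).map (piO Q) ↔
      ∃ g : GO Q₀, g.1 ∈ H₀ ∧ piO Q (h.X.E g) = y := by
  constructor
  · rintro ⟨d, h1, rfl⟩
    obtain ⟨g, h2, μ, rfl⟩ := (h.mem_inf_comap_iff ha hH hZ hE).1 h1
    exact ⟨g, h2, by simp⟩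
  · rintro ⟨g, h1, rfl⟩
    exact ⟨_, (h.mem_inf_comap_iff ha hH hZ hE).2 ⟨g, h1, 1, by simp⟩, rfl⟩

omit ha in
lemma exists_E_eq_z (h : Fx γ e Q₀ j l) (h2 : (2 : F) ≠ 0) (hQ : ND Q) (hn : 2 ≤ finrank F V)
    (hr : Odd (orderOf γ.σ)) :
    ∃ s : OG Q₀, Even (rk s) ∧ piO Q (h.X.E ⟨SS.ofO Q₀ s, rfl⟩) = zO Q := by
  have := finite_of_he h.he
  have h2' := mt (two_eq_zero_iff_of_hom e).2 h2
  have hE := nonExc_of_two (h.X.nd hQ) h2'
  obtain ⟨s, h1, h3⟩ := exists_theta_neg (h.X.nd hQ) hE h2' (h.X.rank ▸ hn)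
  obtain ⟨h4, b, -, h5, h6⟩ := h.X.theta_EO hQ hE h1
  refine ⟨s, h1, ?_⟩
  rw [h.X.E_ofO]
  exact piO_eq_z hQ (nonExc_of_two hQ h2) h4 (by rw [h6, chi_e_of_odd h.he hr, h5, h3])

omit ha in
lemma piO_EO_eq_one (h : Fx γ e Q₀ j l) (h2 : (2 : F) ≠ 0) (hQ : ND Q)
    (hr : Even (orderOf γ.σ)) {s : OG Q₀} (hs : Even (rk s)) :
    piO Q (SS.ofO Q (h.X.EO s)) = 1 := by
  have := finite_of_he h.he
  have h2' := mt (two_eq_zero_iff_of_hom e).2 h2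
  obtain ⟨h4, b, hb, -, h6⟩ := h.X.theta_EO hQ (nonExc_of_two (h.X.nd hQ) h2') hs
  exact piO_eq_one hQ (nonExc_of_two hQ h2) h4 (by rw [h6, chi_e_of_even h.he hr hb])

theorem split_odd_dim (h : Fx γ e Q₀ j l) (h2 : (2 : F) ≠ 0) (hQ : ND Q) (ho : Odd (finrank F V))
    (hn : 2 ≤ finrank F V) : Cfsg.splitClassCount ((GO Q).map a) ((KS Q).map a) (a γ) =
      if Odd (orderOf γ.σ) then 1 else 2 := by
  have := finite_of_he h.he
  have := Module.nontrivial_of_finrank_pos (R := F₀) (M := V₀) (by rw [← h.X.rank]; omega)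
  have key := fun y => h.mem_cent_map_iff ha (H := GO Q) (H₀ := GO Q₀) le_rfl
    (le_sup_right.trans KS_le_GO) (fun g => iff_of_true (h.X.E_mem_GO g) g.2) (y := y)
  rw [split_eq a KS_le_GO, GO_map_of_odd h2 hQ ho]
  split_ifs with hr
  · obtain ⟨s, -, h1⟩ := h.exists_E_eq_z h2 hQ hn hr
    exact relIndex_eq_one.2 (zpowers_le.2 ((key _).2 ⟨_, ofO_mem_GO s, h1⟩))
  · suffices h3 : (GO Q ⊓ (centralizer {a γ}).comap a).map (piO Q) = ⊥ by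
      rw [h3, relIndex_bot_left, Nat.card_zpowers, orderOf_zO_of_odd h2 hQ ho hn]
    refine (eq_bot_iff_forall _).2 fun y hy => ?_
    obtain ⟨⟨g, hg⟩, -, rfl⟩ := (key y).1 hy
    obtain ⟨s, μ, h1, rfl⟩ := exists_of_GO_odd (mt (two_eq_zero_iff_of_hom e).2 h2) (h.X.nd hQ)
      (h.X.rank ▸ ho) hg
    rw [h.X.piO_E_mul, h.piO_EO_eq_one h2 hQ (Nat.not_odd_iff_even.1 hr) h1]

theorem split_even_odd (h : Fx γ e Q₀ j l) (hQ : ND Q) {k : ℕ} (hk : finrank F V = 2 * k)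
    (hk3 : 3 ≤ k) (hr : Odd (orderOf γ.σ) ∨ (2 : F) = 0) :
    Cfsg.splitClassCount ((DS Q).map a) ((KS Q).map a) (a γ) = 1 := by
  have hE := nonExc_of_finrank hQ (by omega)
  have hev : Even (finrank F V) := ⟨k, by omega⟩
  rw [split_eq a (KS_le_DS hQ hE hev), relIndex_eq_one]
  by_cases h2 : (2 : F) = 0
  · rintro _ ⟨g, hg, rfl⟩
    rw [DS_of_two h2] at hg
    rw [piO_eq_one_iff.2 hg]; exact one_mem _
  replace hr := hr.resolve_right h2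
  have := finite_of_he h.he
  have := Module.nontrivial_of_finrank_pos (R := F₀) (M := V₀) (by rw [← h.X.rank]; omega)
  have key := fun y => h.mem_cent_map_iff ha (H := DS Q) (H₀ := DS Q₀) DS_le_GO
    (le_sup_right.trans (KS_le_DS hQ hE hev)) (h.X.E_mem_DS_iff hQ (by omega) hev) (y := y)
  have h2' := mt (two_eq_zero_iff_of_hom e).2 h2
  obtain ⟨s, h1, h3⟩ := h.exists_E_eq_z h2 hQ (by omega) hr
  obtain ⟨δ, h4, h5⟩ := exists_delta h2' (h.X.nd hQ) (h.X.rank ▸ hk) (by omega)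
  exact DS_map_le hQ hE hev ((key _).2 ⟨_, (ofO_mem_DS_iff (h.X.nd hQ)
    (nonExc_of_two (h.X.nd hQ) h2')).2 h1, h3⟩) (δ := h.X.E ⟨δ, DS_le_GO h4⟩)
    ((h.X.E_mem_DS_iff hQ (by omega) hev _).2 h4) (by rw [h.X.E_c, chi_e_of_odd h.he hr, h5])
    ((key _).2 ⟨_, h4, rfl⟩)

omit ha in
lemma exists_delta_theta (h : Fx γ e Q₀ j l) (h2 : (2 : F) ≠ 0) (hQ : ND Q) {k : ℕ}
    (hk : finrank F V = 2 * k) (hk3 : 3 ≤ k) (hr : orderOf γ.σ = 2) [Finite F₀] :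
    ∃ δ : GO Q₀, δ.1 ∈ DS Q₀ ∧ chi (δ.1.c : F₀) = -1 ∧ ∃ s : OG Q, Even (rk s) ∧
      piO Q (h.X.E δ) = piO Q (SS.ofO Q s) ∧
      (theta s = 1 ↔ (PlusType Q₀ ↔ (-chi (-1 : F₀)) ^ k = 1)) := by
  have hE := nonExc_of_two hQ h2
  have hev : Even (finrank F V) := ⟨k, by omega⟩
  have h2' := mt (two_eq_zero_iff_of_hom e).2 h2
  have hr' : Even (orderOf γ.σ) := by simp [hr]
  obtain ⟨m, rfl⟩ : ∃ m, k = m + 1 := ⟨k - 1, by omega⟩
  obtain ⟨a, b, u, v, hf⟩ := exists_frame (m := m) h2' (h.X.nd hQ) (h.X.rank ▸ hk)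
  obtain ⟨c, hc⟩ := exists_chi_eq_neg_one h2'
  have hu := hf.Qu
  have hv := hf.Qv
  obtain ⟨s, t, hst⟩ := exists_sq_comb h2' hu hv (c * Q₀ u)
  obtain ⟨δ, h1, h3, h4, h5, h6, h7⟩ := hf.exists_sim c hst
  have ht : t ≠ 0 := by
    rintro rfl
    exact chi_eq_neg_one_iff.1 hc ⟨s, mul_right_cancel₀ hu (by rw [← hst]; ring)⟩
  obtain ⟨μ, hμ⟩ := exists_root_of_he h.he hr' 0 (-c)
  replace hμ : μ ^ 2 = e c := by simpa [← sub_eq_add_neg, sub_eq_zero] using hμ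
  have hμ0 : μ ≠ 0 := by rintro rfl; exact c.ne_zero (e.injective (by simp [← hμ]))
  have hσ : γ.σ μ = -μ := by
    have hμ' : μ ^ 2 + e 0 * μ + e (-c) = 0 := by simp [hμ]
    refine ((root_fixed_or h.he hμ').resolve_left fun h8 => ?_).trans (by simp)
    obtain ⟨s, hs⟩ := exists_root_of_fixed h.he hμ' h8
    exact chi_eq_neg_one_iff.1 hc ⟨s, by linear_combination -hs⟩
  obtain ⟨g, hg⟩ := exists_ofO_mul_sc (h.X.E_mem_GO ⟨δ, DS_le_GO h1⟩) (l := Units.mk0 μ hμ0)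
    (Units.ext (by simp [h3, hμ]))
  have hg' : ∀ x, g.1 (j x) = μ⁻¹ • j (δ.γ x) := fun x => by
    rw [← h.X.E_j ⟨δ, DS_le_GO h1⟩, hg]; simp [smul_smul, hμ0]
  have he : Even (rk g) := by
    rw [← ofO_mem_DS_iff hQ hE, ← mul_mem_cancel_right (sc_mem_DS hev _), ← hg]
    exact (h.X.E_mem_DS_iff hQ (by omega) hev _).2 h1
  have hl := h.X.l_ne
  have hu' : e (Q₀ u) ≠ 0 := by simpa using hu
  have hst' := congrArg e hst
  simp only [map_add, map_mul, map_pow, ← hμ] at hst'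
  have hs1 : μ - e s ≠ 0 := fun h8 => by
    rw [sub_eq_zero] at h8
    rw [h8, h.σ_e, eq_neg_iff_add_eq_zero, ← two_mul, ← h8] at hσ
    exact mul_ne_zero h2 hμ0 hσ
  have h8 := (h.X.frame hf).theta_rot hQ (g := g) (μ := Units.mk0 μ hμ0) (s := e s / μ)
    (t := e t / μ) (by simp only [h.X.map_Q]; field_simp; linear_combination hst')
    (fun h9 => hs1 (by rw [div_eq_one_iff_eq hμ0] at h9; rw [h9, sub_self]))
    (fun i => by
      rw [hg', h4, h.X.smul, smul_smul, ← hμ]; congr 1; simp; field_simp)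
    (fun i => by rw [map_smul, hg', h5, smul_comm]; rfl)
    (by rw [hg', h6, map_add, h.X.smul, h.X.smul]; match_scalars <;> field_simp)
    (by
      rw [hg', h7, map_add, h.X.smul, h.X.smul]
      simp only [h.X.map_Q, map_neg, map_div₀, map_mul]
      match_scalars <;> field_simp)
  have h9 : chi μ = -chi (-1 : F₀) := by
    rw [chi_eq_chi_nrm h.he hr hμ0 (y := -1 * c) (by simp [hσ, ← hμ, pow_two]), map_mul, hc]; simp
  have h10 : chi (μ - e s) = chi (-(Q₀ u * Q₀ v)) := by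
    rw [chi_eq_chi_nrm h.he hr hs1 (y := (t / Q₀ u) ^ 2 * -(Q₀ u * Q₀ v)) (by
      simp only [map_mul, map_pow, map_div₀, map_neg, map_sub, hσ, h.σ_e]
      field_simp
      linear_combination -hst'), map_mul, chi_sq (div_ne_zero ht hu), one_mul]
  have h11 : 2 * (1 - e s / μ) * (Q (j u) * Q (j v)) =
      (l / μ) ^ 2 * (μ * ((μ - e s) * e (2 * Q₀ u * Q₀ v))) := by
    simp only [h.X.map_Q, map_mul, map_ofNat]; field_simp
  rw [h11, map_mul, map_mul, map_mul, chi_sq (div_ne_zero hl hμ0), chi_e_of_even h.he hr'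
    (by simp [h2', hu, hv]), Units.val_mk0, h9, h10, one_mul, mul_one, ← mul_assoc, ← pow_succ] at h8
  refine ⟨⟨δ, DS_le_GO h1⟩, h1, by rw [h3, hc], g, he, by rw [hg]; simp, ?_⟩
  rw [h8, hf.plusType_iff (h.X.nd hQ)]
  have h12 : (-chi (-1 : F₀)) ^ (m + 1) = 1 ∨ (-chi (-1 : F₀)) ^ (m + 1) = -1 := by
    rcases chi_dichotomy (a := (-1 : F₀)) (by simp) with h | h
    · rw [h]; exact neg_one_pow_eq_or ℤ _
    · simp [h]
  rcases chi_dichotomy (a := -(Q₀ u * Q₀ v)) (by simp [hu, hv]) with h | h <;>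
    rcases h12 with h' | h' <;> simp [h, h']

open Classical in
theorem split_even_two (h : Fx γ e Q₀ j l) (h2 : (2 : F) ≠ 0) (hQ : ND Q) {k : ℕ}
    (hk : finrank F V = 2 * k) (hk3 : 3 ≤ k) (hr : orderOf γ.σ = 2) (hd : disc Q = 1) [Finite F₀] :
    Cfsg.splitClassCount ((DS Q).map a) ((KS Q).map a) (a γ) =
      if (PlusType Q₀ ↔ (-chi (-1 : F₀)) ^ k = 1) then 4 else 2 := by
  have hE := nonExc_of_two hQ h2
  have hev : Even (finrank F V) := ⟨k, by omega⟩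
  have h2' := mt (two_eq_zero_iff_of_hom e).2 h2
  have hr' : Even (orderOf γ.σ) := by simp [hr]
  have := Module.nontrivial_of_finrank_pos (R := F₀) (M := V₀) (by rw [← h.X.rank]; omega)
  have key := fun y => h.mem_cent_map_iff ha (H := DS Q) (H₀ := DS Q₀) DS_le_GO
    (le_sup_right.trans (KS_le_DS hQ hE hev)) (h.X.E_mem_DS_iff hQ (by omega) hev) (y := y)
  obtain ⟨δ, h1, h3, s, h4, h5, h6⟩ := h.exists_delta_theta h2 hQ hk hk3 hr
  have h7 : ∀ g : GO Q₀, g.1 ∈ DS Q₀ → chi (g.1.c : F₀) = 1 → piO Q (h.X.E g) = 1 := by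
    rintro ⟨g, hg⟩ h8 h9
    obtain ⟨s, μ, h10, rfl⟩ := exists_of_DS_sq (h.X.nd hQ) (nonExc_of_two (h.X.nd hQ) h2')
      (h.X.rank ▸ hev) h8 h9
    rw [h.X.piO_E_mul, h.piO_EO_eq_one h2 hQ hr' h10]
  have h8 : (DS Q ⊓ (centralizer {a γ}).comap a).map (piO Q) = zpowers (piO Q (h.X.E δ)) := by
    refine le_antisymm (fun y hy => ?_) (zpowers_le.2 ((key _).2 ⟨δ, h1, rfl⟩))
    obtain ⟨g, hg, rfl⟩ := (key y).1 hy
    by_cases h9 : chi (g.1.c : F₀) = 1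
    · rw [h7 g hg h9]; exact one_mem _
    · have := h7 (δ * g) (mul_mem h1 hg) (by rw [coe_mul, chi_c_mul, h3, chi_unit_of_ne h9]; simp)
      rw [map_mul, map_mul, mul_eq_one_iff_inv_eq] at this
      rw [← this]; exact inv_mem (mem_zpowers _)
  have h9 := card_DS_map h2 hQ hk (by omega)
  rw [if_pos hd] at h9
  rw [split_eq a (KS_le_DS hQ hE hev), h8, h5]
  split_ifs with h10
  · rw [piO_eq_one hQ hE h4 (h6.2 h10), zpowers_one_eq_bot, relIndex_bot_left, h9]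
  · rw [piO_eq_z hQ hE h4 ((theta_dichotomy hQ hE s).resolve_left (mt h6.1 h10))]
    have h11 := relIndex_mul_relIndex ⊥ _ _ bot_le (zpowers_le.2 (zO_mem_DS hQ hE))
    rw [relIndex_bot_left, relIndex_bot_left, h9, Nat.card_zpowers,
      orderOf_eq_two' (zO_mul_self hQ hE) (zO_ne_one h2 hQ hk (by omega) hd)] at h11
    omega

end count

end Fx

section conj
variable (hQ : ND Q) {γ γ' : SS Q} (hσ : γ.σ = γ'.σ) {r : ℕ} (hr : orderOf γ.σ = r)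
  (hγ : γ ^ r ∈ ZS Q) (hγ' : γ' ^ r ∈ ZS Q)
  {A : Type*} [Group A] {a : SS Q →* A} (ha : a.ker = ZS Q)
include hQ hσ hr hγ hγ' ha

omit [FiniteDimensional F V] [Finite F] hQ hσ hr hγ hγ' in
lemma isConjUnder_of_sc {H : Subgroup (SS Q)} {g : SS Q} (hg : g ∈ H) {μ μ' : Fˣ}
    (h : SS.sc Q μ' * γ' = g * (SS.sc Q μ * γ) * g⁻¹) : Cfsg.IsConjUnder (H.map a) (a γ) (a γ') := by
  have h0 : ∀ μ, a (SS.sc Q μ) = 1 := fun μ => (ha ▸ ⟨μ, rfl⟩ : SS.sc Q μ ∈ a.ker)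
  refine ⟨a g, mem_map_of_mem _ hg, ?_⟩
  simpa [h0] using congrArg a h

theorem isConjUnder_odd (h2 : (2 : F) ≠ 0) (ho : Odd (finrank F V)) :
    Cfsg.IsConjUnder ((GO Q).map a) (a γ) (a γ') := by
  have hn : 1 ≤ finrank F V := ho.pos
  have := Module.nontrivial_of_finrank_pos (R := F) (M := V) hn
  obtain ⟨μ, Q₀, j, l, h⟩ := exists_fx' hQ hr hγ (he_fixF γ.σ)
  obtain ⟨μ', Q₁, j', l', h'⟩ := exists_fx' hQ (hσ ▸ hr) hγ' (e := (H6.fixF γ.σ).subtype)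
    (by rw [← hσ]; exact he_fixF _)
  obtain ⟨ψ, c, hc, hψ⟩ := exists_sim_of_odd (mt (two_eq_zero_iff_of_hom (H6.fixF γ.σ).subtype).2 h2)
    (h.X.nd hQ)
    (h'.X.nd hQ) (h.X.rank ▸ ho) rfl
  obtain ⟨g, hg, h1⟩ := h.exists_conj hQ hn (h'.comp ψ hc hψ) (by simp [hσ])
  exact isConjUnder_of_sc ha hg h1

theorem isConjUnder_even (hE : NonExc Q) (hev : Even (finrank F V)) (hn : 1 ≤ finrank F V)
    (hc : Cls γ ↔ Cls γ') : Cfsg.IsConjUnder ((DS Q).map a) (a γ) (a γ') := by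
  have := Module.nontrivial_of_finrank_pos (R := F) (M := V) hn
  obtain ⟨μ, Q₀, j, l, h⟩ := exists_fx' hQ hr hγ (he_fixF γ.σ)
  obtain ⟨μ', Q₁, j', l', h'⟩ := exists_fx' hQ (hσ ▸ hr) hγ' (e := (H6.fixF γ.σ).subtype)
    (by rw [← hσ]; exact he_fixF _)
  rw [← cls_mul_iff (sc_mem_DS hev μ), ← cls_mul_iff (γ := γ') (sc_mem_DS hev μ'),
    h.cls_iff hQ hE hev, h'.cls_iff hQ hE hev] at hc
  obtain ⟨ψ, hψ⟩ := exists_isometry_of_type (h.X.nd hQ) (h'.X.nd hQ) (h.X.rank ▸ hev) rfl hc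
  obtain ⟨g, hg, h1⟩ := h.exists_conj_DS hQ hE hev hn (h'.comp ψ one_ne_zero (by simpa using hψ))
    (by simp [hσ])
  exact isConjUnder_of_sc ha hg h1

end conj

section order
variable {A : Type*} [Group A] {a : SS Q →* A} (ha : a.ker = ZS Q) {γ : SS Q} {r : ℕ}
include ha

omit [FiniteDimensional F V] [Finite F] in
lemma pow_mem_ZS (h : orderOf (a γ) = r) : γ ^ r ∈ ZS Q := by
  rw [← ha, MonoidHom.mem_ker, map_pow, ← h, pow_orderOf_eq_one]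

omit [FiniteDimensional F V] [Finite F] in
lemma orderOf_σ_eq (hr : r.Prime) (h : orderOf (a γ) = r) (hσ : γ.σ ≠ 1) : orderOf γ.σ = r := by
  have := Fact.mk hr
  obtain ⟨μ, hμ⟩ := pow_mem_ZS ha h
  exact orderOf_eq_prime (by rw [← SS.pow_σ, ← hμ]; rfl) hσ

omit [FiniteDimensional F V] [Finite F] ha in
lemma orderOf_of_isConjUnder {H : Subgroup A} {x y : A} (h : Cfsg.IsConjUnder H x y) :
    orderOf y = orderOf x := by
  obtain ⟨g, -, rfl⟩ := h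
  exact H6.orderOf_conj' g x

theorem order_iff_conj_odd (hQ : ND Q) (h2 : (2 : F) ≠ 0) (ho : Odd (finrank F V)) (hr : r.Prime)
    (h : orderOf (a γ) = r) (hσ : γ.σ ≠ 1) {δ : A} (hδ : δ ∈ (GO Q).map a) :
    orderOf (δ * a γ) = r ↔ Cfsg.IsConjUnder ((GO Q).map a) (a γ) (δ * a γ) := by
  refine ⟨fun h1 => ?_, fun h1 => (orderOf_of_isConjUnder h1).trans h⟩
  obtain ⟨d, hd, rfl⟩ := hδ
  rw [← map_mul] at h1 ⊢
  exact isConjUnder_odd hQ (by simp [mem_GO.1 hd]) (orderOf_σ_eq ha hr h hσ) (pow_mem_ZS ha h)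
    (pow_mem_ZS ha h1) ha h2 ho

theorem order_iff_conj_even (hQ : ND Q) (hE : NonExc Q) (hev : Even (finrank F V))
    (hn : 1 ≤ finrank F V) (hr : r.Prime) (h : orderOf (a γ) = r) (hσ : γ.σ ≠ 1) {δ : A}
    (hδ : δ ∈ (DS Q).map a) :
    orderOf (δ * a γ) = r ↔ Cfsg.IsConjUnder ((DS Q).map a) (a γ) (δ * a γ) := by
  refine ⟨fun h1 => ?_, fun h1 => (orderOf_of_isConjUnder h1).trans h⟩
  obtain ⟨d, hd, rfl⟩ := hδ
  rw [← map_mul] at h1 ⊢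
  exact isConjUnder_even hQ (by simp [mem_GO.1 (DS_le_GO hd)]) (orderOf_σ_eq ha hr h hσ)
    (pow_mem_ZS ha h) (pow_mem_ZS ha h1) ha hE hev hn (cls_mul_iff hd).symm

end order

end Cfsg.Agent.H7
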