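import Cfsg.Agent.H7.Tw

/-!
Involutory graph automorphisms in odd characteristic.
-/

set_option autoImplicit false

namespace Cfsg.Agent.H7

open QuadraticMap Module Subgroup QuadraticAlgebra

variable {F V : Type*} [Field F] [AddCommGroup V] [Module F V] {Q : QuadraticForm F V}

lemma SS.map_smul' {d : SS Q} (hd : d ∈ GO Q) (a : F) (x : V) : d.γ (a • x) = a • d.γ x := by
  rw [d.map_smul, mem_GO.1 hd]; rfl

lemma SS.map_Q' {d : SS Q} (hd : d ∈ GO Q) (x : V) : Q (d.γ x) = d.c * Q x := by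
  rw [d.map_Q, mem_GO.1 hd]; rfl

lemma SS.map_B' {d : SS Q} (hd : d ∈ GO Q) (x y : V) :
    polar Q (d.γ x) (d.γ y) = d.c * polar Q x y := by
  rw [d.map_B, mem_GO.1 hd]; rfl

lemma comm_sign [Nontrivial V] {A : Type*} [Group A] {a : SS Q →* A} (ha : a.ker = ZS Q)
    {g d : SS Q} (hg : g ∈ GO Q) (hd : d ∈ GO Q) {ν : F} (hν : ∀ x, g.γ (g.γ x) = ν • x)
    (h : a d * a g = a g * a d) :
    ∃ l : F, (l = 1 ∨ l = -1) ∧ ∀ x, d.γ (g.γ x) = l • g.γ (d.γ x) := by
  obtain ⟨l, hl⟩ : d * g * (g * d)⁻¹ ∈ ZS Q := by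
    rw [← ha, MonoidHom.mem_ker]; simp [h]
  have h1 : ∀ x, d.γ (g.γ x) = (l : F) • g.γ (d.γ x) := fun x =>
    (congrArg (·.γ x) (eq_mul_inv_iff_mul_eq.1 hl)).symm
  refine ⟨l, ?_, h1⟩
  obtain ⟨x, hx⟩ := exists_ne (0 : V)
  have h2 := h1 (g.γ x)
  rw [h1 x, SS.map_smul' hg, hν, hν, SS.map_smul' hd, smul_smul, smul_smul] at h2
  have h3 : ν ≠ 0 := by
    rintro rfl
    exact g.apply_ne_zero (g.apply_ne_zero hx) (by simpa using hν x)
  have h4 := smul_left_injective F (d.apply_ne_zero hx) h2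
  exact mul_self_eq_one_iff.1 (mul_right_cancel₀ h3 (h4.symm.trans (one_mul _).symm))

section invol

variable (h2 : (2 : F) ≠ 0) {h : OG Q} (hh : h * h = 1)
include hh

lemma invol_apply (x : V) : h.1 (h.1 x) = x := congrArg (·.1 x) hh

lemma neg_mul_self : h * negOne Q * (h * negOne Q) = 1 := OG.ext' fun x => by simp [invol_apply hh]

include h2

lemma mem_movS_iff {x : V} : x ∈ movS h ↔ h.1 x = -x := by
  refine ⟨fun hx => ?_, fun hx => mem_movS.2 ⟨-(2 : F)⁻¹ • x, ?_⟩⟩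
  · obtain ⟨y, rfl⟩ := mem_movS.1 hx
    simp [invol_apply hh]
  · rw [map_smul, hx, ← smul_sub, ← neg_add', ← two_smul F, neg_smul_neg, smul_smul,
      inv_mul_cancel₀ h2, one_smul]

lemma fixS_neg : fixS (h * negOne Q) = movS h := by
  ext x; rw [mem_fixS, mem_movS_iff h2 hh]; simp [neg_eq_iff_eq_neg]

lemma isCompl_fixS [FiniteDimensional F V] (hQ : ND Q) : IsCompl (fixS h) (perp Q (fixS h)) := by
  refine isCompl_perp ((Submodule.eq_bot_iff _).2 fun x hx => ?_)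
  rw [perp_fixS hQ, Submodule.mem_inf, mem_fixS, mem_movS_iff h2 hh] at hx
  exact (smul_eq_zero.1 (show (2 : F) • x = 0 by
    linear_combination (norm := module) hx.2 - hx.1)).resolve_left h2

end invol

variable [FiniteDimensional F V] [Finite F] (h2 : (2 : F) ≠ 0) (hQ : ND Q) {k : ℕ}
  (hk : finrank F V = 2 * k)
include h2 hQ hk

lemma mem_DS_of_anti {g : SS Q} (hg : g ∈ GO Q) (hc : (g.c : F) = -1) (h : ∀ x, g.γ (g.γ x) = x) :
    g ∈ DS Q := by
  let U (ε : F) : Submodule F V := LinearMap.ker ((g.lin hg).toLinearMap - ε • LinearMap.id)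
  have hU : ∀ ε x, x ∈ U ε ↔ g.γ x = ε • x := fun ε x => by simp [U, sub_eq_zero]; rfl
  have h1 : ∀ ε, ε ^ 2 = 1 → TS Q (U ε) := fun ε hε x hx => by
    have := SS.map_Q' hg x
    rw [(hU _ _).1 hx, Q_smul, hε, hc] at this
    exact (mul_eq_zero.1 (show 2 * Q x = 0 by linear_combination this)).resolve_left h2
  have h3 : U 1 ⊔ U (-1) = ⊤ := eq_top_iff.2 fun x _ => Submodule.mem_sup.2
    ⟨(2 : F)⁻¹ • (x + g.γ x), by simp [hU, SS.map_smul' hg, h, add_comm],
      (2 : F)⁻¹ • (x - g.γ x), by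
      rw [hU, SS.map_smul' hg, map_sub, h]; module, by
      rw [← smul_add, add_add_sub_cancel, ← two_smul F, smul_smul, inv_mul_cancel₀ h2, one_smul]⟩
  have h4 := Submodule.finrank_add_le_finrank_add_finrank (U 1) (U (-1))
  rw [h3, finrank_top] at h4
  have h5 := (h1 1 (by simp)).two_mul_finrank_le hQ
  have h6 := (h1 (-1) (by simp)).two_mul_finrank_le hQ
  refine mem_DS_of_stab hQ (nonExc_of_two hQ h2) (h1 1 (by simp)) (by omega) hg (le_antisymm ?_ ?_)
  · rintro _ ⟨x, hx, rfl⟩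
    rw [hU, h, one_smul]; simpa using ((hU _ _).1 hx).symm
  · exact fun x hx => ⟨x, hx, by simpa using (hU _ _).1 hx⟩

theorem graph_cases [Nontrivial V] {g : SS Q} (hg : g ∈ GO Q) (hD : g ∉ DS Q) (hsq : g * g ∈ ZS Q) :
    (∃ (h : OG Q) (t : Fˣ), g = SS.ofO Q h * SS.sc Q t ∧ h * h = 1 ∧ ¬ Even (rk h)) ∨
      (¬ IsSquare (g.c : F) ∧ Odd k ∧ ∀ x, g.γ (g.γ x) = (g.c : F) • x) := by
  have hE := nonExc_of_two hQ h2
  have hev : Even (finrank F V) := ⟨k, by omega⟩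
  obtain ⟨ν, hν⟩ := hsq
  have h1 : ∀ x, g.γ (g.γ x) = (ν : F) • x := fun x => (congrArg (·.γ x) hν).symm
  have h3 : (ν : F) = g.c ∨ (ν : F) = -g.c := by
    have := congrArg (fun x : SS Q => (x.c : F)) hν
    simp only [SS.mul_c_of_GO hg, SS.sc_c, Units.val_mul, Units.val_pow_eq_pow_val] at this
    exact sq_eq_sq_iff_eq_or_eq_neg.1 (by rw [this, pow_two])
  by_cases hs : IsSquare (ν : F)
  · obtain ⟨t, ht⟩ := hs
    have ht0 : t ≠ 0 := by rintro rfl; simp at ht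
    have h4 : g * SS.sc Q (Units.mk0 t ht0)⁻¹ ∈ GO Q := mul_mem hg (sc_mem_GO _)
    have h5 : ∀ x, (g * SS.sc Q (Units.mk0 t ht0)⁻¹).γ ((g * SS.sc Q (Units.mk0 t ht0)⁻¹).γ x) = x :=
      fun x => by
        simp only [SS.mul_apply, SS.sc_apply, SS.map_smul' hg, h1, smul_smul, ht]
        rw [Units.val_inv_eq_inv_val, Units.val_mk0, show t⁻¹ * t⁻¹ * (t * t) = 1 by field_simp,
          one_smul]
    have h6 : g * SS.sc Q (Units.mk0 t ht0)⁻¹ ∉ DS Q := by
      rwa [mul_mem_cancel_right (sc_mem_DS hev _)]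
    have h7 : ((g * SS.sc Q (Units.mk0 t ht0)⁻¹).c : F) = g.c * (ν : F)⁻¹ := by
      rw [SS.mul_c_of_GO hg, ht, Units.val_mul, SS.sc_c]; simp [pow_two]
    rcases h3 with h3 | h3
    · obtain ⟨h, hh⟩ : g * SS.sc Q (Units.mk0 t ht0)⁻¹ ∈ OO Q :=
        mem_OO.2 ⟨h4, Units.ext (by rw [h7, h3]; simp)⟩
      exact Or.inl ⟨h, Units.mk0 t ht0, by rw [hh, map_inv, inv_mul_cancel_right],
        OG.ext' fun x => by rw [← hh] at h5; exact h5 x,
        fun h8 => h6 (hh ▸ (ofO_mem_DS_iff hQ hE).2 h8)⟩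
    · exact absurd (mem_DS_of_anti h2 hQ hk h4 (by rw [h7, h3]; simp) h5) h6
  · have := fact_of_not_isSquare hs
    letI := twMod (g.lin hg).toLinearMap h1
    have := twMod_tower (g.lin hg).toLinearMap h1
    have h4 := tw_det (ν := (ν : F)) (g := (g.lin hg).toLinearMap) fun x => (twMod_omega _ h1 x).symm
    have h5 := tw_finrank F V (ν : F)
    rw [show finrank (QuadraticAlgebra F (ν : F) 0) V = k by omega,
      ← SS.det_eq hg (fun _ => rfl)] at h4
    rw [mem_DS h2, h4, show finrank F V / 2 = k by omega] at hD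
    rcases h3 with h3 | h3
    · refine Or.inr ⟨h3 ▸ hs, Nat.not_even_iff_odd.1 fun h6 => hD ⟨hg, ?_⟩, h3 ▸ h1⟩
      rw [h6.neg_pow, h3]
    · exact absurd ⟨hg, by rw [h3, neg_neg]⟩ hD

omit hk in
lemma exists_z_of_le {U : Submodule F V} (hU : IsCompl U (perp Q U)) (h : 2 ≤ finrank F U) :
    ∃ u ∈ U, ∃ v ∈ U, Even (rk (refl Q u * refl Q v)) ∧ theta (refl Q u * refl Q v) = -1 := by
  have h1 : ∀ x ∈ U, (∀ y ∈ U, polar Q x y = 0) → x = 0 := fun x hx h1 =>
    Submodule.disjoint_def.1 hU.disjoint x hx (mem_perp.2 fun y hy => (B_comm _ _ _).trans (h1 y hy))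
  obtain ⟨a, ha⟩ := exists_chi_eq_neg_one h2
  obtain ⟨u, hu, h3⟩ := exists_Q_eq_of_mem h1 h 1
  obtain ⟨v, hv, h4⟩ := exists_Q_eq_of_mem h1 h a
  have h5 : Q u ≠ 0 := by rw [h3]; exact one_ne_zero
  have h6 : Q v ≠ 0 := by rw [h4]; exact a.ne_zero
  exact ⟨u, hu, v, hv, by simp [even_rk_mul_refl hQ _ h6, rk_refl hQ h5],
    by rw [theta_mul_refl hQ _ h6, theta_refl hQ h5, h3, h4, ha]; simp⟩

lemma exists_z_comm (hk4 : 4 ≤ k) {g : SS Q} (hg : g ∈ GO Q) (hD : g ∉ DS Q) (hsq : g * g ∈ ZS Q) :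
    ∃ s : OG Q, Even (rk s) ∧ theta s = -1 ∧ SS.actO Q g s = s := by
  have : Nontrivial V := Module.nontrivial_of_finrank_pos (R := F) (by omega)
  rcases graph_cases h2 hQ hk hg hD hsq with ⟨h, t, rfl, hh, -⟩ | ⟨h1, h3, h4⟩
  · have key : ∀ h : OG Q, h * h = 1 → 2 ≤ finrank F (fixS h) →
        ∃ s : OG Q, Even (rk s) ∧ theta s = -1 ∧ h * s * h⁻¹ = s := fun h hh h1 => by
      obtain ⟨u, hu, v, hv, h3, h4⟩ := exists_z_of_le h2 hQ (isCompl_fixS h2 hh hQ) h1
      refine ⟨_, h3, h4, ?_⟩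
      rw [← conj_mul, refl_conj, refl_conj, mem_fixS.1 hu, mem_fixS.1 hv]
    simp only [map_mul, SS.actO_sc, mul_one, SS.actO_ofO]
    by_cases h1 : 2 ≤ finrank F (fixS h)
    · exact key h hh h1
    · have h3 := rk_add_fix h
      obtain ⟨s, h4, h5, h6⟩ := key _ (neg_mul_self hh) (by rw [fixS_neg h2 hh, ← rk]; omega)
      rw [mul_inv_eq_iff_eq_mul] at h6
      exact ⟨s, h4, h5, mul_inv_eq_iff_eq_mul.2 (OG.ext' fun x => by
        simpa using congrArg (·.1 x) h6)⟩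
  · have := fact_of_not_isSquare h1
    letI := twMod (g.lin hg).toLinearMap h4
    have := twMod_tower (g.lin hg).toLinearMap h4
    have hω : ∀ x, (ω : QuadraticAlgebra F (g.c : F) 0) • x = g.γ x := twMod_omega _ h4
    have hB : ∀ x y, polar Q ((ω : QuadraticAlgebra F (g.c : F) 0) • x) y =
        polar Q x ((ω : QuadraticAlgebra F (g.c : F) 0) • y) := fun x y =>
      mul_left_cancel₀ g.c.ne_zero (by rw [hω, hω, ← SS.map_B' hg, h4, B_smul_left])
    have h5 := tw_finrank F V (g.c : F)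
    have := tw_finiteDimensional F V (g.c : F)
    have := tw_finite F (g.c : F)
    obtain ⟨x, hx⟩ := exists_Q_eq (nd_twQ hB h2 hQ) (by omega) 1
    have h6 := re_twQ hB h2 x
    have h7 := im_twQ hB h2 x
    rw [hx] at h6 h7
    have h8 : polar Q (g.γ x) x = 0 := by simpa [hω] using h7
    have h9 : Q x ≠ 0 := by rw [← h6]; exact one_ne_zero
    have h10 : Q (g.γ x) ≠ 0 := by rw [SS.map_Q' hg]; exact mul_ne_zero g.c.ne_zero h9
    refine ⟨refl Q x * refl Q (g.γ x), by simp [even_rk_mul_refl hQ _ h10, rk_refl hQ h9], ?_, ?_⟩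
    · rw [theta_mul_refl hQ _ h10, theta_refl hQ h9, SS.map_Q' hg, ← h6]
      simpa using chi_eq_neg_one_iff.2 h1
    · rw [map_mul, SS.actO_refl, SS.actO_refl, h4, refl_smul g.c.ne_zero, eq_comm,
        ← mul_inv_eq_iff_eq_mul, refl_conj, refl_of_perp h8]

omit h2 hk in
lemma isSquare_of_stab {d : SS Q} (hd : d ∈ GO Q) {U : Submodule F V} (hU : IsCompl U (perp Q U))
    (ho : Odd (finrank F U)) (h : ∀ u ∈ U, d.γ u ∈ U) : IsSquare (d.c : F) := by
  have h1 := det_sq_of_similarity (nd_restrict_iff.2 hU.inf_eq_bot)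
    ((d.lin hd).toLinearMap.restrict h) d.c fun v => SS.map_Q' hd v.1
  obtain ⟨j, hj⟩ := ho
  refine ⟨LinearMap.det ((d.lin hd).toLinearMap.restrict h) / d.c ^ j, ?_⟩
  have h0 := d.c.ne_zero
  field_simp
  rw [h1, hj]; ring

lemma isSquare_of_comm (hk4 : 4 ≤ k) (hke : Even k) {A : Type*} [Group A] {a : SS Q →* A}
    (ha : a.ker = ZS Q) {g d : SS Q} (hg : g ∈ GO Q) (hD : g ∉ DS Q) (hsq : g * g ∈ ZS Q)
    (hd : d ∈ GO Q) (hc : a d * a g = a g * a d) : IsSquare (d.c : F) := by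
  have : Nontrivial V := Module.nontrivial_of_finrank_pos (R := F) (by omega)
  rcases graph_cases h2 hQ hk hg hD hsq with ⟨h, t, rfl, hh, h1⟩ | ⟨-, h3, -⟩
  swap
  · exact absurd hke (Nat.not_even_iff_odd.2 h3)
  rw [map_mul, show a (SS.sc Q t) = 1 from ha.ge ⟨_, rfl⟩, mul_one] at hc
  have h3 := rk_add_fix h
  have h4 : Odd (finrank F (fixS h)) := by
    rw [Nat.not_even_iff_odd] at h1
    obtain ⟨j, hj⟩ := h1
    exact ⟨k - j - 1, by omega⟩
  obtain ⟨l, rfl | rfl, h5⟩ := comm_sign ha (ofO_mem_GO h) hd (ν := 1)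
    (fun x => (invol_apply hh x).trans (one_smul _ _).symm) hc
  · exact isSquare_of_stab hQ hd (isCompl_fixS h2 hh hQ) h4 fun u hu => by
      have := h5 u
      rw [SS.ofO_apply, mem_fixS.1 hu, one_smul] at this
      exact mem_fixS.2 this.symm
  · exfalso
    have h6 : ∀ {U W : Submodule F V}, (∀ u ∈ U, d.γ u ∈ W) → finrank F U ≤ finrank F W :=
      fun {U W} h6 => LinearMap.finrank_le_finrank_of_injective
        (f := (d.lin hd).toLinearMap.restrict h6) fun x y h7 =>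
          Subtype.ext (d.γ.injective (congrArg Subtype.val h7))
    have h7 := h6 (U := fixS h) (W := movS h) fun u hu => by
      have := h5 u
      rw [SS.ofO_apply, mem_fixS.1 hu, neg_one_smul] at this
      exact (mem_movS_iff h2 hh).2 (neg_eq_iff_eq_neg.1 this.symm)
    have h8 := h6 (U := movS h) (W := fixS h) fun u hu => by
      have := h5 u
      rw [SS.ofO_apply, (mem_movS_iff h2 hh).1 hu, neg_one_smul, map_neg, neg_inj] at this
      exact mem_fixS.2 this.symm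
    rw [← rk] at h7 h8
    exact h1 (by rwa [show rk h = k by omega])

theorem split_graph (hk4 : 4 ≤ k) {A : Type*} [Group A] {a : SS Q →* A} (ha : a.ker = ZS Q)
    {g : SS Q} (hg : g ∈ GO Q) (hD : g ∉ DS Q) (hsq : g * g ∈ ZS Q) :
    (Cfsg.splitClassCount ((DS Q).map a) ((KS Q).map a) (a g) = 1 ∨
      Cfsg.splitClassCount ((DS Q).map a) ((KS Q).map a) (a g) = 2) ∧
    (disc Q = 1 ∨ Even k → Cfsg.splitClassCount ((DS Q).map a) ((KS Q).map a) (a g) = 2) := by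
  have hE := nonExc_of_two hQ h2
  have hev : Even (finrank F V) := ⟨k, by omega⟩
  obtain ⟨s, h1, h3, h4⟩ := exists_z_comm h2 hQ hk hk4 hg hD hsq
  have hz : zO Q ∈ (DS Q ⊓ (centralizer {a g}).comap a).map (piO Q) :=
    ⟨_, ⟨(ofO_mem_DS_iff hQ hE).2 h1, mem_centralizer_singleton_iff.2 (by
      have := SS.ofO_actO g s
      rw [h4, eq_mul_inv_iff_mul_eq] at this
      rw [← map_mul, this, map_mul])⟩, piO_eq_z hQ hE h1 h3⟩
  have key : (∀ d ∈ DS Q, a d * a g = a g * a d → chi (d.c : F) = 1) →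
      Cfsg.splitClassCount ((DS Q).map a) ((KS Q).map a) (a g) = 2 := fun h => by
    have h5 : (DS Q ⊓ (centralizer {a g}).comap a).map (piO Q) = zpowers (zO Q) := by
      refine le_antisymm ?_ (zpowers_le.2 hz)
      rintro _ ⟨d, ⟨h5, h6⟩, rfl⟩
      rcases piO_of_DS_sq hQ hE hev h5 (h d h5 (mem_centralizer_singleton_iff.1 h6)) with h7 | h7
      · rw [h7]; exact one_mem _
      · rw [h7]; exact mem_zpowers _
    have h6 := relIndex_mul_relIndex ⊥ _ _ bot_le (zpowers_le.2 (zO_mem_DS hQ hE))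
    rw [relIndex_bot_left, relIndex_bot_left, card_DS_map h2 hQ hk (by omega), Nat.card_zpowers] at h6
    rw [split_eq a (KS_le_DS hQ hE hev), h5]
    split_ifs at h6 with hd
    · rw [orderOf_eq_two' (zO_mul_self hQ hE) (zO_ne_one h2 hQ hk (by omega) hd)] at h6
      omega
    · rw [zO_eq_one h2 hQ hk (by omega) ((disc_dichotomy hQ).resolve_left hd), orderOf_one] at h6
      rw [zO_eq_one h2 hQ hk (by omega) ((disc_dichotomy hQ).resolve_left hd)]
      omega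
  refine ⟨?_, fun h => key fun d hd hc => ?_⟩
  · by_cases h : ∀ d ∈ DS Q, a d * a g = a g * a d → chi (d.c : F) = 1
    · exact Or.inr (key h)
    push Not at h
    obtain ⟨d, h5, h6, h7⟩ := h
    rw [split_eq a (KS_le_DS hQ hE hev)]
    exact Or.inl (relIndex_eq_one.2 (DS_map_le hQ hE hev hz h5 (chi_unit_of_ne h7)
      ⟨d, ⟨h5, mem_centralizer_singleton_iff.2 h6⟩, rfl⟩))
  rcases h with h | h
  swap
  · exact (chi_eq_one_iff d.c.ne_zero).2
      (isSquare_of_comm h2 hQ hk hk4 h ha hg hD hsq (DS_le_GO hd) hc)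
  by_contra h5
  replace h5 := chi_unit_of_ne h5
  obtain ⟨v, hv⟩ := exists_Q_ne_zero hQ (by omega)
  have h6 : piO Q d * piO Q g = piO Q g * piO Q d := by
    rw [← map_mul, ← map_mul, piO_eq_iff]
    refine (le_sup_right : ZS Q ≤ KS Q) (ha.le ?_)
    rw [MonoidHom.mem_ker, map_mul, map_inv, map_mul, map_mul, hc, inv_mul_cancel]
  have h7 : piO Q g * rO Q v ∈ (DS Q).map (piO Q) :=
    ⟨_, (mul_refl_mem_DS_iff hQ hE hev hg hv).2 hD, map_mul _ _ _⟩
  rw [DS_map_eq h2 hQ hk hd h5] at h7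
  have h8 : zpowers (zO Q) ⊔ zpowers (piO Q d) ≤ centralizer {piO Q d} := sup_le
    (zpowers_le.2 (mem_centralizer_singleton_iff.2 (zO_comm hQ hE _)))
    (zpowers_le.2 (mem_centralizer_singleton_iff.2 rfl))
  have h9 := mem_centralizer_singleton_iff.1 (h8 h7)
  rw [← mul_assoc, h6, mul_assoc, mul_assoc, mul_right_inj, eq_comm, ← mul_inv_eq_iff_eq_mul,
    conj_rO_of_nsq hQ hE h5 hv, mul_eq_left] at h9
  exact zO_ne_one h2 hQ hk (by omega) h h9

end Cfsg.Agent.H7
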