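import Cfsg.Agent.H7.Grp

/-!
Homomorphisms from `S₃` and `S₄` given by generators and relations.
-/

set_option autoImplicit false

namespace Cfsg.Agent.H7

open Subgroup Equiv

variable {G H : Type*} [Group G] [Group H]

lemma exists_hom_of_graph (P : Subgroup (H × G)) (h1 : ∀ x ∈ P, x.1 = 1 → x.2 = 1)
    (h2 : ∀ h, ∃ x ∈ P, x.1 = h) : ∃ ψ : H →* G, ∀ x ∈ P, ψ x.1 = x.2 := by
  let e : P ≃* H := MulEquiv.ofBijective ((MonoidHom.fst H G).comp P.subtype)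
    ⟨(injective_iff_map_eq_one _).2 fun x hx => Subtype.ext (Prod.ext hx (h1 _ x.2 hx)),
      fun h => let ⟨x, hx, e⟩ := h2 h; ⟨⟨x, hx⟩, e⟩⟩
  refine ⟨((MonoidHom.snd H G).comp P.subtype).comp e.symm.toMonoidHom, fun x hx => ?_⟩
  have : e.symm x.1 = ⟨x, hx⟩ := (MulEquiv.symm_apply_eq _).2 rfl
  change (e.symm x.1).1.2 = _
  rw [this]

/-- normal forms -/
def nf4 (z t r : G) (i : Fin 4) (j : Fin 6) : G :=
  ![1, z, t * z * t⁻¹, t * z * t⁻¹ * z] i * ![1, t, t * t, r, t * r, t * t * r] j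

lemma nf4_mem {z t r : G} (i : Fin 4) (j : Fin 6) : nf4 z t r i j ∈ closure {z, t, r} := by
  have hz : z ∈ closure {z, t, r} := subset_closure (by simp)
  have ht : t ∈ closure {z, t, r} := subset_closure (by simp)
  have hr : r ∈ closure {z, t, r} := subset_closure (by simp)
  refine mul_mem ?_ ?_
  · fin_cases i
    exacts [one_mem _, hz, mul_mem (mul_mem ht hz) (inv_mem ht),
      mul_mem (mul_mem (mul_mem ht hz) (inv_mem ht)) hz]
  · fin_cases j <;> simp [mul_mem, one_mem, hr, ht]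

lemma nf4_map (f : G →* H) (z t r : G) (i : Fin 4) (j : Fin 6) :
    f (nf4 z t r i j) = nf4 (f z) (f t) (f r) i j := by
  rw [nf4, nf4, map_mul]
  congr 1
  · fin_cases i <;> simp
  · fin_cases j <;> simp

structure Rel4 (z t r : G) : Prop where
  zz : z * z = 1
  ttt : t * t * t = 1
  rr : r * r = 1
  zr : r * z = z * r
  rt : r * t = t * t * r
  zd : z * (t * z * t⁻¹) = t * z * t⁻¹ * z
  td : t * (t * z * t⁻¹) * t⁻¹ = t * z * t⁻¹ * z

lemma Rel4.exists_nf {z t r : G} (h : Rel4 z t r) {g : G} (hg : g ∈ closure {z, t, r}) :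
    ∃ i j, g = nf4 z t r i j := by
  obtain ⟨zz, ttt, rr, zr, rt, zd, td⟩ := h
  have ti : t⁻¹ = t * t := inv_eq_of_mul_eq_one_left ttt
  have ri : r⁻¹ = r := inv_eq_of_mul_eq_one_left rr
  have zi : z⁻¹ = z := inv_eq_of_mul_eq_one_left zz
  have rd : r * (t * z * t⁻¹) * r⁻¹ = t * z * t⁻¹ * z := by
    have h1 : r * t * r⁻¹ = t * t := by rw [rt, mul_inv_cancel_right]
    have h2 : r * z * r⁻¹ = z := by rw [zr, mul_inv_cancel_right]
    calc _ = (r * t * r⁻¹) * (r * z * r⁻¹) * (r * t * r⁻¹)⁻¹ := by group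
      _ = _ := by rw [h1, h2, ← td]; group
  have dd : (t * z * t⁻¹) * (t * z * t⁻¹) = 1 := by
    calc _ = t * (z * z) * t⁻¹ := by group
      _ = 1 := by rw [zz]; group
  set d := t * z * t⁻¹ with hd
  have hN : ∀ i : Fin 4, (∃ i' : Fin 4, z * ![1, z, d, d * z] i = ![1, z, d, d * z] i') ∧
      (∃ i' : Fin 4, t * ![1, z, d, d * z] i * t⁻¹ = ![1, z, d, d * z] i') ∧
      (∃ i' : Fin 4, r * ![1, z, d, d * z] i * r⁻¹ = ![1, z, d, d * z] i') := fun i => by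
    fin_cases i
    · exact ⟨⟨1, by simp⟩, ⟨0, by simp⟩, 0, by simp⟩
    · exact ⟨⟨0, zz⟩, ⟨2, rfl⟩, 1, by simp [zr]⟩
    · exact ⟨⟨3, zd⟩, ⟨3, td⟩, 3, rd⟩
    · refine ⟨⟨2, ?_⟩, ⟨1, ?_⟩, 2, ?_⟩
      · change z * (d * z) = d
        rw [← mul_assoc, zd, mul_assoc, zz, mul_one]
      · calc t * (d * z) * t⁻¹ = (t * d * t⁻¹) * (t * z * t⁻¹) := by group
          _ = z := by rw [td, ← hd, mul_assoc, zd, ← mul_assoc, dd, one_mul]
      · calc r * (d * z) * r⁻¹ = (r * d * r⁻¹) * (r * z * r⁻¹) := by group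
          _ = d := by rw [rd, zr, mul_inv_cancel_right, mul_assoc, zz, mul_one]
  have hK : ∀ j : Fin 6, (∃ j' : Fin 6, t * ![1, t, t * t, r, t * r, t * t * r] j =
        ![1, t, t * t, r, t * r, t * t * r] j') ∧
      ∃ j' : Fin 6, r * ![1, t, t * t, r, t * r, t * t * r] j =
        ![1, t, t * t, r, t * r, t * t * r] j' := fun j => by
    have rtt : r * (t * t) = t * r := by
      rw [← mul_assoc, rt, mul_assoc, rt, ← mul_assoc, ← mul_assoc, ttt, one_mul]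
    fin_cases j
    · exact ⟨⟨1, by simp⟩, 3, by simp⟩
    · exact ⟨⟨2, rfl⟩, 5, rt⟩
    · exact ⟨⟨0, (mul_assoc _ _ _).symm.trans ttt⟩, 4, rtt⟩
    · exact ⟨⟨4, rfl⟩, 0, rr⟩
    · refine ⟨⟨5, (mul_assoc _ _ _).symm⟩, 2, ?_⟩
      change r * (t * r) = t * t
      rw [← mul_assoc, rt, mul_assoc, rr, mul_one]
    · refine ⟨⟨3, ?_⟩, 1, ?_⟩
      · change t * (t * t * r) = r
        rw [← mul_assoc, ← mul_assoc, ttt, one_mul]
      · change r * (t * t * r) = t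
        rw [← mul_assoc, rtt, mul_assoc, rr, mul_one]
  have key : ∀ x ∈ ({z, t, r} : Set G), ∀ y, (∃ i j, y = nf4 z t r i j) →
      ∃ i j, x * y = nf4 z t r i j := by
    rintro x hx _ ⟨i, j, rfl⟩
    obtain ⟨⟨i₁, a1⟩, ⟨i₂, a2⟩, i₃, a3⟩ := hN i
    obtain ⟨⟨j₁, b1⟩, j₂, b2⟩ := hK j
    rcases hx with rfl | rfl | rfl
    · exact ⟨i₁, j, by rw [nf4, nf4, ← hd, ← a1]; exact (mul_assoc _ _ _).symm⟩
    · exact ⟨i₂, j₁, by rw [nf4, nf4, ← hd, ← a2, ← b1]; group⟩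
    · exact ⟨i₃, j₂, by rw [nf4, nf4, ← hd, ← a3, ← b2]; group⟩
  induction hg using closure_induction_left with
  | one => exact ⟨0, 0, by simp [nf4]⟩
  | mul_left x hx y _ ih => exact key x hx y ih
  | inv_mul_cancel x hx y _ ih =>
    rcases hx with rfl | rfl | rfl
    · rw [zi]; exact key _ (by simp) _ ih
    · rw [ti, mul_assoc]; exact key _ (by simp) _ (key _ (by simp) _ ih)
    · rw [ri]; exact key _ (by simp) _ ih

lemma Rel4.prod {z t r : G} {z' t' r' : H} (h' : Rel4 z' t' r') (h : Rel4 z t r) :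
    Rel4 (z', z) (t', t) (r', r) :=
  ⟨Prod.ext h'.zz h.zz, Prod.ext h'.ttt h.ttt, Prod.ext h'.rr h.rr, Prod.ext h'.zr h.zr,
    Prod.ext h'.rt h.rt, Prod.ext h'.zd h.zd, Prod.ext h'.td h.td⟩

lemma Rel4.exists_hom {z t r : G} {z' t' r' : H} (h' : Rel4 z' t' r') (h : Rel4 z t r)
    (h1 : ∀ i j, nf4 z' t' r' i j = 1 → nf4 z t r i j = 1) (h2 : ∀ x, ∃ i j, nf4 z' t' r' i j = x) :
    ∃ ψ : H →* G, ψ z' = z ∧ ψ t' = t ∧ ψ r' = r := by
  obtain ⟨ψ, hψ⟩ := exists_hom_of_graph (closure {(z', z), (t', t), (r', r)}) (fun x hx h3 => by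
    obtain ⟨i, j, rfl⟩ := (h'.prod h).exists_nf hx
    exact (nf4_map (MonoidHom.snd H G) _ _ _ i j).trans
      (h1 i j ((nf4_map (MonoidHom.fst H G) _ _ _ i j).symm.trans h3))) fun x => by
    obtain ⟨i, j, rfl⟩ := h2 x
    exact ⟨_, nf4_mem i j, nf4_map (MonoidHom.fst H G) _ _ _ i j⟩
  exact ⟨ψ, hψ (z', z) (subset_closure (by simp)), hψ (t', t) (subset_closure (by simp)),
    hψ (r', r) (subset_closure (by simp))⟩

lemma nonempty_equiv_prod_of_hom (ψ : H →* G) (hψ : Function.Injective ψ)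
    (hc : ∀ x : H, (∀ y, y * x = x * y) → x = 1) {φ : G} {f : ℕ} (ho : orderOf φ = f)
    (hcomm : ∀ x ∈ ψ.range, Commute x φ) (htop : ψ.range ⊔ zpowers φ = ⊤) :
    Nonempty (G ≃* H × Multiplicative (ZMod f)) := by
  have h1 : ∀ x ∈ ψ.range, ∀ y ∈ zpowers φ, Commute x y := by
    rintro x hx _ ⟨k, rfl⟩
    exact (hcomm x hx).zpow_right k
  obtain ⟨e⟩ := nonempty_sup_equiv_prod h1 (disjoint_def.2 fun {x} hx hx' => by
    obtain ⟨x, rfl⟩ := hx
    rw [hc x fun y => hψ (by rw [map_mul, map_mul]; exact h1 _ ⟨y, rfl⟩ _ hx'), map_one])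
  obtain ⟨e'⟩ := nonempty_zpowers_equiv ho
  exact ⟨(topEquiv.symm.trans (MulEquiv.subgroupCongr htop.symm)).trans
    (e.trans ((MonoidHom.ofInjective hψ).symm.prodCongr e'))⟩

lemma commute_of_mem_range {z' t' r' : H} (h2 : ∀ x, ∃ i j, nf4 z' t' r' i j = x) (ψ : H →* G)
    {φ : G} (hz : Commute (ψ z') φ) (ht : Commute (ψ t') φ) (hr : Commute (ψ r') φ) :
    ∀ x ∈ ψ.range, Commute x φ := by
  rintro _ ⟨x, rfl⟩
  obtain ⟨i, j, rfl⟩ := h2 x
  have : closure {ψ z', ψ t', ψ r'} ≤ centralizer {φ} := (closure_le _).2 (by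
    rintro _ (rfl | rfl | rfl) <;> rw [SetLike.mem_coe, mem_centralizer_singleton_iff]
    exacts [hz, ht, hr])
  rw [nf4_map]
  exact mem_centralizer_singleton_iff.1 (this (nf4_mem i j))

theorem Rel4.equiv_S4 {z t r φ : G} (h : Rel4 z t r) (hz : z ≠ 1) {f : ℕ} (ho : orderOf φ = f)
    (h1 : Commute z φ) (h2 : Commute t φ) (h3 : Commute r φ)
    (htop : ∀ S : Subgroup G, z ∈ S → t ∈ S → r ∈ S → φ ∈ S → S = ⊤) :
    Nonempty (G ≃* Perm (Fin 4) × Multiplicative (ZMod f)) := by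
  have hs : ∀ x : Perm (Fin 4), ∃ i j,
    nf4 (swap 0 1 * swap 2 3) (swap 0 1 * swap 1 2) (swap 0 1) i j = x := by decide +kernel
  obtain ⟨ψ, a1, a2, a3⟩ := Rel4.exists_hom (z' := (swap 0 1 * swap 2 3 : Perm (Fin 4)))
    (t' := swap 0 1 * swap 1 2) (r' := swap 0 1)
    ⟨by decide, by decide, by decide, by decide, by decide, by decide, by decide⟩ h
    (fun i j hij => by
      obtain ⟨rfl, rfl⟩ : i = 0 ∧ j = 0 := by revert i j; decide +kernel
      simp [nf4]) hs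
  refine nonempty_equiv_prod_of_hom ψ ((injective_iff_map_eq_one _).2 fun x hx => ?_)
    (by decide +kernel) ho (commute_of_mem_range hs ψ (a1 ▸ h1) (a2 ▸ h2) (a3 ▸ h3))
    (htop _ (mem_sup_left ⟨_, a1⟩) (mem_sup_left ⟨_, a2⟩) (mem_sup_left ⟨_, a3⟩)
      (mem_sup_right (mem_zpowers φ)))
  by_contra h4
  obtain ⟨y, w, h5⟩ : ∃ y w, w * (x * y * x⁻¹ * y⁻¹) * w⁻¹ = swap 0 1 * swap 2 3 := by
    clear hx; revert x; decide +kernel
  apply hz
  rw [← a1, ← h5]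
  simp [hx]

theorem Rel4.equiv_S3 {t r φ : G} (h : Rel4 1 t r) (ht : t ≠ 1) {f : ℕ} (ho : orderOf φ = f)
    (h2 : Commute t φ) (h3 : Commute r φ)
    (htop : ∀ S : Subgroup G, t ∈ S → r ∈ S → φ ∈ S → S = ⊤) :
    Nonempty (G ≃* Perm (Fin 3) × Multiplicative (ZMod f)) := by
  have hs : ∀ x : Perm (Fin 3), ∃ i j, nf4 1 (swap 0 1 * swap 1 2) (swap 0 1) i j = x := by
    decide +kernel
  obtain ⟨ψ, a1, a2, a3⟩ := Rel4.exists_hom (z' := (1 : Perm (Fin 3)))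
    (t' := swap 0 1 * swap 1 2) (r' := swap 0 1)
    ⟨by decide, by decide, by decide, by decide, by decide, by decide, by decide⟩ h
    (fun i j hij => by
      obtain rfl : j = 0 := by revert i j; decide +kernel
      fin_cases i <;> simp [nf4]) hs
  refine nonempty_equiv_prod_of_hom ψ ((injective_iff_map_eq_one _).2 fun x hx => ?_)
    (by decide +kernel) ho (commute_of_mem_range hs ψ (a1 ▸ Commute.one_left φ) (a2 ▸ h2) (a3 ▸ h3))
    (htop _ (mem_sup_left ⟨_, a2⟩) (mem_sup_left ⟨_, a3⟩) (mem_sup_right (mem_zpowers φ)))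
  by_contra h4
  obtain ⟨y, w, h5⟩ : ∃ y w, w * (x * y * x⁻¹ * y⁻¹) * w⁻¹ = swap 0 1 * swap 1 2 := by
    clear hx; revert x; decide +kernel
  apply ht
  rw [← a2, ← h5]
  simp [hx]

end Cfsg.Agent.H7
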