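import Cfsg.Agent.H7.Tri
import Cfsg.Agent.H7.S4

/-!
The automorphism group of `PΩ₈⁺(q)`.
-/

set_option autoImplicit false

namespace Cfsg.Agent.H7

open QuadraticMap Module Subgroup

variable {F : Type*} [Field F] [Finite F]

local notation "Q8" => QP F 4

/-- the data of a triality automorphism -/
structure TriData {A : Type*} [Group A] (a : SS Q8 →* A) (τ : A) : Prop where
  conj : ∀ g₁ g₂ g₃, Tri g₁ g₂ g₃ → τ * a g₁ * τ⁻¹ = a g₂
  ttt : τ * τ * τ = 1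
  rt : a (r8 F) * τ = τ * τ * a (r8 F)
  nm : τ ∉ a.range
  top : ∀ S : Subgroup A, a.range ≤ S → τ ∈ S → S = ⊤

lemma TriData.comp {A B : Type*} [Group A] [Group B] {a : SS Q8 →* A} {τ : A} (h : TriData a τ)
    (e : A →* B) (he : Function.Surjective e) (hk : e.ker ≤ a.range) : TriData (e.comp a) (e τ) where
  conj g₁ g₂ g₃ hg := by simp [← h.conj g₁ g₂ g₃ hg]
  ttt := by rw [← map_mul, ← map_mul, h.ttt, map_one]
  rt := by simp only [MonoidHom.comp_apply, ← map_mul, h.rt]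
  nm := by
    rintro ⟨g, hg⟩
    have : (a g)⁻¹ * τ ∈ e.ker := by
      rw [MonoidHom.mem_ker, map_mul, map_inv, ← hg]; simp
    exact h.nm ((mul_mem_cancel_left (inv_mem (MonoidHom.mem_range.2 ⟨g, rfl⟩))).1 (hk this))
  top S h1 h2 := by
    have := h.top (S.comap e) (by rintro _ ⟨g, rfl⟩; exact h1 ⟨g, rfl⟩) h2
    rw [← map_comap_eq_self_of_surjective he S, this, ← MonoidHom.range_eq_map,
      MonoidHom.range_eq_top.2 he]

theorem exists_triData : ∃ τ, TriData (actP Q8) τ := by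
  obtain ⟨τ, h1, h2, h3, h4⟩ := exists_triality (F := F)
  have h : TriData (act Q8) τ :=
    ⟨h1, h2, h3, h4, fun S a b => eq_top_of_notMem (nd_QP 4) (by simp) a b h4⟩
  exact ⟨_, h.comp (MulAut.congr (pomEquiv Q8)).symm.toMonoidHom (MulEquiv.surjective _)
    fun x hx => (MulEquiv.map_eq_one_iff _).1 hx ▸ one_mem _⟩

namespace TriData

variable {A : Type*} [Group A]

lemma normal_DS {a : SS Q8 →* A} {τ : A} (h : TriData a τ) : ((DS Q8).map a).Normal := by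
  have h1 : ∀ x ∈ (DS Q8).map a, τ * x * τ⁻¹ ∈ (DS Q8).map a := by
    rintro _ ⟨g, hg, rfl⟩
    obtain ⟨g₂, g₃, h2⟩ := exists_tri_of_DS hg
    exact ⟨g₂, h2.mem_DS₂ (DS_le_GO hg), (h.conj _ _ _ h2).symm⟩
  refine normalizer_eq_top_iff.1 (h.top _ ?_ (mem_normalizer_iff.2 fun x => ⟨h1 x, fun hx => ?_⟩))
  · rintro _ ⟨g, rfl⟩
    refine mem_normalizer_iff.2 fun x => ⟨?_, fun hx => ?_⟩
    · rintro ⟨k, hk, rfl⟩
      exact ⟨_, instNormalDS.conj_mem k hk g, by simp⟩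
    · obtain ⟨k, hk, h2⟩ := hx
      exact ⟨_, instNormalDS.conj_mem k hk g⁻¹, by simp [h2, mul_assoc]⟩
  · have h2 : x = τ * (τ * (τ * x * τ⁻¹) * τ⁻¹) * τ⁻¹ := by
      calc x = (τ * τ * τ) * x * (τ * τ * τ)⁻¹ := by rw [h.ttt]; group
        _ = _ := by group
    rw [h2]
    exact h1 _ (h1 _ hx)

variable {ι : Ou (QP F 4) →* A} (hι : Function.Injective ι) {τ : A}
  (h : TriData (ι.comp (piO (QP F 4))) τ)
  {σ : F ≃+* F} (hσ : ∀ ρ, ρ ∈ zpowers σ) {f : ℕ} (hf : Nat.card (F ≃+* F) = f)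

include hι hσ hf in
lemma orderOf_std : orderOf (ι (piO Q8 (SS.std σ (std_QP 4 σ)))) = f := by
  have h1 : orderOf σ = f := hf ▸ orderOf_eq_card_of_forall_mem_zpowers hσ
  rw [orderOf_injective ι hι]
  refine Nat.dvd_antisymm (orderOf_dvd_of_pow_eq_one ?_) (h1 ▸ orderOf_map_dvd (sigO Q8) _)
  rw [← map_pow, SS.std_pow_eq_one (nd_QP 4) _ (h1 ▸ pow_orderOf_eq_one σ), map_one]

include h

lemma comm_std : Commute τ (ι (piO Q8 (SS.std σ (std_QP 4 σ)))) :=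
  mul_inv_eq_iff_eq_mul.1 (h.conj _ _ _ (tri_std σ))

omit h in
lemma comm_r : Commute (ι (rO Q8 e8)) (ι (piO Q8 (SS.std σ (std_QP 4 σ)))) :=
  Commute.map (mul_inv_eq_iff_eq_mul.1
    (conj_rO_of_sq (nd_QP 4) nonExc8 (g := SS.std σ (std_QP 4 σ)) (by simp) Q_e8_ne)).symm ι

include hσ in
lemma eq_top {S : Subgroup A} (h1 : (GO Q8).map (piO Q8) ≤ S.comap ι) (h2 : τ ∈ S)
    (h3 : ι (piO Q8 (SS.std σ (std_QP 4 σ))) ∈ S) : S = ⊤ := by
  refine h.top S ?_ h2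
  rintro _ ⟨g, rfl⟩
  have h4 := ker_sup_zpowers_eq_top (sigO Q8) (φ := piO Q8 (SS.std σ (std_QP 4 σ))) hσ
  rw [ker_sigO] at h4
  exact (h4 ▸ sup_le h1 (zpowers_le_of_mem h3) : ⊤ ≤ S.comap ι) (mem_top _)

include hι hσ hf

theorem equiv_two (h2 : (2 : F) = 0) :
    Nonempty (A ≃* Equiv.Perm (Fin 3) × Multiplicative (ZMod f)) :=
  Rel4.equiv_S3 (t := τ) (r := ι (rO Q8 e8))
    ⟨by simp, h.ttt, by rw [← map_mul, rO_mul_self, map_one], by simp, h.rt, by simp, by simp⟩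
    (fun h1 => h.nm (h1 ▸ one_mem _)) (orderOf_std hι hσ hf) h.comm_std comm_r
    fun S h3 h4 h5 => h.eq_top hσ
      (by rw [GO_map_of_two h2 (nd_QP 4) nonExc8 even8 Q_e8_ne]; exact zpowers_le_of_mem h4) h3 h5

theorem equiv_odd (h2 : (2 : F) ≠ 0) :
    Nonempty (A ≃* Equiv.Perm (Fin 4) × Multiplicative (ZMod f)) := by
  have hQ := nd_QP (F := F) 4
  obtain ⟨s, a1, a2⟩ := exists_theta_neg hQ nonExc8 h2 (by simp)
  obtain ⟨g₂, g₃, a3, a4, a5⟩ := exists_tri_of_even a1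
  rw [a2] at a4 a5
  have b1 : τ * ι (zO Q8) * τ⁻¹ = ι (piO Q8 g₂) := by
    rw [← piO_eq_z hQ nonExc8 a1 a2]; exact h.conj _ _ _ a3
  have b2 : τ * ι (piO Q8 g₂) * τ⁻¹ = ι (piO Q8 g₃) := h.conj _ _ _ a3.cyc
  have b3 : piO Q8 g₃ = piO Q8 g₂ * zO Q8 := by
    rcases piO_of_DS_sq hQ nonExc8 even8 (mul_mem (inv_mem (a3.mem_DS₂ rfl)) (a3.cyc.mem_DS₂ a3.1))
      (by rw [chi_c_mul, chi_c_inv, a4, a5]; simp) with b4 | b4
    · rw [map_mul, map_inv, inv_mul_eq_one] at b4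
      rw [← b4, ← b1, mul_left_inj, mul_right_inj, b1] at b2
      exact absurd (hι b2) (piO_ne_z_of_nsq hQ nonExc8 a4)
    · rw [← b4, map_mul, map_inv, mul_inv_cancel_left]
  refine Rel4.equiv_S4 (z := ι (zO Q8)) (t := τ) (r := ι (rO Q8 e8))
    ⟨by rw [← map_mul, zO_mul_self hQ nonExc8, map_one], h.ttt,
      by rw [← map_mul, rO_mul_self, map_one], ((zO_comm hQ nonExc8 _).map ι).symm, h.rt,
      by rw [b1]; exact (zO_comm hQ nonExc8 _).map ι, by rw [b1, b2, b3, map_mul]⟩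
    (fun h1 => ?_) (orderOf_std hι hσ hf) ((zO_comm hQ nonExc8 _).map ι) h.comm_std comm_r
    fun S h3 h4 h5 h6 => h.eq_top hσ (GO_map_le hQ nonExc8 even8
      (DS_map_le hQ nonExc8 even8 h3 (a3.mem_DS₂ rfl) a4 ?_) Q_e8_ne h5) h4 h6
  · rw [h1, mul_one, mul_inv_cancel, ← map_one ι] at b1
    exact piO_ne_one_of_nsq a4 (hι b1).symm
  · rw [mem_comap, ← b1]
    exact mul_mem (mul_mem h4 h3) (inv_mem h4)

end TriData

theorem exists_out_triData : ∃ (ι : Ou Q8 →* Cfsg.Out (Cfsg.POmega F ⇑Q8)) (τ : _),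
    Function.Injective ι ∧ TriData (ι.comp (piO Q8)) τ := by
  obtain ⟨τ, h⟩ := exists_triData (F := F)
  have h1 := comap_inn (nd_QP (F := F) 4) (by simp)
  refine ⟨QuotientGroup.map _ _ (actP Q8) h1.ge, _, (injective_iff_map_eq_one _).2 fun x hx => ?_,
    h.comp (QuotientGroup.mk' _) (QuotientGroup.mk'_surjective _) ?_⟩
  · obtain ⟨g, rfl⟩ := piO_surjective x
    exact piO_eq_one_iff.2 (h1.le ((QuotientGroup.eq_one_iff (actP Q8 g)).1 hx))
  · rw [QuotientGroup.ker_mk', inn_eq_KS]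
    exact map_le_range _ _

theorem normal_DS_QP {m : ℕ} (hm : 4 ≤ m) : ((DS (QP F m)).map (actP (QP F m))).Normal := by
  rcases hm.eq_or_lt with rfl | hm
  · obtain ⟨τ, h⟩ := exists_triData (F := F)
    exact h.normal_DS
  · exact instNormalDS.map _ (actP_surjective_QP hm)

end Cfsg.Agent.H7
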