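import Cfsg.Agent.H7.Oct
import Cfsg.Agent.H7.OutB
import Cfsg.Agent.H7.TriA

/-!
Triality for `PΩ₈⁺(q)`.
-/

set_option autoImplicit false

namespace Cfsg.Agent.H7

open QuadraticMap Module

variable {F : Type*} [Field F]

local notation "Q8" => QP F 4

/-- the trilinear form -/
def t3 (x y z : V8 F) : F := polar Q8 (st x y) z

lemma t3_cyc (x y z : V8 F) : t3 x y z = t3 y z x := st_cyc x y z

lemma t3_refl {a : V8 F} (ha : Q8 a ≠ 0) (x y z : V8 F) :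
    t3 ((refl Q8 a).1 x) (st y a) (st a z) = -Q8 a * t3 y x z := by
  have h1 := eq_sub_of_add_eq (st_left' ((refl Q8 a).1 x) a y)
  have h2 : polar Q8 ((refl Q8 a).1 x) a = -polar Q8 x a := by
    rw [OG.B_left, refl_inv, refl_self ha, polar_neg_right]
  rw [t3, h1, polar_sub_left, B_st_left, h2, refl_apply, map_sub, map_smul, polar_sub_left,
    B_smul_left, B_smul_left, st_cyc y a z, B_comm _ y, t3]
  field_simp
  ring

/-- the reflection in the para-unit -/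
abbrev r8 (F : Type*) [Field F] : SS (QP F 4) := SS.ofO _ (refl _ e8)

lemma r8_mul_self : r8 F * r8 F = 1 := by rw [← map_mul, refl_mul_self, map_one]

lemma Q_e8_ne : Q8 e8 ≠ 0 := by rw [Q_e8]; exact one_ne_zero

lemma t3_r8 (x y z : V8 F) : t3 ((r8 F).γ x) ((r8 F).γ y) ((r8 F).γ z) = -t3 x z y := by
  have := t3_refl Q_e8_ne x y z
  rw [st_e8, e8_st, Q_e8, t3_cyc y] at this
  simpa [t3] using this

/-- related triples -/
def Tri (g₁ g₂ g₃ : SS Q8) : Prop := g₂.σ = g₁.σ ∧ g₃.σ = g₁.σ ∧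
  ∃ l : F, l ≠ 0 ∧ ∀ x y z, t3 (g₁.γ x) (g₂.γ y) (g₃.γ z) = l * g₁.σ (t3 x y z)

variable {g₁ g₂ g₃ h₁ h₂ h₃ : SS (QP F 4)}

lemma Tri.one : Tri (1 : SS Q8) 1 1 := ⟨rfl, rfl, 1, one_ne_zero, fun x y z => by simp⟩

lemma Tri.mul (g : Tri g₁ g₂ g₃) (h : Tri h₁ h₂ h₃) : Tri (g₁ * h₁) (g₂ * h₂) (g₃ * h₃) := by
  obtain ⟨a1, a2, l, hl, a3⟩ := g
  obtain ⟨b1, b2, k, hk, b3⟩ := h
  exact ⟨by simp [a1, b1], by simp [a2, b2], l * g₁.σ k, by simp [hl, hk], fun x y z => by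
    simp [a3, b3, mul_assoc]⟩

lemma Tri.inv (g : Tri g₁ g₂ g₃) : Tri g₁⁻¹ g₂⁻¹ g₃⁻¹ := by
  obtain ⟨a1, a2, l, hl, a3⟩ := g
  refine ⟨by simp [a1], by simp [a2], g₁.σ⁻¹ l⁻¹, by simp [hl], fun x y z => ?_⟩
  have := a3 (g₁⁻¹.γ x) (g₂⁻¹.γ y) (g₃⁻¹.γ z)
  simp only [SS.apply_inv] at this
  rw [this, SS.inv_σ, ← map_mul, inv_mul_cancel_left₀ hl]
  exact (g₁.σ.symm_apply_apply _).symm

lemma Tri.cyc (g : Tri g₁ g₂ g₃) : Tri g₂ g₃ g₁ := by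
  obtain ⟨a1, a2, l, hl, a3⟩ := g
  exact ⟨a2.trans a1.symm, a1.symm, l, hl, fun x y z => by
    rw [← t3_cyc, a3, a1, t3_cyc z]⟩

lemma Tri.swap (g : Tri g₁ g₂ g₃) :
    Tri (r8 F * g₁ * r8 F) (r8 F * g₃ * r8 F) (r8 F * g₂ * r8 F) := by
  obtain ⟨a1, a2, l, hl, a3⟩ := g
  refine ⟨by simp [a2], by simp [a1], l, hl, fun x y z => ?_⟩
  simp only [SS.mul_apply]
  rw [t3_r8, a3, t3_r8]
  simp

lemma tri_sc (a b c : Fˣ) : Tri (SS.sc Q8 a) (SS.sc Q8 b) (SS.sc Q8 c) :=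
  ⟨rfl, rfl, a * b * c, by simp, fun x y z => by simp [t3]; ring⟩

lemma tri_std (σ : F ≃+* F) :
    Tri (SS.std σ (std_QP 4 σ)) (SS.std σ (std_QP 4 σ)) (SS.std σ (std_QP 4 σ)) :=
  ⟨rfl, rfl, 1, one_ne_zero, fun x y z => by
    have := (SS.std σ (std_QP 4 σ)).map_B (st x y) z
    simpa [t3, SS.std_apply, st_map] using this⟩

/-- left multiplication -/
noncomputable def lL (a : V8 F) (ha : Q8 a ≠ 0) : SS Q8 :=
  SS.ofLin (LinearEquiv.ofInjectiveEndo (st a)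
    ((injective_iff_map_eq_zero _).2 fun _ => eq_zero_of_st_left ha)) (Units.mk0 _ ha) (Q_st a)

/-- right multiplication -/
noncomputable def lR (a : V8 F) (ha : Q8 a ≠ 0) : SS Q8 :=
  SS.ofLin (LinearEquiv.ofInjectiveEndo (st.flip a)
    ((injective_iff_map_eq_zero _).2 fun _ => eq_zero_of_st_right ha)) (Units.mk0 _ ha)
    (fun v => (Q_st v a).trans (mul_comm _ _))

lemma lL_c (a : V8 F) (ha : Q8 a ≠ 0) : ((lL a ha).c : F) = Q8 a := rfl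

lemma lR_c (a : V8 F) (ha : Q8 a ≠ 0) : ((lR a ha).c : F) = Q8 a := rfl

lemma tri_refl {a : V8 F} (ha : Q8 a ≠ 0) :
    Tri (SS.ofO Q8 (refl Q8 a) * r8 F) (lR a ha * r8 F) (lL a ha * r8 F) :=
  ⟨rfl, rfl, Q8 a, ha, fun x y z => by
    change t3 ((refl Q8 a).1 ((r8 F).γ x)) (st ((r8 F).γ y) a) (st a ((r8 F).γ z)) = _ * t3 x y z
    rw [t3_refl ha, t3_r8, ← t3_cyc x]; ring⟩

lemma not_tri_r8 : ¬ Tri (r8 F) g₂ g₃ := by
  rintro ⟨-, -, l, -, h⟩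
  have h1 : ∀ y z, st (g₂.γ ((r8 F).γ y)) (g₃.γ ((r8 F).γ z)) = -l • st z y := fun y z =>
    (nd_QP 4).ext fun x => by
      have := h ((r8 F).γ x) ((r8 F).γ y) ((r8 F).γ z)
      rw [t3_r8, ← SS.mul_apply, r8_mul_self, SS.one_apply, t3_cyc, t3_cyc x] at this
      simpa [t3] using this
  have h2 : (Pi.single (.inl 0) 1 : V8 F) ≠ 0 := by simp
  refine (g₂ * r8 F).apply_ne_zero h2 (eq_zero_of_st_st h2 fun w => ?_)
  obtain ⟨w, rfl⟩ := (g₃ * r8 F).γ.surjective w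
  rw [SS.mul_apply, SS.mul_apply, h1, map_smul, st_left, (hypSys_QP 4).Qe, zero_smul, smul_zero]

variable [Finite F]

lemma Tri.mem_ZS (g : Tri g₁ g₂ g₃) (h : g₁ ∈ ZS Q8) : g₂ ∈ ZS Q8 := by
  obtain ⟨c, rfl⟩ := h
  obtain ⟨-, -, l, -, h⟩ := (tri_sc c⁻¹ 1 1).mul g
  simp only [← map_mul, inv_mul_cancel, map_one, one_mul] at h
  have h1 : ∀ y z, st (g₂.γ y) (g₃.γ z) = l • st y z := fun y z =>
    (nd_QP 4).ext fun x => by
      have := h x y z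
      rw [t3_cyc, t3_cyc x] at this
      simpa [t3] using this
  obtain ⟨k, hk⟩ := exists_sc_of_fix (nd_QP 4) (by simp) g₂ fun u hu => by
    by_cases h0 : u = 0
    · simp [h0]
    refine mem_span_of_st h0 fun w => ?_
    obtain ⟨w, rfl⟩ := g₃.γ.surjective w
    rw [h1, map_smul, LinearMap.smul_apply, st_right, hu, zero_smul, smul_zero]
  exact ⟨k, hk.symm⟩

lemma nonExc8 : NonExc Q8 := nonExc_of_finrank (nd_QP 4) (by simp)

lemma even8 : Even (finrank F (V8 F)) := ⟨4, by simp⟩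

lemma exists_tri_of_even {h : OG Q8} (he : Even (rk h)) : ∃ g₂ g₃, Tri (SS.ofO Q8 h) g₂ g₃ ∧
    chi (g₂.c : F) = theta h ∧ chi (g₃.c : F) = theta h := by
  let P : OG Q8 → Prop := fun h => ∃ g₂ g₃, Tri (SS.ofO Q8 h) g₂ g₃ ∧
    chi (g₂.c : F) = theta h ∧ chi (g₃.c : F) = theta h
  have hm : ∀ a b, P a → P b → P (a * b) := by
    rintro a b ⟨a2, a3, a4, a5, a6⟩ ⟨b2, b3, b4, b5, b6⟩
    exact ⟨_, _, map_mul (SS.ofO Q8) a b ▸ a4.mul b4,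
      by rw [chi_c_mul, theta_mul (nd_QP 4) nonExc8, a5, b5],
      by rw [chi_c_mul, theta_mul (nd_QP 4) nonExc8, a6, b6]⟩
  have hi : ∀ a, P a → P a⁻¹ := by
    rintro a ⟨a2, a3, a4, a5, a6⟩
    exact ⟨_, _, map_inv (SS.ofO Q8) a ▸ a4.inv,
      by rw [chi_c_inv, theta_inv (nd_QP 4) nonExc8, a5],
      by rw [chi_c_inv, theta_inv (nd_QP 4) nonExc8, a6]⟩
  have hr : ∀ a, Q8 a ≠ 0 → P (refl Q8 a * refl Q8 e8) := fun a ha => by
    have h1 : theta (refl Q8 a * refl Q8 e8) = chi (Q8 a) := by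
      rw [theta_mul_refl (nd_QP 4) _ Q_e8_ne, theta_refl (nd_QP 4) ha, Q_e8, map_one, mul_one]
    exact ⟨_, _, map_mul (SS.ofO Q8) _ _ ▸ tri_refl ha, by simp [h1, lR_c], by simp [h1, lL_c]⟩
  refine (refl_induction (nd_QP 4) nonExc8
    (P := fun h => (Even (rk h) → P h) ∧ (¬ Even (rk h) → P (h * refl Q8 e8))) h
    ⟨fun _ => ⟨1, 1, (map_one (SS.ofO Q8)).symm ▸ Tri.one, by simp [theta_one],
      by simp [theta_one]⟩, fun h => absurd (by simp [rk_one]) h⟩ fun g v hv ih => ?_).1 he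
  rw [even_rk_mul_refl (nd_QP 4) _ hv]
  refine ⟨fun h => ?_, fun h => ?_⟩
  · simpa [mul_assoc, ← mul_assoc (refl Q8 e8)] using hm _ _ (ih.2 h) (hi _ (hr v hv))
  · exact mul_assoc g _ _ ▸ hm _ _ (ih.1 (not_not.1 h)) (hr v hv)

lemma exists_tri_delta (μ : Fˣ) : ∃ g₁ g₂ g₃, Tri g₁ g₂ g₃ ∧ g₁ ∈ DS Q8 ∧ g₁.c = μ := by
  by_cases h2 : (2 : F) = 0
  · have : CharP F 2 := CharTwo.of_one_ne_zero_of_two_eq_zero one_ne_zero h2
    obtain ⟨l, hl⟩ := isSquare_of_charTwo' (μ : F)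
    have hl0 : l ≠ 0 := by rintro rfl; simp at hl
    exact ⟨_, _, _, tri_sc (Units.mk0 l hl0) 1 1, sc_mem_DS even8 _, by ext; simp [hl, pow_two]⟩
  have h1 : Q8 (Pi.single (.inl 0) μ + Pi.single (.inr 0) 1) = μ := by
    simp [QP_apply, Fin.sum_univ_four]
  have ha : Q8 (Pi.single (.inl 0) μ + Pi.single (.inr 0) 1) ≠ 0 := by rw [h1]; exact μ.ne_zero
  have hc : (r8 F * (lL _ ha * r8 F) * r8 F).c = μ := by ext; simp [lL_c, h1]
  refine ⟨_, _, _, (tri_refl ha).swap.cyc, (mem_DS h2).2 ⟨rfl, ?_⟩, hc⟩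
  rw [hc, SS.det_eq (a := -Matrix.toLin' (Matrix.diagonal
    (Sum.elim ![(μ : F), 1, 1, 1] ![1, μ, μ, μ]))) rfl fun x => ?_]
  · rw [← neg_one_smul F, LinearMap.det_smul, LinearMap.det_toLin', Matrix.det_diagonal]
    simp [Fin.prod_univ_four]; ring
  · rw [LinearMap.neg_apply, ← e8_st_st, e8_st, neg_neg, mul_assoc, mul_assoc, r8_mul_self, mul_one]
    rfl

lemma exists_tri_of_DS (hg : g₁ ∈ DS Q8) : ∃ g₂ g₃, Tri g₁ g₂ g₃ := by
  obtain ⟨d₁, d₂, d₃, hd, h1, h2⟩ := exists_tri_delta (F := F) g₁.c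
  obtain ⟨h, l, h3, h4⟩ := exists_of_DS_sq (nd_QP 4) nonExc8 even8 (mul_mem (inv_mem h1) hg)
    (by rw [chi_c_mul, chi_c_inv, h2, chi_mul_self g₁.c.ne_zero])
  obtain ⟨k₂, k₃, h5, -⟩ := exists_tri_of_even h3
  have := hd.mul (h5.mul (tri_sc l 1 1))
  rw [← h4, mul_inv_cancel_left] at this
  exact ⟨_, _, this⟩

lemma Tri.mem_DS (g : Tri g₁ g₂ g₃) (h : g₁ ∈ GO Q8) : g₁ ∈ DS Q8 := by
  by_contra h1
  obtain ⟨k₂, k₃, h2⟩ := exists_tri_of_DS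
    ((mul_refl_mem_DS_iff (nd_QP 4) nonExc8 even8 h Q_e8_ne).2 h1)
  have := g.inv.mul h2
  rw [inv_mul_cancel_left] at this
  exact not_tri_r8 this

lemma Tri.mem_DS₂ (g : Tri g₁ g₂ g₃) (h : g₁ ∈ GO Q8) : g₂ ∈ DS Q8 :=
  g.cyc.mem_DS (g.1.trans h)

lemma Tri.chi_c {h : OG Q8} (g : Tri (SS.ofO Q8 h) g₂ g₃) : chi (g₂.c : F) = theta h := by
  obtain ⟨k₂, k₃, h1, h2, -⟩ := exists_tri_of_even
    ((ofO_mem_DS_iff (nd_QP 4) nonExc8).1 (g.mem_DS rfl))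
  obtain ⟨l, hl⟩ := (h1.inv.mul g).mem_ZS (by rw [inv_mul_cancel]; exact one_mem _)
  have := chi_c_mul k₂⁻¹ g₂
  rw [← hl, chi_c_inv, h2, SS.sc_c, Units.val_pow_eq_pow_val, chi_sq l.ne_zero] at this
  rcases theta_dichotomy (nd_QP 4) nonExc8 h with h3 | h3 <;> rw [h3] at this ⊢ <;> linarith

lemma exists_tri_Om (s₁ : Om Q8) :
    ∃ s₂ s₃ : Om Q8, Tri (SS.ofO Q8 s₁) (SS.ofO Q8 s₂) (SS.ofO Q8 s₃) := by
  obtain ⟨h1, h2⟩ := (mem_commutator_iff (nd_QP 4) nonExc8 _).1 s₁.2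
  obtain ⟨g₂, g₃, h3, h4, h5⟩ := exists_tri_of_even h1
  obtain ⟨k₂, l₂, a1, rfl⟩ := exists_of_DS_sq (nd_QP 4) nonExc8 even8 (h3.mem_DS₂ rfl) (h4.trans h2)
  obtain ⟨k₃, l₃, a2, rfl⟩ := exists_of_DS_sq (nd_QP 4) nonExc8 even8
    (h3.cyc.mem_DS₂ h3.1) (h5.trans h2)
  have h6 := h3.mul (tri_sc 1 l₂ l₃).inv
  simp only [map_one, inv_one, mul_one, mul_inv_cancel_right] at h6
  exact ⟨⟨k₂, (mem_commutator_iff (nd_QP 4) nonExc8 _).2 ⟨a1, by simpa using h6.cyc.chi_c.symm⟩⟩,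
    ⟨k₃, (mem_commutator_iff (nd_QP 4) nonExc8 _).2 ⟨a2, by simpa using h6.cyc.cyc.chi_c.symm⟩⟩, h6⟩

lemma pm_eq_one_iff {s : Om Q8} : pm Q8 s = 1 ↔ SS.ofO Q8 s ∈ ZS Q8 := by
  rw [QuotientGroup.mk'_apply, QuotientGroup.eq_one_iff, mem_center_Om_iff (nd_QP 4) (by simp)]
  refine ⟨fun ⟨l, hl⟩ => ?_, fun ⟨l, hl⟩ => ⟨l, fun v => (congrArg (·.γ v) hl).symm⟩⟩
  obtain ⟨k, hk⟩ := exists_sc_of_fix (nd_QP 4) (by simp) (SS.ofO Q8 s.1) fun u _ =>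
    Submodule.mem_span_singleton.2 ⟨l, (hl u).symm⟩
  exact ⟨k, hk.symm⟩

lemma exists_mulAut_of_ker_eq {T G : Type*} [Group T] [Group G] (p q : T →* G)
    (hp : Function.Surjective p) (hq : Function.Surjective q) (h : p.ker = q.ker) :
    ∃ τ : MulAut G, ∀ t, τ (p t) = q t :=
  ⟨((QuotientGroup.quotientKerEquivOfSurjective p hp).symm.trans
    (QuotientGroup.quotientMulEquivOfEq h)).trans (QuotientGroup.quotientKerEquivOfSurjective q hq),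
    fun t => by
      have : (QuotientGroup.quotientKerEquivOfSurjective p hp).symm (p t) = QuotientGroup.mk t :=
        (MulEquiv.symm_apply_eq _).2 rfl
      change QuotientGroup.quotientKerEquivOfSurjective q hq (QuotientGroup.quotientMulEquivOfEq h
        ((QuotientGroup.quotientKerEquivOfSurjective p hp).symm (p t))) = _
      rw [this]; rfl⟩

lemma exists_mulAut_of_rel {S G : Type*} [Group S] [Group G] (p : S →* G)
    (hp : Function.Surjective p) (R : S → S → S → Prop) (one : R 1 1 1)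
    (mul : ∀ a b c a' b' c', R a b c → R a' b' c' → R (a * a') (b * b') (c * c'))
    (inv : ∀ a b c, R a b c → R a⁻¹ b⁻¹ c⁻¹) (cyc : ∀ a b c, R a b c → R b c a)
    (ex : ∀ a, ∃ b c, R a b c) (ker : ∀ a b c, R a b c → p a = 1 → p b = 1) :
    ∃ τ : MulAut G, ∀ a b c, R a b c → τ (p a) = p b := by
  let T : Subgroup (S × S × S) :=
    { carrier := {s | R s.1 s.2.1 s.2.2}
      one_mem' := one
      mul_mem' := fun ha hb => mul _ _ _ _ _ _ ha hb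
      inv_mem' := fun ha => inv _ _ _ ha }
  obtain ⟨τ, h⟩ := exists_mulAut_of_ker_eq
    (p.comp ((MonoidHom.fst _ _).comp T.subtype))
    (p.comp ((MonoidHom.fst _ _).comp ((MonoidHom.snd _ _).comp T.subtype)))
    (fun x => by
      obtain ⟨s, rfl⟩ := hp x
      obtain ⟨s₂, s₃, h⟩ := ex s
      exact ⟨⟨(s, s₂, s₃), h⟩, rfl⟩)
    (fun x => by
      obtain ⟨s, rfl⟩ := hp x
      obtain ⟨s₂, s₃, h⟩ := ex s
      exact ⟨⟨(s₃, s, s₂), cyc _ _ _ (cyc _ _ _ h)⟩, rfl⟩)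
    (Subgroup.ext fun x => ⟨fun h => ker _ _ _ x.2 h, fun h =>
      ker _ _ _ (cyc _ _ _ (cyc _ _ _ x.2)) (ker _ _ _ (cyc _ _ _ x.2) h)⟩)
  exact ⟨τ, fun s₁ s₂ s₃ hs => h ⟨(s₁, s₂, s₃), hs⟩⟩

omit [Finite F] in
lemma aut_ext {V : Type*} [AddCommGroup V] [Module F V] {Q : QuadraticForm F V}
    {α β : MulAut (POm Q)} (h : ∀ s, α (pm Q s) = β (pm Q s)) : α = β :=
  MulEquiv.ext fun x => by
    obtain ⟨s, rfl⟩ := QuotientGroup.mk'_surjective _ x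
    exact h s

omit [Finite F] in
lemma ofO_actOm {V : Type*} [AddCommGroup V] [Module F V] {Q : QuadraticForm F V} (g : SS Q)
    (s : Om Q) : SS.ofO Q (actOm Q g s).1 = g * SS.ofO Q s.1 * g⁻¹ := SS.ofO_actO g s

lemma exists_of_act_conj {V : Type*} [AddCommGroup V] [Module F V] [FiniteDimensional F V]
    {Q : QuadraticForm F V} (hQ : ND Q) (h5 : 5 ≤ finrank F V) {g k : SS Q} {a b : V}
    (h : act Q g * act Q (SS.ofO Q (refl Q a) * SS.ofO Q (refl Q b)) * (act Q g)⁻¹ = act Q k) :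
    ∃ l : F, ∀ x, polar Q (g.γ a) x = 0 → polar Q (g.γ b) x = 0 → k.γ x = l • x := by
  rw [← map_inv, ← map_mul, ← map_mul, ← map_mul (SS.ofO Q), ← SS.ofO_actO, map_mul (SS.actO Q g),
    SS.actO_refl, SS.actO_refl, eq_comm, ← mul_inv_eq_one, ← map_inv, ← map_mul,
    act_eq_one_iff hQ h5] at h
  obtain ⟨l, h⟩ := h
  refine ⟨l, fun x h1 h2 => ?_⟩
  rw [mul_inv_eq_iff_eq_mul.1 h, SS.mul_apply, SS.ofO_apply, SS.sc_apply, OG.mul_apply,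
    refl_of_perp ((B_comm _ _ _).trans h2), refl_of_perp ((B_comm _ _ _).trans h1)]

lemma exists_triality_aux : ∃ τ : MulAut (POm Q8), ∀ s₁ s₂ s₃ : Om Q8,
    Tri (SS.ofO Q8 s₁.1) (SS.ofO Q8 s₂.1) (SS.ofO Q8 s₃.1) → τ (pm Q8 s₁) = pm Q8 s₂ := by
  refine exists_mulAut_of_rel (pm Q8) (QuotientGroup.mk'_surjective _) _ ?_
    (fun a b c a' b' c' h h' => ?_) (fun a b c h => ?_) (fun a b c h => h.cyc) exists_tri_Om
    fun a b c h h' => pm_eq_one_iff.2 (h.mem_ZS (pm_eq_one_iff.1 h'))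
  · simp only [Subgroup.coe_one, map_one]; exact Tri.one
  · simp only [Subgroup.coe_mul, map_mul]; exact h.mul h'
  · simp only [Subgroup.coe_inv, map_inv]; exact h.inv

theorem exists_triality : ∃ τ : MulAut (POm Q8),
    (∀ g₁ g₂ g₃, Tri g₁ g₂ g₃ → τ * act Q8 g₁ * τ⁻¹ = act Q8 g₂) ∧ τ * τ * τ = 1 ∧
    act Q8 (r8 F) * τ = τ * τ * act Q8 (r8 F) ∧ τ ∉ (act Q8).range := by
  obtain ⟨τ, h⟩ := exists_triality_aux (F := F)
  have h1 : ∀ g₁ g₂ g₃, Tri g₁ g₂ g₃ → τ * act Q8 g₁ * τ⁻¹ = act Q8 g₂ := fun g₁ g₂ g₃ hg => by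
    rw [mul_inv_eq_iff_eq_mul]
    refine aut_ext fun s => ?_
    obtain ⟨s₂, s₃, hs⟩ := exists_tri_Om s
    rw [MulAut.mul_apply, MulAut.mul_apply, h s s₂ s₃ hs, act_pm, act_pm]
    refine h _ _ (actOm Q8 g₃ s₃) ?_
    rw [ofO_actOm, ofO_actOm, ofO_actOm]; exact (hg.mul hs).mul hg.inv
  refine ⟨τ, h1, aut_ext fun s => ?_, aut_ext fun s => ?_, ?_⟩
  · obtain ⟨s₂, s₃, hs⟩ := exists_tri_Om s
    rw [MulAut.mul_apply, MulAut.mul_apply, h s s₂ s₃ hs, h s₂ s₃ s hs.cyc, h s₃ s s₂ hs.cyc.cyc]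
    rfl
  · obtain ⟨s₂, s₃, hs⟩ := exists_tri_Om s
    have h2 : Tri (SS.ofO Q8 (actOm Q8 (r8 F) s).1) (SS.ofO Q8 (actOm Q8 (r8 F) s₃).1)
        (SS.ofO Q8 (actOm Q8 (r8 F) s₂).1) := by
      rw [ofO_actOm, ofO_actOm, ofO_actOm, inv_eq_of_mul_eq_one_right r8_mul_self]
      exact hs.swap
    exact ((congrArg (act Q8 (r8 F)) (h s s₂ s₃ hs)).trans (act_pm _ _)).trans
      ((congrArg τ ((congrArg τ (act_pm (r8 F) s)).trans (h _ _ _ h2))).trans (h _ _ _ h2.cyc)).symm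
  · rintro ⟨g, rfl⟩
    have hq : Q8 (e8 + Pi.single (.inl 1) 1) = 1 := by simp [QP_apply, e8, Fin.sum_univ_four]
    have ha : Q8 (e8 + Pi.single (.inl 1) 1) ≠ 0 := by rw [hq]; exact one_ne_zero
    obtain ⟨l, h2⟩ := exists_of_act_conj (nd_QP 4) (by simp) (h1 _ _ _ (tri_refl ha))
    obtain ⟨x, hx, h3, h4⟩ := exists_nonsing_perp (g.γ (e8 + Pi.single (.inl 1) 1)) (g.γ e8)
    have h5 := h2 x h3 h4
    rw [SS.mul_apply, SS.ofO_apply, ← neg_neg ((refl Q8 e8).1 x), ← e8_st] at h5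
    have h6 := congrArg (st (e8 + Pi.single (.inl 1) 1)) h5
    change st _ (st _ _) = _ at h6
    rw [st_left, ← LinearMap.neg_apply, ← map_neg, ← LinearMap.smul_apply, ← map_smul, map_smul _ l,
      ← LinearMap.smul_apply, ← map_smul, ← sub_eq_zero, ← LinearMap.sub_apply, ← map_sub] at h6
    have h7 := congrFun (eq_zero_of_st_right hx h6) (.inl 1)
    have h8 := congrFun (eq_zero_of_st_right hx h6) (.inl 0)
    rw [hq] at h7 h8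
    simp [e8] at h7
    simp [e8, h7] at h8

end Cfsg.Agent.H7
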