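import Cfsg.Agent.H7.BalF

/-!
A linear map with non-square scalar square makes the space a vector space over a quadratic
extension.
-/

set_option autoImplicit false

namespace Cfsg.Agent.H7

open QuadraticMap Module Subgroup QuadraticAlgebra

variable {F V : Type*} [Field F] [AddCommGroup V] [Module F V] {Q : QuadraticForm F V} {ν : F}

/-- the module structure over the quadratic algebra -/
@[reducible] def twMod (g : V →ₗ[F] V) (hg : ∀ x, g (g x) = ν • x) :
    Module (QuadraticAlgebra F ν 0) V where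
  smul z x := z.re • x + z.im • g x
  one_smul x := by change (1 : F) • x + (0 : F) • g x = x; simp
  mul_smul z w x := by
    change (z * w).re • x + (z * w).im • g x =
      z.re • (w.re • x + w.im • g x) + z.im • g (w.re • x + w.im • g x)
    simp only [re_mul, im_mul, map_add, map_smul, hg]; module
  smul_zero z := by change z.re • (0 : V) + z.im • g 0 = 0; simp
  smul_add z x y := by
    change z.re • (x + y) + z.im • g (x + y) = (z.re • x + z.im • g x) + (z.re • y + z.im • g y)
    simp only [map_add]; module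
  add_smul z w x := by
    change (z.re + w.re) • x + (z.im + w.im) • g x = (z.re • x + z.im • g x) + (w.re • x + w.im • g x)
    module
  zero_smul x := by change (0 : F) • x + (0 : F) • g x = 0; simp

lemma twMod_tower (g : V →ₗ[F] V) (hg : ∀ x, g (g x) = ν • x) :
    letI := twMod g hg
    IsScalarTower F (QuadraticAlgebra F ν 0) V := by
  letI := twMod g hg
  refine ⟨fun a z x => ?_⟩
  change (a • z.re) • x + (a • z.im) • g x = a • (z.re • x + z.im • g x)
  module

lemma twMod_omega (g : V →ₗ[F] V) (hg : ∀ x, g (g x) = ν • x) (x : V) :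
    letI := twMod g hg
    (ω : QuadraticAlgebra F ν 0) • x = g x := by
  change (0 : F) • x + (1 : F) • g x = _
  simp

lemma fact_of_not_isSquare (h : ¬ IsSquare ν) : Fact (∀ r : F, r ^ 2 ≠ ν + 0 * r) :=
  ⟨fun r hr => h ⟨r, by linear_combination -hr⟩⟩

variable [Fact (∀ r : F, r ^ 2 ≠ ν + 0 * r)] [Module (QuadraticAlgebra F ν 0) V]
  [IsScalarTower F (QuadraticAlgebra F ν 0) V]

local notation "E" => QuadraticAlgebra F ν 0

lemma tw_smul (z : E) (x : V) : z • x = z.re • x + z.im • (ω : E) • x := by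
  conv_lhs => rw [show z = z.re • (1 : E) + z.im • ω by ext <;> simp]
  simp [add_smul]

lemma tw_omega_omega (x : V) : (ω : E) • (ω : E) • x = ν • x := by
  rw [smul_smul, show (ω : E) * ω = ν • 1 by ext <;> simp, smul_assoc, one_smul]

variable (F ν V) in
lemma tw_finrank : finrank F V = 2 * finrank E V := by
  rw [← finrank_mul_finrank F E V, finrank_eq_two]

variable (F ν V) in
lemma tw_finiteDimensional [FiniteDimensional F V] : FiniteDimensional E V :=
  Module.Finite.of_restrictScalars_finite F E V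

variable (F ν) in
omit [Fact (∀ r : F, r ^ 2 ≠ ν + 0 * r)] in
lemma tw_finite [Finite F] : Finite E := Finite.of_equiv _ (equivProd ν 0).symm

lemma tw_det {g : V →ₗ[F] V} (hg : ∀ x, g x = (ω : E) • x) :
    LinearMap.det g = (-ν) ^ finrank E V := by
  have h1 : g = ((ω : E) • (LinearMap.id : V →ₗ[E] V)).restrictScalars F := LinearMap.ext hg
  have h2 : Algebra.norm F (ω : E) = -ν := by
    exact (det_toLinearMap_eq_norm (ω : E)).trans (by simp [norm_def])
  rw [h1, LinearMap.det_restrictScalars, LinearMap.det_smul, LinearMap.det_id, mul_one, map_pow, h2]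

omit [Module (QuadraticAlgebra F ν 0) V] [IsScalarTower F (QuadraticAlgebra F ν 0) V] in
lemma tw_ne_zero : ν ≠ 0 := fun h => (Fact.out : ∀ r : F, r ^ 2 ≠ ν + 0 * r) 0 (by simp [h])

variable (hB : ∀ x y, polar Q ((ω : QuadraticAlgebra F ν 0) • x) y =
  polar Q x ((ω : QuadraticAlgebra F ν 0) • y))

/-- the bilinear form over the quadratic extension -/
def twB : LinearMap.BilinForm E V := LinearMap.mk₂ E
  (fun x y => ⟨polar Q x y, ν⁻¹ * polar Q ((ω : E) • x) y⟩)
  (fun x y z => by ext <;> simp [mul_add])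
  (fun c x y => by
    have := tw_ne_zero (ν := ν)
    rw [tw_smul c x]
    ext <;> simp [smul_comm (ω : E) (_ : F), tw_omega_omega] <;> field_simp)
  (fun x y z => by ext <;> simp [mul_add])
  (fun c x y => by
    have := tw_ne_zero (ν := ν)
    rw [tw_smul c y]
    ext <;> simp [← hB, tw_omega_omega] <;> field_simp)

/-- the quadratic form over the quadratic extension -/
def twQ : QuadraticForm E V := LinearMap.BilinMap.toQuadraticMap ((2 : E)⁻¹ • twB hB)

variable (h2 : (2 : F) ≠ 0)
include h2

omit [Module (QuadraticAlgebra F ν 0) V] [IsScalarTower F (QuadraticAlgebra F ν 0) V] in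
lemma tw_two : (2 : E) ≠ 0 := fun h => h2 ((two_eq_zero_iff_of_hom (algebraMap F E)).1 h)

lemma polar_twQ (x y : V) : polar (twQ hB) x y = ⟨polar Q x y, ν⁻¹ * polar Q ((ω : E) • x) y⟩ := by
  have h1 : twB hB y x = twB hB x y := by
    ext
    · exact B_comm _ _ _
    · exact congrArg (ν⁻¹ * ·) ((hB y x).trans (B_comm _ _ _))
  rw [twQ, LinearMap.BilinMap.polar_toQuadraticMap, LinearMap.smul_apply, LinearMap.smul_apply,
    LinearMap.smul_apply, LinearMap.smul_apply, h1, ← smul_add, ← two_mul, smul_eq_mul,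
    inv_mul_cancel_left₀ (tw_two h2)]
  rfl

lemma re_twQ (x : V) : (twQ hB x).re = Q x := by
  have h1 := congrArg re (B_self (twQ hB) x)
  rw [polar_twQ hB h2, B_self, two_mul (twQ hB x)] at h1
  exact mul_left_cancel₀ h2 (by simpa [two_mul] using h1.symm)

lemma im_twQ (x : V) : 2 * (twQ hB x).im = ν⁻¹ * polar Q ((ω : E) • x) x := by
  have h1 := congrArg im (B_self (twQ hB) x)
  rw [polar_twQ hB h2, two_mul (twQ hB x)] at h1
  simpa [two_mul] using h1.symm

lemma nd_twQ (hQ : ND Q) : ND (twQ hB) := nd_of fun x hx => hQ.eq_zero fun y => by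
  have := congrArg re (hx y)
  rwa [polar_twQ hB h2] at this

/-- restriction of scalars -/
def twRes : OG (twQ hB) →* OG Q where
  toFun s := ⟨s.1.restrictScalars F, fun v => by
    rw [← re_twQ hB h2, ← re_twQ hB h2]; exact congrArg re (s.2 v)⟩
  map_one' := rfl
  map_mul' _ _ := rfl

lemma twRes_apply (s : OG (twQ hB)) (x : V) : (twRes hB h2 s).1 x = s.1 x := rfl

lemma exists_twSS {d : SS Q} (hd : d ∈ GO Q) {l : F} (hl : l = 1 ∨ l = -1)
    (h : ∀ x, d.γ ((ω : E) • x) = l • (ω : E) • d.γ x) : ∃ D : SS (twQ hB), ∀ x, D.γ x = d.γ x := by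
  have hd' : ∀ (a : F) x, d.γ (a • x) = a • d.γ x := fun a x => by rw [d.map_smul, mem_GO.1 hd]; rfl
  have hd2 : ∀ x y, polar Q (d.γ x) (d.γ y) = d.c * polar Q x y := fun x y => by
    rw [d.map_B, mem_GO.1 hd]; rfl
  have key : ∀ σ : E ≃+* E, (∀ z, σ z = ⟨z.re, l * z.im⟩) →
      ∃ D : SS (twQ hB), ∀ x, D.γ x = d.γ x := fun σ hσ =>
    ⟨⟨σ, Units.map (algebraMap F E : F →* E) d.c, d.γ, fun a x => by
      rw [tw_smul a, tw_smul (σ a), hσ, map_add, hd', hd', h, smul_smul, mul_comm], fun x => by
      apply mul_left_cancel₀ (tw_two h2)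
      rw [mul_left_comm, ← map_ofNat σ 2, ← map_mul, map_ofNat, ← B_self, ← B_self, polar_twQ hB h2,
        polar_twQ hB h2, hσ]
      have h3 := hd2 ((ω : E) • x) x
      rw [h, B_smul_left] at h3
      ext
      · simp [hd2]
      · rcases hl with rfl | rfl <;> simp at h3 ⊢
        · rw [h3]; ring
        · rw [neg_eq_iff_eq_neg.1 h3]; ring⟩, fun _ => rfl⟩
  rcases hl with rfl | rfl
  · exact key (RingEquiv.refl _) fun z => by ext <;> simp
  · exact key starRingAut fun z => by ext <;> simp

end Cfsg.Agent.H7
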